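import Groth.Agent.Gaga.H506.Scv
import Mathlib.Analysis.SpecificLimits.Normed

/-!
# Weierstrass division for germs of holomorphic functions on `E × ℂ`
-/

set_option autoImplicit false
set_option linter.unusedSectionVars false

open Filter Topology Metric Set

namespace Groth.Agent.Gaga.H506.Weier

open Groth.Agent.Gaga.H506.Scv

variable {E : Type*} [NormedAddCommGroup E] [NormedSpace ℂ E]

/-- the iterated slope operator -/
noncomputable def slk (z₀ : ℂ) (k : ℕ) (g : E × ℂ → ℂ) : E × ℂ → ℂ := (sl z₀)^[k] g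

@[simp] theorem slk_zero (z₀ : ℂ) (g : E × ℂ → ℂ) : slk z₀ 0 g = g := rfl

theorem slk_succ (z₀ : ℂ) (k : ℕ) (g : E × ℂ → ℂ) : slk z₀ (k + 1) g = sl z₀ (slk z₀ k g) :=
  Function.iterate_succ_apply' _ _ _

theorem slk_succ' (z₀ : ℂ) (k : ℕ) (g : E × ℂ → ℂ) : slk z₀ (k + 1) g = slk z₀ k (sl z₀ g) :=
  Function.iterate_succ_apply _ _ _

theorem taylor (z₀ : ℂ) (k : ℕ) (g : E × ℂ → ℂ) (w : E) (z : ℂ) :
    g (w, z) = (∑ j ∈ Finset.range k, slk z₀ j g (w, z₀) * (z - z₀) ^ j) +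
      (z - z₀) ^ k * slk z₀ k g (w, z) := by
  induction k with
  | zero => simp
  | succ k ih =>
    rw [Finset.sum_range_succ, slk_succ]
    have h := sl_spec z₀ (slk z₀ k g) w z
    rw [smul_eq_mul] at h
    rw [ih, h]
    ring

theorem differentiableOn_slk {W : Set E} (hW : IsOpen W) {z₀ : ℂ} {r : ℝ}
    {g : E × ℂ → ℂ} (hg : DifferentiableOn ℂ g (W ×ˢ ball z₀ r)) (k : ℕ) :
    DifferentiableOn ℂ (slk z₀ k g) (W ×ˢ ball z₀ r) := by
  induction k with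
  | zero => exact hg
  | succ k ih => rw [slk_succ]; exact differentiableOn_sl hW ih

theorem norm_slk_le {W : Set E} (hW : IsOpen W) {z₀ : ℂ} {r M : ℝ}
    {g : E × ℂ → ℂ} (hg : DifferentiableOn ℂ g (W ×ˢ ball z₀ r))
    (hM : ∀ p ∈ W ×ˢ ball z₀ r, ‖g p‖ ≤ M) (k : ℕ) :
    ∀ p ∈ W ×ˢ ball z₀ r, ‖slk z₀ k g p‖ ≤ (2 / r) ^ k * M := by
  induction k with
  | zero => simpa using hM
  | succ k ih =>
    intro p hp
    rw [slk_succ]
    refine (norm_sl_le (differentiableOn_slk hW hg k) ih p hp).trans_eq ?_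
    ring

/-- If `G = a + (z - z₀) G₁` on a slice with `G₁` continuous at `z₀` then `sl G = G₁`. -/
theorem sl_eq_of {z₀ : ℂ} {r : ℝ} {W : Set E} {G G₁ : E × ℂ → ℂ} {a : E → ℂ}
    (hG₁ : ∀ w ∈ W, ContinuousAt (fun z => G₁ (w, z)) z₀)
    (h : ∀ p ∈ W ×ˢ ball z₀ r, G p = a p.1 + (p.2 - z₀) * G₁ p) :
    ∀ p ∈ W ×ˢ ball z₀ r, sl z₀ G p = G₁ p := by
  rintro ⟨w, z⟩ ⟨hw, hz⟩
  simp only at hw hz
  have hr : 0 < r := lt_of_le_of_lt dist_nonneg hz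
  have h0 : G (w, z₀) = a w := by
    have := h (w, z₀) ⟨hw, mem_ball_self hr⟩
    simpa using this
  have hsl : ∀ z' ∈ ball z₀ r, z' ≠ z₀ → dslope (fun ζ => G (w, ζ)) z₀ z' = G₁ (w, z') := by
    intro z' hz' hne
    rw [dslope_of_ne _ hne, slope_def_field, h0, h (w, z') ⟨hw, hz'⟩]
    have : z' - z₀ ≠ 0 := sub_ne_zero.2 hne
    simp only [add_sub_cancel_left]
    field_simp
  by_cases hne : z = z₀
  · subst hne
    change dslope (fun ζ => G (w, ζ)) z z = _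
    rw [dslope_same]
    have hd : HasDerivAt (fun ζ => G (w, ζ)) (G₁ (w, z)) z := by
      rw [hasDerivAt_iff_tendsto_slope]
      have h1 : Tendsto (fun z' => G₁ (w, z')) (𝓝[≠] z) (𝓝 (G₁ (w, z))) :=
        (hG₁ w hw).tendsto.mono_left nhdsWithin_le_nhds
      refine h1.congr' ?_
      have h2 : ∀ᶠ z' in 𝓝[≠] z, z' ∈ ball z r := nhdsWithin_le_nhds (isOpen_ball.mem_nhds hz)
      filter_upwards [h2, self_mem_nhdsWithin] with z' hz' hne'
      rw [← hsl z' hz' hne', dslope_of_ne _ hne']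
    exact hd.deriv
  · exact hsl z hz hne

theorem slk_eq_of {z₀ : ℂ} {r : ℝ} {W : Set E} (ν : ℕ) {G q : E × ℂ → ℂ} {a : ℕ → E → ℂ}
    (hq : ∀ w ∈ W, ContinuousAt (fun z => q (w, z)) z₀)
    (h : ∀ p ∈ W ×ˢ ball z₀ r, G p = (∑ j ∈ Finset.range ν, a j p.1 * (p.2 - z₀) ^ j) +
      (p.2 - z₀) ^ ν * q p) :
    ∀ p ∈ W ×ˢ ball z₀ r, slk z₀ ν G p = q p := by
  induction ν generalizing G a with
  | zero => intro p hp; simpa using h p hp
  | succ ν ih =>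
    rw [slk_succ']
    set G₁ : E × ℂ → ℂ := fun p => (∑ j ∈ Finset.range ν, a (j + 1) p.1 * (p.2 - z₀) ^ j) +
      (p.2 - z₀) ^ ν * q p with hG₁
    have h1 : ∀ p ∈ W ×ˢ ball z₀ r, sl z₀ G p = G₁ p := by
      refine sl_eq_of (a := a 0) ?_ ?_
      · intro w hw
        have := hq w hw
        simp only [hG₁]
        refine ContinuousAt.add ?_ (ContinuousAt.mul (by fun_prop) this)
        exact (continuous_finsetSum _ fun j _ => by fun_prop).continuousAt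
      · intro p hp
        rw [h p hp, Finset.sum_range_succ', hG₁]
        simp only [mul_add, Finset.mul_sum]
        have : ∀ j, (p.2 - z₀) * (a (j + 1) p.1 * (p.2 - z₀) ^ j) =
            a (j + 1) p.1 * (p.2 - z₀) ^ (j + 1) := fun j => by ring
        simp only [this]
        ring
    exact ih h1

/-- Quantitative division: `h = (z - z₀)^ν + e` with `e` small on `W × ball z₀ r`. -/
theorem division_on {W : Set E} (hW : IsOpen W) {z₀ : ℂ} {r : ℝ} (hr : 0 < r) (ν : ℕ)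
    {e : E × ℂ → ℂ} (he : DifferentiableOn ℂ e (W ×ˢ ball z₀ r))
    (heb : ∀ p ∈ W ×ˢ ball z₀ r, (2 / r) ^ ν * ‖e p‖ ≤ 1 / 2)
    {g : E × ℂ → ℂ} (hg : DifferentiableOn ℂ g (W ×ˢ ball z₀ r)) {M : ℝ} (hM0 : 0 ≤ M)
    (hM : ∀ p ∈ W ×ˢ ball z₀ r, ‖g p‖ ≤ M) :
    ∃ (q : E × ℂ → ℂ) (a : ℕ → E → ℂ), DifferentiableOn ℂ q (W ×ˢ ball z₀ r) ∧
      (∀ j, DifferentiableOn ℂ (a j) W) ∧
      (∀ p ∈ W ×ˢ ball z₀ r, g p = q p * ((p.2 - z₀) ^ ν + e p) +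
        ∑ j ∈ Finset.range ν, a j p.1 * (p.2 - z₀) ^ j) ∧
      (∀ p ∈ W ×ˢ ball z₀ r, ‖q p‖ ≤ 2 * (2 / r) ^ ν * M) := by
  -- the iteration
  let G : ℕ → (E × ℂ → ℂ) := fun m => Nat.rec g (fun _ G p => -(slk z₀ ν G p) * e p) m
  have hG0 : G 0 = g := rfl
  have hGs : ∀ m, G (m + 1) = fun p => -(slk z₀ ν (G m) p) * e p := fun m => rfl
  have hO : IsOpen (W ×ˢ ball z₀ r) := hW.prod isOpen_ball
  have hGd : ∀ m, DifferentiableOn ℂ (G m) (W ×ˢ ball z₀ r) := by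
    intro m
    induction m with
    | zero => exact hg
    | succ m ih =>
      rw [hGs]
      exact (differentiableOn_slk hW ih ν).neg.mul he
  have hGb : ∀ m, ∀ p ∈ W ×ˢ ball z₀ r, ‖G m p‖ ≤ M * (1 / 2) ^ m := by
    intro m
    induction m with
    | zero =>
      intro p hp
      rw [hG0, pow_zero, mul_one]
      exact hM p hp
    | succ m ih =>
      intro p hp
      rw [hGs]
      simp only [norm_mul, norm_neg]
      have h1 := norm_slk_le hW (hGd m) ih ν p hp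
      calc ‖slk z₀ ν (G m) p‖ * ‖e p‖ ≤ ((2 / r) ^ ν * (M * (1 / 2) ^ m)) * ‖e p‖ :=
            mul_le_mul_of_nonneg_right h1 (norm_nonneg _)
        _ = (M * (1 / 2) ^ m) * ((2 / r) ^ ν * ‖e p‖) := by ring
        _ ≤ (M * (1 / 2) ^ m) * (1 / 2) := by
            refine mul_le_mul_of_nonneg_left (heb p hp) (by positivity)
        _ = M * (1 / 2) ^ (m + 1) := by ring
  have hsum : Summable (fun m : ℕ => M * (1 / 2 : ℝ) ^ m) :=
    (summable_geometric_of_lt_one (by norm_num) (by norm_num)).mul_left M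
  have hslb : ∀ k m, ∀ p ∈ W ×ˢ ball z₀ r, ‖slk z₀ k (G m) p‖ ≤ (2 / r) ^ k * (M * (1 / 2) ^ m) :=
    fun k m => norm_slk_le hW (hGd m) (hGb m) k
  have hsumk : ∀ k : ℕ, Summable (fun m : ℕ => (2 / r) ^ k * (M * (1 / 2 : ℝ) ^ m)) := fun k =>
    hsum.mul_left _
  have hnegd : ∀ k m, DifferentiableOn ℂ (slk z₀ k (G m)) (W ×ˢ ball z₀ r) := fun k m =>
    differentiableOn_slk hW (hGd m) k
  refine ⟨fun p => ∑' m, slk z₀ ν (G m) p, fun j w => ∑' m, slk z₀ j (G m) (w, z₀),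
    differentiableOn_tsum hO (hsumk ν) (hnegd ν) (hslb ν), ?_, ?_, ?_⟩
  · intro j
    refine differentiableOn_tsum hW (hsumk j) (fun m => ?_) (fun m w hw =>
      hslb j m (w, z₀) ⟨hw, mem_ball_self hr⟩)
    have h1 : DifferentiableOn ℂ (fun w : E => (w, z₀)) W := by fun_prop
    exact (hnegd j m).comp h1 (fun w hw => ⟨hw, mem_ball_self hr⟩)
  · rintro ⟨w, z⟩ hp
    have hw : w ∈ W := hp.1
    -- telescoping
    have hG_tend : Tendsto (fun m => G m (w, z)) atTop (𝓝 0) := by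
      refine squeeze_zero_norm (fun m => hGb m (w, z) hp) ?_
      have := (tendsto_pow_atTop_nhds_zero_of_lt_one (r := (1 / 2 : ℝ)) (by norm_num)
        (by norm_num)).const_mul M
      simpa using this
    have hSq : Summable (fun m => slk z₀ ν (G m) (w, z)) :=
      Summable.of_norm_bounded (hsumk ν) (fun m => hslb ν m (w, z) hp)
    have hSa : ∀ j, Summable (fun m => slk z₀ j (G m) (w, z₀)) := fun j =>
      Summable.of_norm_bounded (hsumk j) (fun m => hslb j m (w, z₀) ⟨hw, mem_ball_self hr⟩)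
    have hstep : ∀ m, G m (w, z) - G (m + 1) (w, z) =
        slk z₀ ν (G m) (w, z) * ((z - z₀) ^ ν + e (w, z)) +
          ∑ j ∈ Finset.range ν, slk z₀ j (G m) (w, z₀) * (z - z₀) ^ j := by
      intro m
      rw [hGs]
      simp only
      rw [taylor z₀ ν (G m) w z]
      ring
    have h1 : HasSum (fun m => G m (w, z) - G (m + 1) (w, z))
        ((∑' m, slk z₀ ν (G m) (w, z)) * ((z - z₀) ^ ν + e (w, z)) +
          ∑ j ∈ Finset.range ν, (∑' m, slk z₀ j (G m) (w, z₀)) * (z - z₀) ^ j) := by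
      simp only [hstep]
      refine (hSq.hasSum.mul_right _).add ?_
      exact hasSum_sum fun j _ => (hSa j).hasSum.mul_right _
    have h2 : HasSum (fun m => G m (w, z) - G (m + 1) (w, z)) (g (w, z)) := by
      have hs : Summable (fun m => G m (w, z) - G (m + 1) (w, z)) := h1.summable
      rw [hs.hasSum_iff_tendsto_nat]
      simp only [Finset.sum_range_sub']
      have : Tendsto (fun n => G 0 (w, z) - G n (w, z)) atTop (𝓝 (G 0 (w, z) - 0)) :=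
        hG_tend.const_sub _
      simpa [hG0] using this
    exact h2.unique h1
  · intro p hp
    have h1 : ‖∑' m, slk z₀ ν (G m) p‖ ≤ ∑' m, (2 / r) ^ ν * (M * (1 / 2 : ℝ) ^ m) :=
      tsum_of_norm_bounded (hsumk ν).hasSum (fun m => hslb ν m p hp)
    refine h1.trans_eq ?_
    rw [tsum_mul_left, tsum_mul_left, tsum_geometric_of_lt_one (by norm_num) (by norm_num)]
    ring

/-- Uniqueness of division. -/
theorem unique_on {W : Set E} (hW : IsOpen W) {z₀ : ℂ} {r : ℝ} (hr : 0 < r) (ν : ℕ)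
    {e : E × ℂ → ℂ} (he : DifferentiableOn ℂ e (W ×ˢ ball z₀ r))
    (heb : ∀ p ∈ W ×ˢ ball z₀ r, (2 / r) ^ ν * ‖e p‖ ≤ 1 / 2)
    {q : E × ℂ → ℂ} (hq : DifferentiableOn ℂ q (W ×ˢ ball z₀ r)) {M : ℝ} (hM0 : 0 ≤ M)
    (hM : ∀ p ∈ W ×ˢ ball z₀ r, ‖q p‖ ≤ M) {a : ℕ → E → ℂ}
    (h : ∀ p ∈ W ×ˢ ball z₀ r, q p * ((p.2 - z₀) ^ ν + e p) +
        ∑ j ∈ Finset.range ν, a j p.1 * (p.2 - z₀) ^ j = 0) :
    ∀ p ∈ W ×ˢ ball z₀ r, q p = 0 := by
  have hO : IsOpen (W ×ˢ ball z₀ r) := hW.prod isOpen_ball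
  have hqc : ∀ w ∈ W, ContinuousAt (fun z => q (w, z)) z₀ := by
    intro w hw
    have h1 : (w, z₀) ∈ W ×ˢ ball z₀ r := ⟨hw, mem_ball_self hr⟩
    have h2 := ((hq _ h1).differentiableAt (hO.mem_nhds h1)).continuousAt
    exact ContinuousAt.comp (f := fun z : ℂ => (w, z)) (g := q) h2 (by fun_prop)
  have key : ∀ p ∈ W ×ˢ ball z₀ r, slk z₀ ν (fun p => -(e p * q p)) p = q p := by
    refine slk_eq_of ν (a := a) hqc ?_
    intro p hp
    have := h p hp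
    linear_combination (-1 : ℂ) * this
  have hbound : ∀ n : ℕ, ∀ p ∈ W ×ˢ ball z₀ r, ‖q p‖ ≤ M * (1 / 2) ^ n := by
    intro n
    induction n with
    | zero => simpa using hM
    | succ n ih =>
      have h1 : ∀ p ∈ W ×ˢ ball z₀ r, ‖(fun p => -(e p * q p)) p‖ ≤
          (M * (1 / 2) ^ n) * (1 / 2 / (2 / r) ^ ν) := by
        intro p hp
        simp only [norm_neg, norm_mul]
        rw [mul_comm]
        refine mul_le_mul (ih p hp) ?_ (norm_nonneg _) (by positivity)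
        rw [le_div_iff₀ (by positivity), mul_comm]
        exact heb p hp
      intro p hp
      rw [← key p hp]
      refine (norm_slk_le hW (he.mul hq).neg h1 ν p hp).trans_eq ?_
      have : (2 / r) ^ ν ≠ 0 := by positivity
      field_simp
      ring
  intro p hp
  have h1 : Tendsto (fun n : ℕ => M * (1 / 2 : ℝ) ^ n) atTop (𝓝 0) := by
    have := (tendsto_pow_atTop_nhds_zero_of_lt_one (r := (1 / 2 : ℝ)) (by norm_num)
      (by norm_num)).const_mul M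
    simpa using this
  have h2 : ‖q p‖ ≤ 0 := ge_of_tendsto' h1 (fun n => hbound n p hp)
  exact norm_le_zero_iff.1 h2

/-- `f` is regular of order `ν` in the last variable at `(w₀, z₀)`. -/
def Reg (f : E × ℂ → ℂ) (ν : ℕ) (w₀ : E) (z₀ : ℂ) : Prop :=
  (∀ j < ν, slk z₀ j f (w₀, z₀) = 0) ∧ slk z₀ ν f (w₀, z₀) ≠ 0

/-- boxes form a basis of neighbourhoods -/
theorem exists_box {N : Set (E × ℂ)} {w₀ : E} {z₀ : ℂ} (hN : N ∈ 𝓝 (w₀, z₀)) :
    ∃ δ > 0, ball w₀ δ ×ˢ ball z₀ δ ⊆ N := by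
  obtain ⟨δ, hδ, h⟩ := Metric.mem_nhds_iff.1 hN
  exact ⟨δ, hδ, by rwa [ball_prod_same]⟩

theorem HolAt.exists_box {f : E × ℂ → ℂ} {w₀ : E} {z₀ : ℂ} (h : HolAt f (w₀, z₀))
    {N : Set (E × ℂ)} (hN : N ∈ 𝓝 (w₀, z₀)) :
    ∃ δ > 0, ∃ M > 0, ball w₀ δ ×ˢ ball z₀ δ ⊆ N ∧
      DifferentiableOn ℂ f (ball w₀ δ ×ˢ ball z₀ δ) ∧
      ∀ p ∈ ball w₀ δ ×ˢ ball z₀ δ, ‖f p‖ ≤ M := by
  obtain ⟨r, hr, M, hM, h1, h2⟩ := h.exists_bound
  obtain ⟨δ, hδ, h3⟩ := Weier.exists_box (Filter.inter_mem hN (ball_mem_nhds _ hr))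
  refine ⟨δ, hδ, M, hM, fun p hp => (h3 hp).1, h1.mono fun p hp => (h3 hp).2,
    fun p hp => h2 p (h3 hp).2⟩

/-- Normal form of a regular function on arbitrarily small boxes. -/
theorem Reg.exists_normal {f : E × ℂ → ℂ} {ν : ℕ} {w₀ : E} {z₀ : ℂ} (hf : HolAt f (w₀, z₀))
    (hreg : Reg f ν w₀ z₀) {N : Set (E × ℂ)} (hN : N ∈ 𝓝 (w₀, z₀)) :
    ∃ r > 0, ∃ δ > 0, δ ≤ r ∧ ball w₀ δ ×ˢ ball z₀ r ⊆ N ∧
      ∃ u e : E × ℂ → ℂ, DifferentiableOn ℂ u (ball w₀ δ ×ˢ ball z₀ r) ∧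
        DifferentiableOn ℂ e (ball w₀ δ ×ˢ ball z₀ r) ∧
        (∀ p ∈ ball w₀ δ ×ˢ ball z₀ r, u p ≠ 0) ∧
        (∀ p ∈ ball w₀ δ ×ˢ ball z₀ r, (2 / r) ^ ν * ‖e p‖ ≤ 1 / 2) ∧
        (∀ p ∈ ball w₀ δ ×ˢ ball z₀ r, f p = u p * ((p.2 - z₀) ^ ν + e p)) ∧
        (∃ B : ℝ, 0 ≤ B ∧ ∀ p ∈ ball w₀ δ ×ˢ ball z₀ r, ‖u p‖ ≤ B) := by
  obtain ⟨r₁, hr₁, M, hM, hN₁, hd₁, hb₁⟩ := HolAt.exists_box hf hN
  have hu₁ : DifferentiableOn ℂ (slk z₀ ν f) (ball w₀ r₁ ×ˢ ball z₀ r₁) :=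
    differentiableOn_slk isOpen_ball hd₁ ν
  have hO₁ : IsOpen (ball w₀ r₁ ×ˢ ball z₀ r₁) := isOpen_ball.prod isOpen_ball
  have hmem : (w₀, z₀) ∈ ball w₀ r₁ ×ˢ ball z₀ r₁ := ⟨mem_ball_self hr₁, mem_ball_self hr₁⟩
  have huH : HolAt (slk z₀ ν f) (w₀, z₀) := holAt_of_differentiableOn hO₁ hu₁ hmem
  -- lower bound for `u`
  set c : ℝ := ‖slk z₀ ν f (w₀, z₀)‖ / 2 with hc
  have hcpos : 0 < c := by have := norm_pos_iff.2 hreg.2; positivity
  have hlow : ∀ᶠ p in 𝓝 (w₀, z₀), c < ‖slk z₀ ν f p‖ :=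
    huH.continuousAt.norm.eventually (Ioi_mem_nhds (by rw [hc]; linarith [norm_pos_iff.2 hreg.2]))
  obtain ⟨r, hr, hsub⟩ := Weier.exists_box (Filter.inter_mem (hO₁.mem_nhds hmem) hlow)
  -- the coefficients
  have ha : ∀ j, ContinuousAt (fun w => slk z₀ j f (w, z₀)) w₀ := by
    intro j
    have h1 : HolAt (slk z₀ j f) (w₀, z₀) :=
      holAt_of_differentiableOn hO₁ (differentiableOn_slk isOpen_ball hd₁ j) hmem
    exact ContinuousAt.comp (f := fun w : E => (w, z₀)) (g := slk z₀ j f) h1.continuousAt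
      (by fun_prop)
  have hsum : ContinuousAt (fun w => ∑ j ∈ Finset.range ν, ‖slk z₀ j f (w, z₀)‖ * r ^ j) w₀ :=
    tendsto_finsetSum _ fun j _ => (ha j).norm.mul continuousAt_const
  have hsum0 : (∑ j ∈ Finset.range ν, ‖slk z₀ j f (w₀, z₀)‖ * r ^ j) = 0 := by
    refine Finset.sum_eq_zero fun j hj => ?_
    rw [hreg.1 j (Finset.mem_range.1 hj)]; simp
  have hCpos : 0 < 1 / 2 * c / (2 / r) ^ ν := by positivity
  have hev : ∀ᶠ w in 𝓝 w₀, (∑ j ∈ Finset.range ν, ‖slk z₀ j f (w, z₀)‖ * r ^ j) <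
      1 / 2 * c / (2 / r) ^ ν := by
    refine hsum.eventually (Iio_mem_nhds ?_)
    change (∑ j ∈ Finset.range ν, ‖slk z₀ j f (w₀, z₀)‖ * r ^ j) < _
    rw [hsum0]; exact hCpos
  obtain ⟨δ₀, hδ₀, hδ₁⟩ := Metric.eventually_nhds_iff_ball.1 hev
  set δ := min δ₀ r with hδ
  have hδpos : 0 < δ := lt_min hδ₀ hr
  have hbox : ball w₀ δ ×ˢ ball z₀ r ⊆ ball w₀ r ×ˢ ball z₀ r :=
    prod_mono (ball_subset_ball (min_le_right _ _)) subset_rfl
  refine ⟨r, hr, δ, hδpos, min_le_right _ _, fun p hp => hN₁ (hsub (hbox hp)).1,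
    slk z₀ ν f, fun p => (∑ j ∈ Finset.range ν, slk z₀ j f (p.1, z₀) * (p.2 - z₀) ^ j) *
      (slk z₀ ν f p)⁻¹, hu₁.mono fun p hp => (hsub (hbox hp)).1, ?_, ?_, ?_, ?_,
      (2 / r₁) ^ ν * M, by positivity, fun p hp =>
        norm_slk_le isOpen_ball hd₁ hb₁ ν p (hsub (hbox hp)).1⟩
  · have hne : ∀ p ∈ ball w₀ δ ×ˢ ball z₀ r, slk z₀ ν f p ≠ 0 := by
      intro p hp h0
      have : c < ‖slk z₀ ν f p‖ := (hsub (hbox hp)).2
      rw [h0, norm_zero] at this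
      linarith
    refine DifferentiableOn.mul ?_ ((hu₁.mono fun p hp => (hsub (hbox hp)).1).inv hne)
    refine DifferentiableOn.fun_sum fun j _ => ?_
    refine DifferentiableOn.mul ?_ (by fun_prop)
    have h1 : DifferentiableOn ℂ (fun p : E × ℂ => (p.1, z₀)) (ball w₀ δ ×ˢ ball z₀ r) := by
      fun_prop
    exact (differentiableOn_slk isOpen_ball hd₁ j).comp h1
      (fun p hp => ⟨(hsub (hbox hp)).1.1, mem_ball_self hr₁⟩)
  · intro p hp h0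
    have : c < ‖slk z₀ ν f p‖ := (hsub (hbox hp)).2
    rw [h0, norm_zero] at this
    linarith
  · intro p hp
    have h1 : c < ‖slk z₀ ν f p‖ := (hsub (hbox hp)).2
    have h2 := hδ₁ p.1 (ball_subset_ball (min_le_left _ _) hp.1)
    have h3 : ‖p.2 - z₀‖ ≤ r := by
      have := hp.2
      rw [mem_ball, dist_eq_norm] at this
      exact this.le
    have h4 : ‖∑ j ∈ Finset.range ν, slk z₀ j f (p.1, z₀) * (p.2 - z₀) ^ j‖ ≤
        ∑ j ∈ Finset.range ν, ‖slk z₀ j f (p.1, z₀)‖ * r ^ j := by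
      refine (norm_sum_le _ _).trans (Finset.sum_le_sum fun j _ => ?_)
      rw [norm_mul, norm_pow]
      exact mul_le_mul_of_nonneg_left (pow_le_pow_left₀ (norm_nonneg _) h3 _) (norm_nonneg _)
    rw [norm_mul, norm_inv, ← div_eq_mul_inv]
    have hp2 : 0 < (2 / r) ^ ν := by positivity
    calc (2 / r) ^ ν * (‖∑ j ∈ Finset.range ν, slk z₀ j f (p.1, z₀) * (p.2 - z₀) ^ j‖ /
          ‖slk z₀ ν f p‖) ≤ (2 / r) ^ ν * ((1 / 2 * c / (2 / r) ^ ν) / c) := by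
            refine mul_le_mul_of_nonneg_left ?_ hp2.le
            exact div_le_div₀ (by positivity) (h4.trans h2.le) hcpos h1.le
      _ = 1 / 2 := by field_simp
  · intro p hp
    have hne : slk z₀ ν f p ≠ 0 := by
      intro h0
      have : c < ‖slk z₀ ν f p‖ := (hsub (hbox hp)).2
      rw [h0, norm_zero] at this
      linarith
    obtain ⟨w, z⟩ := p
    simp only
    rw [taylor z₀ ν f w z, mul_add]
    have : slk z₀ ν f (w, z) * ((∑ j ∈ Finset.range ν, slk z₀ j f (w, z₀) * (z - z₀) ^ j) *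
      (slk z₀ ν f (w, z))⁻¹) = ∑ j ∈ Finset.range ν, slk z₀ j f (w, z₀) * (z - z₀) ^ j := by
      field_simp
    rw [this]
    ring

/-- **Weierstrass division**, existence. -/
theorem exists_div {f : E × ℂ → ℂ} {ν : ℕ} {w₀ : E} {z₀ : ℂ} (hf : HolAt f (w₀, z₀))
    (hreg : Reg f ν w₀ z₀) {g : E × ℂ → ℂ} (hg : HolAt g (w₀, z₀)) :
    ∃ (q : E × ℂ → ℂ) (a : ℕ → E → ℂ), HolAt q (w₀, z₀) ∧ (∀ j, HolAt (a j) w₀) ∧
      ∀ᶠ p in 𝓝 (w₀, z₀), g p = q p * f p + ∑ j ∈ Finset.range ν, a j p.1 * (p.2 - z₀) ^ j := by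
  obtain ⟨ρ, hρ, M, hM, -, hgd, hgb⟩ := HolAt.exists_box hg univ_mem
  have hN : ball w₀ ρ ×ˢ ball z₀ ρ ∈ 𝓝 (w₀, z₀) :=
    (isOpen_ball.prod isOpen_ball).mem_nhds ⟨mem_ball_self hρ, mem_ball_self hρ⟩
  obtain ⟨r, hr, δ, hδ, -, hsub, u, e, hu, he, hune, heb, hfe, -⟩ := hreg.exists_normal hf hN
  obtain ⟨q, a, hq, ha, hqa, -⟩ := division_on (W := ball w₀ δ) isOpen_ball hr ν he heb
    (hgd.mono hsub) hM.le (fun p hp => hgb p (hsub hp))
  have hO : IsOpen (ball w₀ δ ×ˢ ball z₀ r) := isOpen_ball.prod isOpen_ball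
  have hmem : (w₀, z₀) ∈ ball w₀ δ ×ˢ ball z₀ r := ⟨mem_ball_self hδ, mem_ball_self hr⟩
  refine ⟨fun p => q p * (u p)⁻¹, a, ?_, ?_, ?_⟩
  · exact (holAt_of_differentiableOn hO hq hmem).mul
      ((holAt_of_differentiableOn hO hu hmem).inv (hune _ hmem))
  · exact fun j => holAt_of_differentiableOn isOpen_ball (ha j) (mem_ball_self hδ)
  · filter_upwards [hO.mem_nhds hmem] with p hp
    rw [hqa p hp, hfe p hp]
    have := hune p hp
    field_simp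

/-- a polynomial in `z - z₀` vanishing near `(w₀, z₀)` has zero coefficients -/
theorem coeff_eq_zero {ν : ℕ} {w₀ : E} {z₀ : ℂ} {a : ℕ → E → ℂ}
    (h : ∀ᶠ p : E × ℂ in 𝓝 (w₀, z₀), ∑ j ∈ Finset.range ν, a j p.1 * (p.2 - z₀) ^ j = 0) :
    ∀ j < ν, ∀ᶠ w in 𝓝 w₀, a j w = 0 := by
  obtain ⟨δ, hδ, hb⟩ := Weier.exists_box h
  intro j hj
  filter_upwards [ball_mem_nhds w₀ hδ] with w hw
  set P : Polynomial ℂ := ∑ j ∈ Finset.range ν, Polynomial.C (a j w) * Polynomial.X ^ j with hP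
  have hroot : ∀ t ∈ ball (0 : ℂ) δ, P.IsRoot t := by
    intro t ht
    have h1 := hb (show (w, z₀ + t) ∈ ball w₀ δ ×ˢ ball z₀ δ from ⟨hw, by simpa using ht⟩)
    have h2 : ∑ j ∈ Finset.range ν, a j w * (z₀ + t - z₀) ^ j = 0 := h1
    rw [Polynomial.IsRoot.def, hP, Polynomial.eval_finsetSum]
    simpa using h2
  have hP0 : P = 0 := by
    refine Polynomial.eq_zero_of_infinite_isRoot P (Set.Infinite.mono (s := ball (0 : ℂ) δ)
      (fun t ht => hroot t ht) ?_)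
    exact infinite_of_mem_nhds 0 (ball_mem_nhds 0 hδ)
  have hco : P.coeff j = a j w := by
    rw [hP, Polynomial.finsetSum_coeff]
    simp only [Polynomial.coeff_C_mul_X_pow]
    rw [Finset.sum_ite_eq]
    simp [hj]
  rw [← hco, hP0, Polynomial.coeff_zero]

/-- **Weierstrass division**, uniqueness. -/
theorem div_unique {f : E × ℂ → ℂ} {ν : ℕ} {w₀ : E} {z₀ : ℂ} (hf : HolAt f (w₀, z₀))
    (hreg : Reg f ν w₀ z₀) {q : E × ℂ → ℂ} {a : ℕ → E → ℂ} (hq : HolAt q (w₀, z₀))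
    (h : ∀ᶠ p in 𝓝 (w₀, z₀), q p * f p + ∑ j ∈ Finset.range ν, a j p.1 * (p.2 - z₀) ^ j = 0) :
    (∀ᶠ p in 𝓝 (w₀, z₀), q p = 0) ∧ ∀ j < ν, ∀ᶠ w in 𝓝 w₀, a j w = 0 := by
  have hq0 : ∀ᶠ p in 𝓝 (w₀, z₀), q p = 0 := by
    obtain ⟨ρ, hρ, M₁, hM₁, hNh, hqd, hqb⟩ := HolAt.exists_box hq h
    have hN : ball w₀ ρ ×ˢ ball z₀ ρ ∈ 𝓝 (w₀, z₀) :=
      (isOpen_ball.prod isOpen_ball).mem_nhds ⟨mem_ball_self hρ, mem_ball_self hρ⟩
    obtain ⟨r, hr, δ, hδ, -, hsub, u, e, hu, he, hune, heb, hfe, B, hB, huB⟩ :=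
      hreg.exists_normal hf hN
    have hO : IsOpen (ball w₀ δ ×ˢ ball z₀ r) := isOpen_ball.prod isOpen_ball
    have hmem : (w₀, z₀) ∈ ball w₀ δ ×ˢ ball z₀ r := ⟨mem_ball_self hδ, mem_ball_self hr⟩
    have key := unique_on (W := ball w₀ δ) isOpen_ball hr ν he heb (q := fun p => q p * u p)
      (M := M₁ * B) ((hqd.mono hsub).mul hu) (by positivity) (fun p hp => by
        rw [norm_mul]
        exact mul_le_mul (hqb p (hsub hp)) (huB p hp) (norm_nonneg _) hM₁.le) (a := a)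
      (fun p hp => by
        have h1 := hNh (hsub hp)
        have h2 : q p * f p + ∑ j ∈ Finset.range ν, a j p.1 * (p.2 - z₀) ^ j = 0 := h1
        rw [hfe p hp] at h2
        rw [← h2]; ring)
    filter_upwards [hO.mem_nhds hmem] with p hp
    have h1 := key p hp
    exact (mul_eq_zero.1 h1).resolve_right (hune p hp)
  refine ⟨hq0, coeff_eq_zero (z₀ := z₀) ?_⟩
  filter_upwards [h, hq0] with p h1 h2
  rwa [h2, zero_mul, zero_add] at h1

end Groth.Agent.Gaga.H506.Weier
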