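import Groth.Agent.Gaga.H506.AnVan
import Groth.Agent.Gaga.H335.ModDiscs

/-!
# Good local presentations (in the sense of `H335.ModDiscs.LocPres`) of finitely presented analytic modules
-/

set_option autoImplicit false
set_option linter.unusedSectionVars false
set_option linter.dupNamespace false

open CategoryTheory AlgebraicGeometry Topology TopologicalSpace Opposite Filter Set

noncomputable section

namespace Groth.Agent.Gaga.H506.AnPres

open Groth.Agent.Gaga.H975.ModSec Groth.Agent.Gaga.H335 Groth.Agent.Gaga.H335.Chart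
open Groth.Agent.Gaga.H506.AnLift Groth.Agent.Gaga.H506.AnVan Groth.Agent.Gaga.H294.ThmA
open Groth.Agent.Gaga.H335.ModDiscs

variable {X : Scheme.{0}} [X.Over An.SC]

theorem P_closedBall {n : ℕ} (a : Fin n → ℂ) {r : ℝ} (hr : 0 ≤ r) :
    P (fun i => Metric.closedBall (a i) r) = Metric.closedBall a r := by
  rw [closedBall_pi a hr]
  ext z
  simp [P]

/-- **Good local presentations.** -/
theorem exists_locPres (c : Chart X) (a : Fin c.n → ℂ) {N I Q : Mod (An.hol X)} (f : N ⟶ I) (g : I ⟶ Q)
    (hex : ∀ (V : Opens (An.top X)) (s : Sec I V), app g V s = 0 → ∃ t, app f V t = s)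
    (hz0 : ∀ (V : Opens (An.top X)) (t : Sec N V), app g V (app f V t) = 0)
    (hsurj : ∀ (V : Opens (An.top X)) (ξ : Sec Q V), ∀ x ∈ V, ∃ (V' : Opens (An.top X)) (h' : V' ≤ V),
      x ∈ V' ∧ ∃ t : Sec I V', app g V' t = res Q h' ξ)
    (hN : Groth.Agent.Gaga.H976.TM3.FPAt N (c.pt a)) : Nonempty (LocPres N g (c.pt a)) := by
  obtain ⟨D, haD, q, e, hG⟩ := exists_good a hN
  refine ⟨{ c := c, D := D, hx := ⟨a, haD, rfl⟩, q := q, e := e, gen := ?_, van := ?_ }⟩
  · intro z r hr hzr W hW hzW s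
    obtain ⟨D', hD', h1, h2, k, hk, hs⟩ := hG (fun i => Metric.closedBall (z i) r)
      (fun i => isCompact_closedBall _ _) (by rw [P_closedBall z hr.le]; exact hzr) W s
      (by rw [P_closedBall z hr.le]; exact hzW)
    refine ⟨c.im D', h1, fun w hw => ⟨w, hD' (by rw [P_closedBall z hr.le]; exact hw), rfl⟩,
      fun i => c.fn D' (k i) (hk i), hs⟩
  · intro z r hr hzr ξ
    obtain ⟨W, hW, t, h1, h2⟩ := Good.exists_lift hG f g hex hz0 hsurj
      (fun i => Metric.closedBall (z i) r) (fun i => isCompact_closedBall _ _)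
      (by rw [P_closedBall z hr.le]; exact hzr) ⊤ ξ (fun _ _ => trivial)
    exact ⟨W, fun w hw => h1 w (by rw [P_closedBall z hr.le]; exact hw), t, h2⟩

end Groth.Agent.Gaga.H506.AnPres
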