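import Groth.Agent.Gaga.H506.Torsor
import Groth.Agent.Gaga.H335.Chart
import Groth.Agent.Gaga.H976.TM3

/-!
# Finitely presented analytic modules along small products of compact sets

`c : Chart X`, `N : An.AnMod X`, finitely presented near `c.pt a`.

* `Good c N D e`: sections of `N` near `c.pt '' P K` (`P K ⊆ D` a product of compact sets) are combinations of the
  `e j` near `c.pt '' P K`;
* `exists_good`: such a `D` exists near `a`;
* `Good.split`: additive Cousin splitting for sections of `N`;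
* `Good.exists_lift`: for `0 → N → I → Q → 0`, sections of `Q` near `c.pt '' P K` lift to `I` near `c.pt '' P K`.
-/

set_option autoImplicit false
set_option linter.unusedSectionVars false
set_option linter.dupNamespace false

open CategoryTheory AlgebraicGeometry Topology TopologicalSpace Opposite Filter Set

noncomputable section

namespace Groth.Agent.Gaga.H506.AnLift

open Groth.Agent.Gaga.H975.ModSec Groth.Agent.Gaga.H335 Groth.Agent.Gaga.H335.Chart
open Groth.Agent.Gaga.H506.Scv Groth.Agent.Gaga.H506.KerFG Groth.Agent.Gaga.H506.Torsor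
open Groth.Agent.Gaga.H506.BoxInd Groth.Agent.Gaga.H294.ThmA

section FP

variable {T : TopCat.{0}} {R : TopCat.Sheaf CommRingCat.{0} T}

/-- Generators and relations near a point, in terms of `Sec`. -/
theorem exists_pres (N : Mod R) (x : T) (h : Groth.Agent.Gaga.H976.TM3.FPAt N x) :
    ∃ (W : Opens T) (_ : x ∈ W) (p m : ℕ) (s : Fin p → Sec N W) (r : Fin m → Fin p → O R W),
      (∀ (V : Opens T) (hV : V ≤ W) (t : Sec N V) (y : T), y ∈ V →
        ∃ (V' : Opens T) (h' : V' ≤ V), y ∈ V' ∧ ∃ c : Fin p → O R V',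
          res N h' t = ∑ j, c j • res N (h'.trans hV) (s j)) ∧
      (∀ k, ∑ j, r k j • s j = 0) ∧
      ∀ (V : Opens T) (hV : V ≤ W) (c : Fin p → O R V),
        ∑ j, c j • res N hV (s j) = 0 → ∀ y ∈ V, ∃ (V' : Opens T) (h' : V' ≤ V), y ∈ V' ∧
          ∃ d : Fin m → O R V', ∀ j, resO h' (c j) = ∑ k, d k * resO (h'.trans hV) (r k j) := by
  obtain ⟨W, hx, p, m, s, r, h1, h2, h3⟩ := h
  exact ⟨W, hx, p, m, s, r, h1, h2, h3⟩

end FP

variable {X : Scheme.{0}} [X.Over An.SC] (c : Chart X) (N : Mod (An.hol X))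

theorem fn_sub (D : Opens (Fin c.n → ℂ)) {f g : (Fin c.n → ℂ) → ℂ} (hf : DifferentiableOn ℂ f D)
    (hg : DifferentiableOn ℂ g D) (h : DifferentiableOn ℂ (fun z => f z - g z) D) :
    c.fn D (fun z => f z - g z) h = c.fn D f hf - c.fn D g hg := rfl

theorem fn_add (D : Opens (Fin c.n → ℂ)) {f g : (Fin c.n → ℂ) → ℂ} (hf : DifferentiableOn ℂ f D)
    (hg : DifferentiableOn ℂ g D) (h : DifferentiableOn ℂ (fun z => f z + g z) D) :
    c.fn D (fun z => f z + g z) h = c.fn D f hf + c.fn D g hg := rfl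

theorem toFn_sum {V : Opens (An.top X)} {ι : Type*} (s : Finset ι) (g : ι → O (An.hol X) V) (x : V) :
    toFn (∑ i ∈ s, g i) x = ∑ i ∈ s, toFn (g i) x := by
  classical
  induction s using Finset.induction_on with
  | empty => simp
  | insert i s hi ih => rw [Finset.sum_insert hi, Finset.sum_insert hi, toFn_add, ih]

variable {c N} {W : Opens (An.top X)} {p m : ℕ}

/-- The combination of the sections `s j` with coefficients `f j`. -/
def act (s : Fin p → Sec N W) (D : Opens (Fin c.n → ℂ)) (hD : c.im D ≤ W)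
    (f : Fin p → (Fin c.n → ℂ) → ℂ) (hf : ∀ j, DifferentiableOn ℂ (f j) D) : Sec N (c.im D) :=
  ∑ j, c.fn D (f j) (hf j) • res N hD (s j)

theorem res_act (s : Fin p → Sec N W) {D D' : Opens (Fin c.n → ℂ)} (hD : c.im D ≤ W)
    (f : Fin p → (Fin c.n → ℂ) → ℂ) (hf : ∀ j, DifferentiableOn ℂ (f j) D) (h : D' ≤ D)
    (h' : c.im D' ≤ c.im D) :
    res N h' (act s D hD f hf) = act s D' (h'.trans hD) f (fun j => (hf j).mono h) := by
  unfold act
  rw [map_sum]
  refine Finset.sum_congr rfl fun j _ => ?_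
  rw [res_smul, res_res]
  rfl

theorem act_congr (s : Fin p → Sec N W) {D : Opens (Fin c.n → ℂ)} (hD : c.im D ≤ W)
    {f g : Fin p → (Fin c.n → ℂ) → ℂ} (hf : ∀ j, DifferentiableOn ℂ (f j) D)
    (hg : ∀ j, DifferentiableOn ℂ (g j) D) (h : ∀ j, EqOn (f j) (g j) D) :
    act s D hD f hf = act s D hD g hg := by
  unfold act
  exact Finset.sum_congr rfl fun j _ => by rw [c.fn_congr D (hf j) (hg j) (h j)]

theorem act_sub (s : Fin p → Sec N W) {D : Opens (Fin c.n → ℂ)} (hD : c.im D ≤ W)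
    {f g : Fin p → (Fin c.n → ℂ) → ℂ} (hf : ∀ j, DifferentiableOn ℂ (f j) D)
    (hg : ∀ j, DifferentiableOn ℂ (g j) D)
    (h : ∀ j, DifferentiableOn ℂ (fun z => f j z - g j z) D) :
    act s D hD (fun j z => f j z - g j z) h = act s D hD f hf - act s D hD g hg := by
  unfold act
  rw [← Finset.sum_sub_distrib]
  exact Finset.sum_congr rfl fun j _ => by rw [fn_sub c D (hf j) (hg j), sub_smul]

theorem act_add (s : Fin p → Sec N W) {D : Opens (Fin c.n → ℂ)} (hD : c.im D ≤ W)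
    {f g : Fin p → (Fin c.n → ℂ) → ℂ} (hf : ∀ j, DifferentiableOn ℂ (f j) D)
    (hg : ∀ j, DifferentiableOn ℂ (g j) D)
    (h : ∀ j, DifferentiableOn ℂ (fun z => f j z + g j z) D) :
    act s D hD (fun j z => f j z + g j z) h = act s D hD f hf + act s D hD g hg := by
  unfold act
  rw [← Finset.sum_add_distrib]
  exact Finset.sum_congr rfl fun j _ => by rw [fn_add c D (hf j) (hg j), add_smul]

/-- Combinations of relations act as zero. -/
theorem act_rel (s : Fin p → Sec N W) (r : Fin m → Fin p → O (An.hol X) W)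
    (hr : ∀ k, ∑ j, r k j • s j = 0) {D : Opens (Fin c.n → ℂ)} (hD : c.im D ≤ W)
    {f : Fin p → (Fin c.n → ℂ) → ℂ} (hf : ∀ j, DifferentiableOn ℂ (f j) D)
    {e : Fin m → (Fin c.n → ℂ) → ℂ} (he : ∀ k, DifferentiableOn ℂ (e k) D)
    (h : ∀ z ∈ D, ∀ j, f j z = ∑ k, e k z * c.fun_ (r k j) z) :
    act s D hD f hf = 0 := by
  have h1 : ∀ j, c.fn D (f j) (hf j) = ∑ k, c.fn D (e k) (he k) * resO hD (r k j) := by
    intro j
    apply O_ext
    rintro ⟨_, z, hz, rfl⟩
    rw [toFn_fn, coord_pt, toFn_sum, h z hz j]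
    refine Finset.sum_congr rfl fun k _ => ?_
    rw [toFn_mul, toFn_fn, coord_pt, toFn_resO, c.fun_of_mem (r k j) (hD ⟨z, hz, rfl⟩)]
  unfold act
  calc ∑ j, c.fn D (f j) (hf j) • res N hD (s j)
      = ∑ j, ∑ k, c.fn D (e k) (he k) • (resO hD (r k j) • res N hD (s j)) := by
        refine Finset.sum_congr rfl fun j _ => ?_
        rw [h1 j, Finset.sum_smul]
        exact Finset.sum_congr rfl fun k _ => mul_smul _ _ _
    _ = ∑ k, c.fn D (e k) (he k) • res N hD (∑ j, r k j • s j) := by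
        rw [Finset.sum_comm]
        refine Finset.sum_congr rfl fun k _ => ?_
        rw [map_sum, Finset.smul_sum]
        exact Finset.sum_congr rfl fun j _ => by rw [res_smul]
    _ = 0 := Finset.sum_eq_zero fun k _ => by rw [hr k, map_zero, smul_zero]

/-- `f` represents the section `t` near `c.pt y`. -/
def Rep (s : Fin p → Sec N W) {V : Opens (An.top X)} (t : Sec N V) (y : Fin c.n → ℂ)
    (f : Fin p → (Fin c.n → ℂ) → ℂ) : Prop :=
  ∃ (D : Opens (Fin c.n → ℂ)) (_ : y ∈ D) (h1 : c.im D ≤ V) (h2 : c.im D ≤ W)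
    (hf : ∀ j, DifferentiableOn ℂ (f j) D), res N h1 t = act s D h2 f hf

/-- Open sets from eventual properties. -/
theorem exists_opens {n : ℕ} {y : Fin n → ℂ} {Q : (Fin n → ℂ) → Prop} (h : ∀ᶠ z in 𝓝 y, Q z) :
    ∃ D : Opens (Fin n → ℂ), y ∈ D ∧ ∀ z ∈ D, Q z := by
  obtain ⟨O, h1, h2, h3⟩ := eventually_nhds_iff.1 h
  exact ⟨⟨O, h2⟩, h3, h1⟩

/-- The representations of a section form a torsor under the relations. -/
theorem isTorsor (s : Fin p → Sec N W) (r : Fin m → Fin p → O (An.hol X) W)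
    (hg : ∀ (V : Opens (An.top X)) (hV : V ≤ W) (t : Sec N V) (y : An.top X), y ∈ V →
        ∃ (V' : Opens (An.top X)) (h' : V' ≤ V), y ∈ V' ∧ ∃ c : Fin p → O (An.hol X) V',
          res N h' t = ∑ j, c j • res N (h'.trans hV) (s j))
    (hr : ∀ k, ∑ j, r k j • s j = 0)
    (hrel : ∀ (V : Opens (An.top X)) (hV : V ≤ W) (c : Fin p → O (An.hol X) V),
        ∑ j, c j • res N hV (s j) = 0 → ∀ y ∈ V, ∃ (V' : Opens (An.top X)) (h' : V' ≤ V), y ∈ V' ∧
          ∃ d : Fin m → O (An.hol X) V', ∀ j, resO h' (c j) = ∑ k, d k * resO (h'.trans hV) (r k j))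
    {V : Opens (An.top X)} (t : Sec N V) (U : Set (Fin c.n → ℂ)) (hUV : ∀ z ∈ U, c.pt z ∈ V)
    (hUW : ∀ z ∈ U, c.pt z ∈ W) :
    IsTorsor (fun k j => c.fun_ (r k j)) U (Rep (c := c) s t) := by
  refine ⟨?_, ?_, ?_, ?_, ?_, ?_⟩
  · rintro y - f ⟨D, hy, h1, h2, hf, h⟩ i
    exact holAt_of_differentiableOn D.2 (hf i) hy
  · rintro y - f f' ⟨D, hy, h1, h2, hf, h⟩ hff
    obtain ⟨D', hy', h'⟩ := exists_opens (Filter.eventually_all.2 hff)
    have hle : D ⊓ D' ≤ D := inf_le_left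
    have hle' := c.im_mono hle
    have hf' : ∀ j, DifferentiableOn ℂ (f' j) (D ⊓ D' : Opens (Fin c.n → ℂ)) := fun j =>
      ((hf j).mono hle).congr fun z hz => (h' z hz.2 j).symm
    refine ⟨D ⊓ D', ⟨hy, hy'⟩, hle'.trans h1, hle'.trans h2, hf', ?_⟩
    have e := congrArg (res N hle') h
    rw [res_res, res_act s h2 f hf hle hle'] at e
    rw [e]
    exact act_congr s _ _ _ fun j z hz => h' z hz.2 j
  · rintro y - f ⟨D, hy, h1, h2, hf, h⟩
    filter_upwards [D.2.mem_nhds hy] with z hz using ⟨D, hz, h1, h2, hf, h⟩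
  · rintro y - f f' ⟨D, hy, h1, h2, hf, h⟩ ⟨D', hy', h1', h2', hf', h'⟩
    have hle : D ⊓ D' ≤ D := inf_le_left
    have hle' : D ⊓ D' ≤ D' := inf_le_right
    have e := congrArg (res N (c.im_mono hle)) h
    have e' := congrArg (res N (c.im_mono hle')) h'
    rw [res_res, res_act s h2 f hf hle] at e
    rw [res_res, res_act s h2' f' hf' hle'] at e'
    have hsub := act_sub s (c := c) (D := D ⊓ D') ((c.im_mono hle).trans h2)
      (fun j => (hf j).mono hle) (fun j => (hf' j).mono hle')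
      (fun j => ((hf j).mono hle).sub ((hf' j).mono hle'))
    rw [← e, ← e', sub_self] at hsub
    obtain ⟨V', hV', hyV', d, hd⟩ := hrel _ _ _ hsub (c.pt y) ⟨y, ⟨hy, hy'⟩, rfl⟩
    refine ⟨fun k => c.fun_ (d k), fun k => holAt_of_differentiableOn (c.pre V').2
      (c.fun_differentiableOn (d k)) hyV', fun j => ?_⟩
    filter_upwards [(c.pre V').2.mem_nhds hyV'] with z hz
    have hz' : c.pt z ∈ V' := hz
    have h3 := congrArg (fun g => toFn g ⟨c.pt z, hz'⟩) (hd j)
    simp only [toFn_sum, toFn_mul, toFn_resO, toFn_fn, coord_pt] at h3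
    rw [h3]
    refine Finset.sum_congr rfl fun k _ => ?_
    rw [c.fun_of_mem (d k) hz', c.fun_of_mem (r k j) ((hV'.trans ((c.im_mono hle).trans h2)) hz')]
  · rintro y hyU f g ⟨D, hy, h1, h2, hf, h⟩ hg' ⟨e, he, hge⟩
    obtain ⟨D', hy', h'⟩ := exists_opens ((Filter.eventually_all.2 hge).and
      ((Filter.eventually_all.2 fun k => (he k).eventually).and
        (Filter.eventually_all.2 fun j => (hg' j).eventually)))
    have hle : D ⊓ D' ≤ D := inf_le_left
    have hfd : ∀ j, DifferentiableOn ℂ (f j) (D ⊓ D' : Opens (Fin c.n → ℂ)) := fun j =>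
      (hf j).mono hle
    have hgd : ∀ j, DifferentiableOn ℂ (g j) (D ⊓ D' : Opens (Fin c.n → ℂ)) := fun j z hz =>
      ((h' z hz.2).2.2 j).differentiableAt.differentiableWithinAt
    have hed : ∀ k, DifferentiableOn ℂ (e k) (D ⊓ D' : Opens (Fin c.n → ℂ)) := fun k z hz =>
      ((h' z hz.2).2.1 k).differentiableAt.differentiableWithinAt
    refine ⟨D ⊓ D', ⟨hy, hy'⟩, (c.im_mono hle).trans h1, (c.im_mono hle).trans h2,
      fun j => (hfd j).add (hgd j), ?_⟩
    have e1 := congrArg (res N (c.im_mono hle)) h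
    rw [res_res, res_act s h2 f hf hle] at e1
    rw [act_add s _ hfd hgd, act_rel s r hr _ hgd hed (fun z hz j => (h' z hz.2).1 j), add_zero,
      e1]
  · intro y hy
    obtain ⟨V', hV', hyV', g, hg2⟩ := hg (V ⊓ W) inf_le_right (res N inf_le_left t) (c.pt y)
      ⟨hUV y hy, hUW y hy⟩
    have him : c.im (c.pre V') ≤ V' := c.im_pre_le V'
    refine ⟨fun j => c.fun_ (g j), c.pre V', hyV', him.trans (hV'.trans inf_le_left),
      him.trans (hV'.trans inf_le_right), fun j => c.fun_differentiableOn (g j), ?_⟩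
    have e1 := congrArg (res N him) hg2
    rw [res_res, res_res, map_sum] at e1
    rw [e1]
    unfold act
    refine Finset.sum_congr rfl fun j _ => ?_
    rw [res_smul, res_res, c.fn_fun (g j) _ le_rfl him]

variable (c N) in
/-- Sections of `N` near `c.pt '' P K`, `P K ⊆ D`, are combinations of the `e j`. -/
def Good (D : Opens (Fin c.n → ℂ)) {q : ℕ} (e : Fin q → Sec N (c.im D)) : Prop :=
  ∀ K : Fin c.n → Set ℂ, (∀ i, IsCompact (K i)) → P K ⊆ (D : Set (Fin c.n → ℂ)) →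
    ∀ (V : Opens (An.top X)) (t : Sec N V), (∀ z ∈ P K, c.pt z ∈ V) →
    ∃ (D' : Opens (Fin c.n → ℂ)) (_ : P K ⊆ (D' : Set (Fin c.n → ℂ))) (h1 : c.im D' ≤ V) (h2 : c.im D' ≤ c.im D)
      (f : Fin q → (Fin c.n → ℂ) → ℂ) (hf : ∀ j, DifferentiableOn ℂ (f j) D'),
      res N h1 t = ∑ j, c.fn D' (f j) (hf j) • res N h2 (e j)

/-- **Existence of good neighbourhoods.** -/
theorem exists_good (a : Fin c.n → ℂ) (h : Groth.Agent.Gaga.H976.TM3.FPAt N (c.pt a)) :
    ∃ (D : Opens (Fin c.n → ℂ)) (_ : a ∈ D) (q : ℕ) (e : Fin q → Sec N (c.im D)), Good c N D e := by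
  obtain ⟨W, hW, q, m, s, r, h1, h2, h3⟩ := exists_pres N _ h
  obtain ⟨D₀, hD₀, haD₀, hT⟩ := exists_trivialization a (fun k j => c.fun_ (r k j)) (fun k j =>
    holAt_of_differentiableOn (c.pre W).2 (c.fun_differentiableOn (r k j)) hW)
  let D : Opens (Fin c.n → ℂ) := ⟨D₀, hD₀⟩ ⊓ c.pre W
  have hDW : c.im D ≤ W := c.im_le_iff.2 inf_le_right
  refine ⟨D, ⟨haD₀, hW⟩, q, fun j => res N hDW (s j), fun K hK hKD V t hKV => ?_⟩
  let U : Opens (Fin c.n → ℂ) := D ⊓ c.pre V
  have hTor : IsTorsor (fun k j => c.fun_ (r k j)) (U : Set (Fin c.n → ℂ)) (Rep (c := c) s t) :=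
    isTorsor s r h1 h2 h3 t (U : Set (Fin c.n → ℂ)) (fun z (hz : z ∈ U) => hz.2)
      (fun z (hz : z ∈ U) => hz.1.2)
  obtain ⟨f, hf⟩ := hT U (fun z hz => hz.1.1) U.2 (Rep s t) hTor K hK
    (fun z hz => ⟨hKD hz, hKV z hz⟩)
  -- the set where `f` represents `t`
  let D' : Opens (Fin c.n → ℂ) := ⟨{z | z ∈ (U : Set (Fin c.n → ℂ)) ∧ Rep s t z f},
    isOpen_rep hTor U.2 f⟩
  have hD'D : D' ≤ D := fun z hz => hz.1.1
  have h4 : c.im D' ≤ V := c.im_le_iff.2 fun z hz => hz.1.2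
  have hfd : ∀ j, DifferentiableOn ℂ (f j) D' := by
    rintro j z ⟨-, D₁, hz, -, -, hf1, -⟩
    exact ((hf1 j).differentiableAt (D₁.2.mem_nhds hz)).differentiableWithinAt
  refine ⟨D', fun z hz => ⟨⟨hKD hz, hKV z hz⟩, hf z hz⟩, h4, c.im_mono hD'D, f, hfd, ?_⟩
  have e1 : ∑ j, c.fn D' (f j) (hfd j) • res N (c.im_mono hD'D) (res N hDW (s j)) =
      act s D' ((c.im_mono hD'D).trans hDW) f hfd := by
    unfold act
    exact Finset.sum_congr rfl fun j _ => by rw [res_res]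
  rw [e1]
  refine eq_of_forall_nhds N _ _ ?_
  rintro _ ⟨z, hz, rfl⟩
  obtain ⟨-, D₁, hz₁, g1, g2, hf1, g3⟩ := id hz
  have hle : D' ⊓ D₁ ≤ D' := inf_le_left
  have hle₁ : D' ⊓ D₁ ≤ D₁ := inf_le_right
  refine ⟨c.im (D' ⊓ D₁), ⟨z, ⟨hz, hz₁⟩, rfl⟩, c.im_mono hle, ?_⟩
  rw [res_act s _ f hfd hle]
  have e2 := congrArg (res N (c.im_mono hle₁)) g3
  rw [res_res, res_act s g2 f hf1 hle₁] at e2
  rw [res_res, e2]

end Groth.Agent.Gaga.H506.AnLift
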