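import Groth.Agent.Gaga.H506.AnLift

/-!
# Cousin splitting and vanishing for finitely presented analytic modules along small products of compact sets
-/

set_option autoImplicit false
set_option linter.unusedSectionVars false
set_option linter.dupNamespace false

open CategoryTheory AlgebraicGeometry Topology TopologicalSpace Opposite Filter Set

noncomputable section

namespace Groth.Agent.Gaga.H506.AnVan

open Groth.Agent.Gaga.H975.ModSec Groth.Agent.Gaga.H335 Groth.Agent.Gaga.H335.Chart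
open Groth.Agent.Gaga.H506.Scv Groth.Agent.Gaga.H506.Torsor Groth.Agent.Gaga.H506.AnLift
open Groth.Agent.Gaga.H506.BoxInd Groth.Agent.Gaga.H294.ThmA Groth.Agent.Gaga.H294.MVNear

section Glue

variable {T : TopCat.{0}} {R : TopCat.Sheaf CommRingCat.{0} T}

theorem glue₂ (N : Mod R) {U V : Opens T} (s : Sec N U) (t : Sec N V)
    (h : res N (inf_le_left : U ⊓ V ≤ U) s = res N (inf_le_right : U ⊓ V ≤ V) t) :
    ∃ w : Sec N (U ⊔ V), res N le_sup_left w = s ∧ res N le_sup_right w = t := by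
  let Y : Bool → Opens T := fun b => cond b U V
  let σ : ∀ b, Sec N (Y b) := fun b => match b with
    | true => s
    | false => t
  have hY : ∀ b, Y b ≤ U ⊔ V := fun b => by cases b <;> simp [Y]
  obtain ⟨w, hw⟩ := exists_glue N Y (U ⊔ V) (by
      refine sup_le ?_ ?_
      · exact le_iSup Y true
      · exact le_iSup Y false) hY σ (by
      rintro (_ | _) (_ | _) W hi hj
      · rfl
      · have h1 := congrArg (res N (le_inf hj hi : W ≤ U ⊓ V)) h
        rw [res_res, res_res] at h1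
        exact h1.symm
      · have h1 := congrArg (res N (le_inf hi hj : W ≤ U ⊓ V)) h
        rw [res_res, res_res] at h1
        exact h1
      · rfl)
  exact ⟨w, hw true, hw false⟩

theorem sec_ext_bot (N : Mod R) {U : Opens T} (hU : ∀ x, x ∉ U) (s t : Sec N U) : s = t :=
  eq_of_forall_nhds N s t fun x hx => absurd hx (hU x)

end Glue

variable {X : Scheme.{0}} [X.Over An.SC] {c : Chart X} {N : Mod (An.hol X)}
  {D : Opens (Fin c.n → ℂ)} {q : ℕ} {e : Fin q → Sec N (c.im D)}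

/-- **Cousin splitting.** -/
theorem Good.split (hG : Good c N D e) (K : Fin c.n → Set ℂ) (hK : ∀ i, IsCompact (K i))
    (hKD : P K ⊆ (D : Set (Fin c.n → ℂ))) (j : Fin c.n) (b : Bool) (c₀ : ℝ) (V : Opens (An.top X)) (t : Sec N V)
    (hV : ∀ z ∈ P K, co b (z j) = c₀ → c.pt z ∈ V) :
    ∃ (V₁ V₂ : Opens (An.top X)) (t₁ : Sec N V₁) (t₂ : Sec N V₂) (h : V₁ ⊓ V₂ ≤ V),
      (∀ z ∈ P K, co b (z j) ≤ c₀ → c.pt z ∈ V₁) ∧ (∀ z ∈ P K, c₀ ≤ co b (z j) → c.pt z ∈ V₂) ∧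
      res N h t = res N inf_le_left t₁ - res N inf_le_right t₂ := by
  obtain ⟨D', hKD', h1, h2, f, hf, ht⟩ := hG (cut K j {z | co b z = c₀})
    (isCompact_cut hK j (isClosed_eq (continuous_co b) continuous_const))
    (fun z hz => hKD (mem_P_cut.1 hz).1) V t (fun z hz => hV z (mem_P_cut.1 hz).1 (mem_P_cut.1 hz).2)
  obtain ⟨W₁, W₂, f₁, f₂, a1, a2, a3, a4, a5, a6, a7, a8⟩ := cousin_fam K hK j b c₀ D'.2
    (fun z hz hzc => hKD' (mem_P_cut.2 ⟨hz, hzc⟩)) f hf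
  let D₁ : Opens (Fin c.n → ℂ) := ⟨W₁, a1⟩ ⊓ D
  let D₂ : Opens (Fin c.n → ℂ) := ⟨W₂, a2⟩ ⊓ D
  have hD₁ : c.im D₁ ≤ c.im D := c.im_mono inf_le_right
  have hD₂ : c.im D₂ ≤ c.im D := c.im_mono inf_le_right
  have hf₁ : ∀ j, DifferentiableOn ℂ (f₁ j) D₁ := fun j => (a5 j).mono fun z hz => hz.1
  have hf₂ : ∀ j, DifferentiableOn ℂ (f₂ j) D₂ := fun j => (a6 j).mono fun z hz => hz.1
  have hle : c.im D₁ ⊓ c.im D₂ ≤ c.im D' := by
    rintro _ ⟨⟨z, hz, rfl⟩, hz₂⟩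
    have hz₂' : z ∈ D₂ := c.pt_mem_im.1 hz₂
    exact ⟨z, a7 ⟨hz.1, hz₂'.1⟩, rfl⟩
  refine ⟨c.im D₁, c.im D₂, ∑ j, c.fn D₁ (f₁ j) (hf₁ j) • res N hD₁ (e j),
    ∑ j, c.fn D₂ (f₂ j) (hf₂ j) • res N hD₂ (e j), hle.trans h1,
    fun z hz hzc => ⟨z, ⟨a3 z hz hzc, hKD hz⟩, rfl⟩, fun z hz hzc => ⟨z, ⟨a4 z hz hzc, hKD hz⟩, rfl⟩, ?_⟩
  have e1 := congrArg (res N hle) ht
  rw [res_res] at e1
  rw [e1, map_sum, map_sum, map_sum, ← Finset.sum_sub_distrib]
  refine Finset.sum_congr rfl fun i _ => ?_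
  rw [res_smul, res_smul, res_smul, res_res, res_res, res_res, ← sub_smul]
  congr 1
  apply O_ext
  rintro ⟨x, hx₁, hx₂⟩
  obtain ⟨z, hz, rfl⟩ := hx₁
  have hz₂ : z ∈ D₂ := c.pt_mem_im.1 hx₂
  change f i (c.coord (c.pt z)) = f₁ i (c.coord (c.pt z)) - f₂ i (c.coord (c.pt z))
  rw [coord_pt]
  exact a8 z ⟨hz.1, hz₂.1⟩ i

/-- **Lifting.** For `0 → N → I → Q → 0` exact, sections of `Q` near `c.pt '' P K` lift to `I` near
`c.pt '' P K`. -/
theorem Good.exists_lift (hG : Good c N D e) {I Q : Mod (An.hol X)} (f : N ⟶ I) (g : I ⟶ Q)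
    (hex : ∀ (V : Opens (An.top X)) (s : Sec I V), app g V s = 0 → ∃ t, app f V t = s)
    (hz0 : ∀ (V : Opens (An.top X)) (t : Sec N V), app g V (app f V t) = 0)
    (hsurj : ∀ (V : Opens (An.top X)) (ξ : Sec Q V), ∀ x ∈ V, ∃ (V' : Opens (An.top X)) (h' : V' ≤ V),
      x ∈ V' ∧ ∃ t : Sec I V', app g V' t = res Q h' ξ)
    (K : Fin c.n → Set ℂ) (hK : ∀ i, IsCompact (K i)) (hKD : P K ⊆ (D : Set (Fin c.n → ℂ)))
    (V : Opens (An.top X)) (ξ : Sec Q V) (hKV : ∀ z ∈ P K, c.pt z ∈ V) :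
    ∃ (W : Opens (An.top X)) (hW : W ≤ V) (t : Sec I W), (∀ z ∈ P K, c.pt z ∈ W) ∧
      app g W t = res Q hW ξ := by
  refine box_induction K hK (fun K' => ∃ (W : Opens (An.top X)) (hW : W ≤ V) (t : Sec I W),
    (∀ z ∈ P K', c.pt z ∈ W) ∧ app g W t = res Q hW ξ) ?_ ?_ ?_
  · intro K' hK'
    refine ⟨⊥, bot_le, 0, ?_, sec_ext_bot Q (fun x (hx : x ∈ (⊥ : Opens (An.top X))) => hx) _ _⟩
    rw [hK']
    rintro z ⟨⟩
  · intro z hz
    obtain ⟨V', h', hzV', t, ht⟩ := hsurj V ξ (c.pt z) (hKV z hz)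
    exact ⟨c.pre V', (c.pre V').2, hzV', fun K' _ _ hK' => ⟨V', h', t, fun w hw => hK' hw, ht⟩⟩
  · rintro K' hK' hsub j b c₀ - ⟨W₁, hW₁, t₁, hKW₁, ht₁⟩ ⟨W₂, hW₂, t₂, hKW₂, ht₂⟩
    have hK'D : P K' ⊆ (D : Set (Fin c.n → ℂ)) := fun z hz => hKD fun i => hsub i (hz i)
    obtain ⟨n, hn⟩ := hex (W₁ ⊓ W₂) (res I inf_le_left t₁ - res I inf_le_right t₂) (by
      rw [map_sub, app_res, app_res, ht₁, ht₂, res_res, res_res, sub_self])
    obtain ⟨V₁, V₂, n₁, n₂, hle, hK₁, hK₂, hn₁₂⟩ := Good.split hG K' hK' hK'D j b c₀ (W₁ ⊓ W₂) n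
      (fun z hz hzc => ⟨hKW₁ z (mem_P_cut.2 ⟨hz, le_of_eq hzc⟩), hKW₂ z (mem_P_cut.2 ⟨hz, ge_of_eq hzc⟩)⟩)
    have l1 : W₁ ⊓ V₁ ≤ W₁ := inf_le_left
    have l2 : W₁ ⊓ V₁ ≤ V₁ := inf_le_right
    have l3 : W₂ ⊓ V₂ ≤ W₂ := inf_le_left
    have l4 : W₂ ⊓ V₂ ≤ V₂ := inf_le_right
    obtain ⟨t, ht1, ht2⟩ := glue₂ I (res I l1 t₁ - app f _ (res N l2 n₁))
      (res I l3 t₂ - app f _ (res N l4 n₂)) (by
        have h3 : (W₁ ⊓ V₁) ⊓ (W₂ ⊓ V₂) ≤ V₁ ⊓ V₂ := inf_le_inf inf_le_right inf_le_right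
        have e1 := congrArg (fun s => app f _ (res N h3 s)) hn₁₂
        simp only [map_sub, res_res] at e1
        have e2 := congrArg (res I (h3.trans hle)) hn
        rw [← app_res, map_sub, res_res, res_res] at e2
        rw [map_sub, map_sub, res_res, res_res, ← app_res, ← app_res, res_res, res_res]
        rw [e2] at e1
        rw [sub_eq_sub_iff_sub_eq_sub]
        exact e1)
    refine ⟨(W₁ ⊓ V₁) ⊔ (W₂ ⊓ V₂), sup_le (l1.trans hW₁) (l3.trans hW₂), t, fun z hz => ?_, ?_⟩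
    · rcases le_total (co b (z j)) c₀ with h | h
      · exact Or.inl ⟨hKW₁ z (mem_P_cut.2 ⟨hz, h⟩), hK₁ z hz h⟩
      · exact Or.inr ⟨hKW₂ z (mem_P_cut.2 ⟨hz, h⟩), hK₂ z hz h⟩
    · refine eq_of_forall_nhds Q _ _ ?_
      rintro x (hx | hx)
      · refine ⟨W₁ ⊓ V₁, hx, le_sup_left, ?_⟩
        rw [← app_res, ht1, map_sub, hz0, sub_zero, app_res, ht₁, res_res, res_res]
      · refine ⟨W₂ ⊓ V₂, hx, le_sup_right, ?_⟩
        rw [← app_res, ht2, map_sub, hz0, sub_zero, app_res, ht₂, res_res, res_res]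

/-- The chart map with values in `An.top X`. -/
def tpt (c : Chart X) : (Fin c.n → ℂ) → An.top X := c.pt

theorem emb_tpt (c : Chart X) : IsOpenEmbedding (tpt c) := c.emb

/-- **Vanishing**: classes of positive degree die near `c.pt '' P K`. -/
theorem Good.dies [T2Space (An.top X)] (hG : Good c N D e) {n : ℕ} (hn : 1 ≤ n) {U : Opens (An.top X)}
    (a : CohTop.HU (An.AnMod.toAb N) n U) (K : Fin c.n → Set ℂ) (hK : ∀ i, IsCompact (K i))
    (hKD : P K ⊆ (D : Set (Fin c.n → ℂ))) (hU : ∀ z ∈ P K, c.pt z ∈ U) :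
    Dies (An.AnMod.toAb N) (tpt c '' P K) a := by
  induction n using Nat.strong_induction_on generalizing U K with
  | _ n IH =>
    refine box_induction K hK (fun K' => Dies (An.AnMod.toAb N) (tpt c '' P K') a) ?_ ?_ ?_
    · intro K' hK'
      rw [hK', image_empty]
      exact dies_empty a
    · intro z hz
      obtain ⟨V, hV, hxV, h0⟩ := dies_point hn a (tpt c z) (hU z hz)
      refine ⟨c.pre V, (c.pre V).2, hxV rfl, fun K' _ _ hK' => ⟨V, hV, ?_, h0⟩⟩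
      rintro _ ⟨w, hw, rfl⟩
      exact hK' hw
    · intro K' hK' hsub j b c₀ _ h1 h2
      have hK'D : P K' ⊆ (D : Set (Fin c.n → ℂ)) := fun z hz => hKD fun i => hsub i (hz i)
      have hc1 : IsClosed {z | co b z ≤ c₀} := isClosed_le (continuous_co b) continuous_const
      have hc2 : IsClosed {z | c₀ ≤ co b z} := isClosed_le continuous_const (continuous_co b)
      have hc3 : IsClosed {z | co b z = c₀} := isClosed_eq (continuous_co b) continuous_const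
      have hint : tpt c '' P (cut K' j {z | co b z ≤ c₀}) ∩ tpt c '' P (cut K' j {z | c₀ ≤ co b z}) =
          tpt c '' P (cut K' j {z | co b z = c₀}) := by
        rw [← image_inter (emb_tpt c).injective]
        congr 1
        ext x
        simp only [mem_inter_iff, mem_P_cut, mem_ofPred_eq]
        constructor
        · rintro ⟨⟨h1, h2⟩, -, h3⟩
          exact ⟨h1, le_antisymm h2 h3⟩
        · rintro ⟨h1, h2⟩
          exact ⟨⟨h1, h2.le⟩, h1, h2.ge⟩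
      rw [← image_union K' j b c₀]
      obtain ⟨k, rfl⟩ : ∃ k, n = k + 1 := ⟨n - 1, by omega⟩
      rcases Nat.eq_zero_or_pos k with rfl | hk
      · refine dies_union_one a h1 h2 fun W s hW => ?_
        rw [hint] at hW
        obtain ⟨W₁, W₂, s₁, s₂, h, hW₁, hW₂, hs⟩ := Good.split hG K' hK' hK'D j b c₀ W s
          (fun x hx hxc => hW ⟨x, mem_P_cut.2 ⟨hx, hxc⟩, rfl⟩)
        refine ⟨W₁, W₂, s₁, s₂, h, ?_, ?_, hs⟩
        · rintro _ ⟨x, hx, rfl⟩
          rw [mem_P_cut] at hx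
          exact hW₁ x hx.1 hx.2
        · rintro _ ⟨x, hx, rfl⟩
          rw [mem_P_cut] at hx
          exact hW₂ x hx.1 hx.2
      · refine dies_union_succ a ((isCompact_P (isCompact_cut hK' j hc1)).image (emb_tpt c).continuous)
          ((isCompact_P (isCompact_cut hK' j hc2)).image (emb_tpt c).continuous) h1 h2 fun W η hW => ?_
        rw [hint] at hW ⊢
        exact IH k (by omega) hk η _ (isCompact_cut hK' j hc3)
          (fun z hz => hK'D (mem_P_cut.1 hz).1) (fun z hz => hW ⟨z, hz, rfl⟩)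

end Groth.Agent.Gaga.H506.AnVan
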