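import Groth.Agent.Gaga.H294.ThmA

/-!
# Induction over products of compact subsets of the plane

`box_induction`: a property of products `∏ K i` of compact sets which holds locally and is inherited by `K` from
the two halves of a cut of `K` along a non-constant real coordinate holds for all `K`.
-/

set_option autoImplicit false

open Groth.Agent.Gaga.H294.ThmA Topology

namespace Groth.Agent.Gaga.H506.BoxInd

variable {ι : Type} [Fintype ι]

/-- The real coordinate `(j, b)` is constant on `K`. -/
def Const (K : ι → Set ℂ) (r : ι × Bool) : Prop := ∃ t : ℝ, ∀ z ∈ K r.1, co r.2 z = t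

open Classical in
/-- The number of non-constant real coordinates. -/
noncomputable def dim (K : ι → Set ℂ) : ℕ := (Finset.univ.filter fun r => ¬ Const K r).card

omit [Fintype ι] in
theorem Const.mono {K K' : ι → Set ℂ} (h : ∀ i, K' i ⊆ K i) {r : ι × Bool} (hr : Const K r) :
    Const K' r := by
  obtain ⟨t, ht⟩ := hr
  exact ⟨t, fun z hz => ht z (h _ hz)⟩

theorem dim_mono {K K' : ι → Set ℂ} (h : ∀ i, K' i ⊆ K i) : dim K' ≤ dim K := by
  classical
  unfold dim
  refine Finset.card_le_card fun r hr => ?_
  simp only [Finset.mem_filter, Finset.mem_univ, true_and] at *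
  exact fun h' => hr (h'.mono h)

theorem dim_cut_lt {K : ι → Set ℂ} {j : ι} {b : Bool} (h : ¬ Const K (j, b)) (c : ℝ) :
    dim (cut K j {z | co b z = c}) < dim K := by
  classical
  unfold dim
  refine Finset.card_lt_card ⟨fun r hr => ?_, fun hcon => ?_⟩
  · simp only [Finset.mem_filter, Finset.mem_univ, true_and] at *
    exact fun h' => hr (h'.mono (cut_subset K j _))
  · have h1 := @hcon (j, b) (by simpa using h)
    simp only [Finset.mem_filter, Finset.mem_univ, true_and] at h1
    refine h1 ⟨c, fun z hz => ?_⟩
    change z ∈ cut K j {z | co b z = c} j at hz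
    rw [cut_self] at hz
    exact hz.2

theorem dim_le (K : ι → Set ℂ) : dim K ≤ 2 * Fintype.card ι := by
  classical
  unfold dim
  refine (Finset.card_filter_le _ _).trans ?_
  rw [Finset.card_univ, Fintype.card_prod, Fintype.card_bool, mul_comm]

/-- Induction over products of compact sets. -/
theorem box_induction (K₀ : ι → Set ℂ) (hK₀ : ∀ i, IsCompact (K₀ i)) (Q : (ι → Set ℂ) → Prop)
    (hemp : ∀ K, P K = ∅ → Q K)
    (hloc : ∀ x ∈ P K₀, ∃ O : Set (ι → ℂ), IsOpen O ∧ x ∈ O ∧ ∀ K, (∀ i, IsCompact (K i)) →
      (∀ i, K i ⊆ K₀ i) → P K ⊆ O → Q K)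
    (hcut : ∀ K, (∀ i, IsCompact (K i)) → (∀ i, K i ⊆ K₀ i) → ∀ (j : ι) (b : Bool) (c : ℝ),
      ¬ Const K (j, b) → Q (cut K j {z | co b z ≤ c}) → Q (cut K j {z | c ≤ co b z}) → Q K) :
    Q K₀ := by
  classical
  choose! O hO hxO hQ using hloc
  obtain ⟨δ, hδ, hcov⟩ := lebesgue_number_lemma_of_metric (s := P K₀) (c := fun x : P K₀ => O x)
    (isCompact_P hK₀) (fun x => hO x x.2) (fun x hx => Set.mem_iUnion.2 ⟨⟨x, hx⟩, hxO x hx⟩)
  set w : ℝ := δ / 4 with hw
  have hw0 : 0 < w := by positivity
  -- induction on the set of long directions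
  have key : ∀ S : Finset (ι × Bool), ∀ K : ι → Set ℂ, (∀ i, IsCompact (K i)) → (∀ i, K i ⊆ K₀ i) →
      (∀ r : ι × Bool, r ∉ S → ∃ t : ℝ, ∀ z ∈ K r.1, t ≤ co r.2 z ∧ co r.2 z ≤ t + w) →
      Q K := by
    intro S
    induction S using Finset.induction_on with
    | empty =>
      intro K hK hKK₀ hr
      rcases Set.eq_empty_or_nonempty (P K) with he | ⟨x, hx⟩
      · exact hemp K he
      · obtain ⟨x₀, hball⟩ := hcov x fun i => hKK₀ i (hx i)
        refine hQ x₀ x₀.2 K hK hKK₀ ?_
        intro y hy
        refine hball ?_
        rw [Metric.mem_ball, dist_pi_lt_iff hδ]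
        intro i
        obtain ⟨t₁, ht₁⟩ := hr (i, true) (by simp)
        obtain ⟨t₂, ht₂⟩ := hr (i, false) (by simp)
        have a1 := ht₁ _ (hx i)
        have a2 := ht₁ _ (hy i)
        have b1 := ht₂ _ (hx i)
        have b2 := ht₂ _ (hy i)
        simp only [co, if_true, Bool.false_eq_true, if_false] at a1 a2 b1 b2
        rw [dist_eq_norm]
        have e1 : |(y i - x i).re| ≤ w := by
          rw [Complex.sub_re, abs_le]
          constructor <;> linarith
        have e2 : |(y i - x i).im| ≤ w := by
          rw [Complex.sub_im, abs_le]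
          constructor <;> linarith
        have := Complex.norm_le_abs_re_add_abs_im (y i - x i)
        linarith
    | insert r S hrS IH =>
      intro K hK hKK₀ hr
      -- subdivide in the direction `r`
      have inner : ∀ m : ℕ, ∀ K : ι → Set ℂ, (∀ i, IsCompact (K i)) → (∀ i, K i ⊆ K₀ i) →
          (∀ r' : ι × Bool, r' ∉ insert r S → ∃ t : ℝ, ∀ z ∈ K r'.1, t ≤ co r'.2 z ∧ co r'.2 z ≤ t + w) →
          (∃ t : ℝ, ∀ z ∈ K r.1, t ≤ co r.2 z ∧ co r.2 z ≤ t + m * w) → Q K := by
        intro m
        induction m with
        | zero =>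
          rintro K hK hKK₀ hr ⟨t, ht⟩
          refine IH K hK hKK₀ fun r' hr' => ?_
          by_cases h : r' = r
          · subst h
            refine ⟨t, fun z hz => ⟨(ht z hz).1, ?_⟩⟩
            have := (ht z hz).2
            push_cast at this
            linarith
          · exact hr r' (by simp [h, hr'])
        | succ m ihm =>
          rintro K hK hKK₀ hr ⟨t, ht⟩
          by_cases hconst : Const K r
          · -- a constant direction is short
            obtain ⟨t', ht'⟩ := hconst
            refine IH K hK hKK₀ fun r' hr' => ?_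
            by_cases h : r' = r
            · subst h
              refine ⟨t', fun z hz => ?_⟩
              rw [ht' z hz]
              constructor <;> linarith
            · exact hr r' (by simp [h, hr'])
          have hc1 : IsClosed {z | co r.2 z ≤ t + m * w} := isClosed_le (continuous_co r.2) continuous_const
          have hc2 : IsClosed {z | t + m * w ≤ co r.2 z} := isClosed_le continuous_const (continuous_co r.2)
          refine hcut K hK hKK₀ r.1 r.2 (t + m * w) hconst ?_ ?_
          · refine ihm _ (isCompact_cut hK r.1 hc1) (fun i => (cut_subset K r.1 _ i).trans (hKK₀ i))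
              (fun r' hr' => ?_) ⟨t, fun z hz => ?_⟩
            · obtain ⟨t', ht'⟩ := hr r' hr'
              exact ⟨t', fun z hz => ht' z (cut_subset K r.1 _ _ hz)⟩
            · rw [cut_self] at hz
              exact ⟨(ht z hz.1).1, hz.2⟩
          · refine IH _ (isCompact_cut hK r.1 hc2) (fun i => (cut_subset K r.1 _ i).trans (hKK₀ i))
              (fun r' hr' => ?_)
            by_cases h : r' = r
            · subst h
              refine ⟨t + m * w, fun z hz => ?_⟩
              rw [cut_self] at hz
              refine ⟨hz.2, ?_⟩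
              have := (ht z hz.1).2
              push_cast at this
              linarith
            · obtain ⟨t', ht'⟩ := hr r' (by simp [h, hr'])
              exact ⟨t', fun z hz => ht' z (cut_subset K r.1 _ _ hz)⟩
      obtain ⟨R, hR⟩ := (hK r.1).isBounded.subset_closedBall 0
      obtain ⟨m, hm⟩ := exists_nat_ge (2 * R / w)
      refine inner m K hK hKK₀ hr ⟨-R, fun z hz => ?_⟩
      have hzR : ‖z‖ ≤ R := by
        have := hR hz
        rwa [Metric.mem_closedBall, dist_zero_right] at this
      have hco : |co r.2 z| ≤ R := by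
        refine le_trans ?_ hzR
        rcases r with ⟨i, b⟩
        cases b
        · exact Complex.abs_im_le_norm z
        · exact Complex.abs_re_le_norm z
      rw [abs_le] at hco
      refine ⟨hco.1, ?_⟩
      have : 2 * R ≤ m * w := by
        rwa [div_le_iff₀ hw0] at hm
      linarith [hco.2]
  exact key Finset.univ K₀ hK₀ (fun i => subset_rfl) fun r hr => absurd (Finset.mem_univ r) hr

end Groth.Agent.Gaga.H506.BoxInd
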