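import Groth.Agent.Gaga.H506.PolyRel

/-!
# Local finite generation of kernels of matrices of holomorphic functions
-/

set_option autoImplicit false
set_option linter.unusedSectionVars false
set_option linter.dupNamespace false

open Filter Topology Metric Set

namespace Groth.Agent.Gaga.H506.KerFG

open Groth.Agent.Gaga.H506.Scv

variable {E : Type*} [NormedAddCommGroup E] [NormedSpace ℂ E]
variable {κ ι σ : Type*}

/-- `c` is a germ at `y` of an element of the kernel of `F`. -/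
def Ann [Fintype ι] (F : κ → ι → E → ℂ) (y : E) (c : ι → E → ℂ) : Prop :=
  (∀ j, HolAt (c j) y) ∧ ∀ i, ∀ᶠ z in 𝓝 y, ∑ j, F i j z * c j z = 0

/-- `c` is near `y` a holomorphic combination of the `G k`. -/
def Comb [Fintype σ] (G : σ → ι → E → ℂ) (y : E) (c : ι → E → ℂ) : Prop :=
  ∃ e : σ → E → ℂ, (∀ k, HolAt (e k) y) ∧ ∀ j, ∀ᶠ z in 𝓝 y, c j z = ∑ k, e k z * G k j z

/-- `G` generates the kernel of `F` at `y`. -/
def Gen [Fintype ι] [Fintype σ] (F : κ → ι → E → ℂ) (G : σ → ι → E → ℂ) (y : E) : Prop :=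
  (∀ k, Ann F y (G k)) ∧ ∀ c, Ann F y c → Comb G y c

/-- The kernel of `F` is finitely generated near `x`. -/
def KerFG [Fintype ι] (F : κ → ι → E → ℂ) (x : E) : Prop :=
  ∃ (s : ℕ) (G : Fin s → ι → E → ℂ), ∀ᶠ y in 𝓝 x, Gen F G y

theorem KerFG.mk [Fintype ι] [Fintype σ] {F : κ → ι → E → ℂ} {x : E} (G : σ → ι → E → ℂ)
    (h : ∀ᶠ y in 𝓝 x, Gen F G y) : KerFG F x := by
  refine ⟨Fintype.card σ, fun k => G ((Fintype.equivFin σ).symm k), ?_⟩
  filter_upwards [h] with y hy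
  refine ⟨fun k => hy.1 _, fun c hc => ?_⟩
  obtain ⟨e, he, hce⟩ := hy.2 c hc
  refine ⟨fun k => e ((Fintype.equivFin σ).symm k), fun k => he _, fun j => ?_⟩
  filter_upwards [hce j] with z hz
  rw [hz]
  exact (Equiv.sum_comp (Fintype.equivFin σ).symm (fun k => e k z * G k j z)).symm

theorem Ann.congr [Fintype ι] {F F' : κ → ι → E → ℂ} {y : E}
    (h : ∀ i j, ∀ᶠ z in 𝓝 y, F i j z = F' i j z) {c : ι → E → ℂ} (hc : Ann F y c) :
    Ann F' y c := by
  refine ⟨hc.1, fun i => ?_⟩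
  filter_upwards [hc.2 i, Filter.eventually_all.2 (h i)] with z h1 h2
  rw [← h1]
  exact Finset.sum_congr rfl fun j _ => by rw [h2 j]

theorem Gen.congr [Fintype ι] [Fintype σ] {F F' : κ → ι → E → ℂ} {G : σ → ι → E → ℂ} {y : E}
    (h : ∀ i j, ∀ᶠ z in 𝓝 y, F i j z = F' i j z) (hG : Gen F G y) : Gen F' G y :=
  ⟨fun k => (hG.1 k).congr h, fun c hc => hG.2 c (hc.congr fun i j => (h i j).mono
    fun _ hz => hz.symm)⟩

theorem KerFG.congr [Finite κ] [Fintype ι] {F F' : κ → ι → E → ℂ} {x : E}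
    (h : ∀ i j, ∀ᶠ z in 𝓝 x, F i j z = F' i j z) (hF : KerFG F x) : KerFG F' x := by
  obtain ⟨s, G, hG⟩ := hF
  refine ⟨s, G, ?_⟩
  have h' : ∀ᶠ y in 𝓝 x, ∀ i j, ∀ᶠ z in 𝓝 y, F i j z = F' i j z :=
    Filter.eventually_all.2 fun i => Filter.eventually_all.2 fun j =>
      eventually_eventually_nhds.2 (h i j)
  filter_upwards [hG, h'] with y h1 h2 using h1.congr h2

/-- The zero matrix. -/
theorem ker_zero [Finite κ] [Fintype ι] {F : κ → ι → E → ℂ} {x : E}
    (h : ∀ i j, ∀ᶠ z in 𝓝 x, F i j z = 0) : KerFG F x := by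
  classical
  refine KerFG.congr (F := fun _ _ _ => 0) (fun i j => (h i j).mono fun _ hz => hz.symm) ?_
  refine KerFG.mk (σ := ι) (fun k j _ => if k = j then 1 else 0) (Eventually.of_forall fun y => ?_)
  refine ⟨fun k => ⟨fun j => holAt_const _ _, fun i => Eventually.of_forall fun z => by simp⟩,
    fun c hc => ⟨c, hc.1, fun j => Eventually.of_forall fun z => by simp⟩⟩

/-- Reduction to single rows. -/
theorem ker_rows {x : E}
    (h1 : ∀ (ι : Type) [Fintype ι] (f : ι → E → ℂ), (∀ j, HolAt (f j) x) →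
      KerFG (fun _ : Unit => f) x) (k : ℕ) :
    ∀ (ι : Type) [Fintype ι] (F : Fin k → ι → E → ℂ), (∀ i j, HolAt (F i j) x) → KerFG F x := by
  induction k with
  | zero => intro ι _ F _; exact ker_zero fun i => i.elim0
  | succ k ih =>
    intro ι _ F hF
    obtain ⟨s, G, hG⟩ := h1 ι (F 0) (hF 0)
    have hGx := fun l => (hG.self_of_nhds.1 l).1
    obtain ⟨t, H, hH⟩ := ih (Fin s) (fun i l z => ∑ j, F i.succ j z * G l j z)
      (fun i l => holAt_sum _ fun j _ => (hF _ _).mul (hGx l j))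
    refine ⟨t, fun m j z => ∑ l, H m l z * G l j z, ?_⟩
    filter_upwards [hG, hH] with y hy1 hy2
    refine ⟨fun m => ⟨fun j => holAt_sum _ fun l _ => ((hy2.1 m).1 l).mul ((hy1.1 l).1 j), ?_⟩, ?_⟩
    · intro i
      refine Fin.cases ?_ (fun i' => ?_) i
      · have h2 : ∀ᶠ z in 𝓝 y, ∀ l, ∑ j, F 0 j z * G l j z = 0 :=
          Filter.eventually_all.2 fun l => (hy1.1 l).2 ()
        filter_upwards [h2] with z hz
        calc ∑ j, F 0 j z * ∑ l, H m l z * G l j z
            = ∑ l, H m l z * ∑ j, F 0 j z * G l j z := by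
              simp_rw [Finset.mul_sum]
              rw [Finset.sum_comm]
              exact Finset.sum_congr rfl fun l _ => Finset.sum_congr rfl fun j _ => by ring
          _ = 0 := Finset.sum_eq_zero fun l _ => by rw [hz l, mul_zero]
      · filter_upwards [(hy2.1 m).2 i'] with z hz
        rw [← hz]
        simp_rw [Finset.mul_sum, Finset.sum_mul]
        rw [Finset.sum_comm]
        exact Finset.sum_congr rfl fun l _ => Finset.sum_congr rfl fun j _ => by ring
    · intro c hc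
      obtain ⟨e, he, hce⟩ := hy1.2 c ⟨hc.1, fun _ => hc.2 0⟩
      have hce' : ∀ᶠ z in 𝓝 y, ∀ j, c j z = ∑ l, e l z * G l j z := Filter.eventually_all.2 hce
      obtain ⟨d, hd, hed⟩ := hy2.2 e ⟨he, fun i => by
        filter_upwards [hc.2 i.succ, hce'] with z h2 h3
        rw [← h2]
        simp_rw [h3, Finset.mul_sum, Finset.sum_mul]
        rw [Finset.sum_comm]
        exact Finset.sum_congr rfl fun l _ => Finset.sum_congr rfl fun j _ => by ring⟩
      have hed' : ∀ᶠ z in 𝓝 y, ∀ l, e l z = ∑ m, d m z * H m l z := Filter.eventually_all.2 hed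
      refine ⟨d, hd, fun j => ?_⟩
      filter_upwards [hce', hed'] with z h2 h3
      rw [h2 j]
      simp_rw [h3, Finset.mul_sum, Finset.sum_mul]
      rw [Finset.sum_comm]
      exact Finset.sum_congr rfl fun l _ => Finset.sum_congr rfl fun j _ => by ring

/-- Transfer along an invertible change of generators. -/
theorem KerFG.of_equiv {ι' : Type*} [Fintype ι] [Fintype ι'] {F : κ → ι → E → ℂ}
    {F' : κ → ι' → E → ℂ} {x : E}
    (A : E → (ι' → ℂ) →ₗ[ℂ] (ι → ℂ)) (B : E → (ι → ℂ) →ₗ[ℂ] (ι' → ℂ))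
    (hA : ∀ᶠ y in 𝓝 x, ∀ c : ι' → E → ℂ, (∀ j, HolAt (c j) y) →
      ∀ j, HolAt (fun z => A z (fun k => c k z) j) y)
    (hB : ∀ᶠ y in 𝓝 x, ∀ c : ι → E → ℂ, (∀ j, HolAt (c j) y) →
      ∀ j, HolAt (fun z => B z (fun k => c k z) j) y)
    (hFA : ∀ᶠ z in 𝓝 x, ∀ (i : κ) (c : ι' → ℂ), ∑ j, F i j z * A z c j = ∑ j, F' i j z * c j)
    (hFB : ∀ᶠ z in 𝓝 x, ∀ (i : κ) (c : ι → ℂ), ∑ j, F' i j z * B z c j = ∑ j, F i j z * c j)
    (hAB : ∀ᶠ z in 𝓝 x, ∀ c : ι → ℂ, A z (B z c) = c)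
    (h : KerFG F' x) : KerFG F x := by
  obtain ⟨s, G, hG⟩ := h
  refine ⟨s, fun k j z => A z (fun l => G k l z) j, ?_⟩
  filter_upwards [hG, hA, hB, eventually_eventually_nhds.2 hFA, eventually_eventually_nhds.2 hFB,
    eventually_eventually_nhds.2 hAB] with y h1 h2 h3 h4 h5 h6
  refine ⟨fun k => ⟨h2 _ (h1.1 k).1, fun i => ?_⟩, fun c hc => ?_⟩
  · filter_upwards [(h1.1 k).2 i, h4] with z h7 h8
    rw [h8 i, h7]
  · obtain ⟨e, he, hce⟩ := h1.2 (fun j z => B z (fun k => c k z) j) ⟨h3 c hc.1, fun i => by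
      filter_upwards [hc.2 i, h5] with z h7 h8
      rw [h8 i, h7]⟩
    have hce' := Filter.eventually_all.2 hce
    refine ⟨e, he, fun j => ?_⟩
    filter_upwards [hce', h6] with z h7 h8
    have h9 : B z (fun k => c k z) = ∑ k, e k z • (fun l => G k l z) := by
      ext l
      rw [h7 l, Finset.sum_apply]
      rfl
    calc c j z = A z (B z (fun k => c k z)) j := by rw [h8]
      _ = _ := by
        rw [h9, map_sum, Finset.sum_apply]
        refine Finset.sum_congr rfl fun k _ => ?_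
        rw [map_smul]; rfl

/-- Change of coordinates. -/
theorem KerFG.of_comp [Fintype ι] {E₁ : Type*} [NormedAddCommGroup E₁] [NormedSpace ℂ E₁]
    {F : κ → ι → E → ℂ} {x₁ : E₁} {φ : E₁ → E} {ψ : E → E₁}
    (hφ : Differentiable ℂ φ) (hψ : Differentiable ℂ ψ) (h1 : ∀ p, ψ (φ p) = p)
    (h2 : ∀ y, φ (ψ y) = y) (h : KerFG (fun i j p => F i j (φ p)) x₁) : KerFG F (φ x₁) := by
  obtain ⟨s, G, hG⟩ := h
  refine ⟨s, fun k j y => G k j (ψ y), ?_⟩
  have hψt : ∀ y, Tendsto ψ (𝓝 y) (𝓝 (ψ y)) := fun y => hψ.continuous.tendsto y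
  have hφt : ∀ p, Tendsto φ (𝓝 p) (𝓝 (φ p)) := fun y => hφ.continuous.tendsto y
  have hG' : ∀ᶠ y in 𝓝 (φ x₁), Gen (fun i j p => F i j (φ p)) G (ψ y) := by
    have := hψt (φ x₁)
    rw [h1] at this
    exact this.eventually hG
  filter_upwards [hG'] with y hy
  refine ⟨fun k => ⟨fun j => ?_, fun i => ?_⟩, fun c hc => ?_⟩
  · exact HolAt.comp (f := G k j) (g := ψ) ((hy.1 k).1 j) (Eventually.of_forall fun z => hψ z)
  · filter_upwards [(hψt y).eventually ((hy.1 k).2 i)] with z hz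
    simpa only [h2] using hz
  · have h3 : Ann (fun i j p => F i j (φ p)) (ψ y) (fun j p => c j (φ p)) := by
      refine ⟨fun j => ?_, fun i => ?_⟩
      · refine HolAt.comp (f := c j) (g := φ) ?_ (Eventually.of_forall fun z => hφ z)
        rw [h2]; exact hc.1 j
      · have := hφt (ψ y)
        rw [h2] at this
        exact this.eventually (hc.2 i)
    obtain ⟨e, he, hce⟩ := hy.2 _ h3
    refine ⟨fun k z => e k (ψ z), fun k => HolAt.comp (f := e k) (g := ψ) (he k)
      (Eventually.of_forall fun z => hψ z), fun j => ?_⟩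
    filter_upwards [(hψt y).eventually (hce j)] with z hz
    simpa only [h2] using hz

end Groth.Agent.Gaga.H506.KerFG
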