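import Groth.Agent.Gaga.H506.KerFG
import Mathlib.Analysis.Normed.Module.FiniteDimension
import Mathlib.Analysis.Normed.Module.HahnBanach
import Mathlib.Analysis.LocallyConvex.SeparatingDual

/-!
# Oka's coherence theorem
-/

set_option autoImplicit false
set_option linter.unusedSectionVars false
set_option linter.dupNamespace false

open Filter Topology Metric Set Polynomial

namespace Groth.Agent.Gaga.H506.Oka

open Groth.Agent.Gaga.H506.Scv Groth.Agent.Gaga.H506.Weier Groth.Agent.Gaga.H506.WeierPoly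
open Groth.Agent.Gaga.H506.PolyRel Groth.Agent.Gaga.H506.KerFG

variable {E : Type*} [NormedAddCommGroup E] [NormedSpace ℂ E]

/-- Oka's coherence for the space `E`. -/
def OkaProp (E : Type*) [NormedAddCommGroup E] [NormedSpace ℂ E] : Prop :=
  ∀ (x : E) (ι κ : Type) [Fintype ι] [Finite κ] (F : κ → ι → E → ℂ),
    (∀ i j, HolAt (F i j) x) → KerFG F x

theorem coeff_conv {R : Type*} [CommRing R] {ι : Type*} [Fintype ι] {μ : ℕ} (f t : ι → ℕ → R)
    (l : ℕ) :
    (∑ j, (∑ k : Fin (μ + 1), C (t j k) * X ^ (k : ℕ)) *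
      (∑ m ∈ Finset.range (μ + 1), C (f j m) * X ^ m)).coeff l =
    ∑ jk : ι × Fin (μ + 1), (if (jk.2 : ℕ) ≤ l ∧ l - jk.2 ≤ μ then f jk.1 (l - jk.2) else 0) *
      t jk.1 jk.2 := by
  rw [finsetSum_coeff, Fintype.sum_prod_type]
  refine Finset.sum_congr rfl fun j _ => ?_
  rw [Finset.sum_mul, finsetSum_coeff]
  refine Finset.sum_congr rfl fun k _ => ?_
  rw [mul_assoc, coeff_C_mul, mul_comm (X ^ (k : ℕ)), coeff_mul_X_pow']
  by_cases h1 : (k : ℕ) ≤ l
  · simp only [h1, if_true, true_and, finsetSum_coeff, coeff_C_mul_X_pow]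
    rw [Finset.sum_ite_eq]
    simp only [Finset.mem_range, Nat.lt_succ_iff]
    rw [mul_comm]
  · simp only [h1, if_false, false_and, mul_zero, zero_mul]

/-- The polynomial case. -/
theorem ker_poly (hE : OkaProp E) {w₀ : E} {z₀ c : ℂ} {μ : ℕ} {ι : Type} [Fintype ι]
    [DecidableEq ι] (a : ι) (f : ι → ℕ → E → ℂ) (hf : ∀ j m, HolAt (f j m) w₀)
    (hfa : ∀ w, f a μ w = 1) :
    KerFG (fun (_ : Unit) j (p : E × ℂ) =>
      ∑ m ∈ Finset.range (μ + 1), f j m p.1 * (p.2 - c) ^ m) (w₀, z₀) := by
  classical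
  -- the coefficient matrix
  obtain ⟨s, H, hH⟩ := hE w₀ (ι × Fin (μ + 1)) (Fin (2 * μ + 1)) (fun l jk w =>
    if (jk.2 : ℕ) ≤ l ∧ (l : ℕ) - jk.2 ≤ μ then f jk.1 (l - jk.2) w else 0) (by
      rintro l ⟨j, k⟩
      by_cases h : (k : ℕ) ≤ l ∧ (l : ℕ) - k ≤ μ
      · simp only [h, and_self, if_true]; exact hf _ _
      · simp only [h, if_false]; exact holAt_const _ _)
  set F : ι → E × ℂ → ℂ := fun j p => ∑ m ∈ Finset.range (μ + 1), f j m p.1 * (p.2 - c) ^ m
    with hF
  -- the generators
  set G : (Fin s ⊕ {j : ι // j ≠ a}) → ι → E × ℂ → ℂ := Sum.elim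
    (fun r j p => ∑ k : Fin (μ + 1), H r (j, k) p.1 * (p.2 - c) ^ (k : ℕ))
    (fun j' j p => if j = j' then F a p else if j = a then - F j' p else 0) with hG
  have hfst : Tendsto (Prod.fst : E × ℂ → E) (𝓝 (w₀, z₀)) (𝓝 w₀) :=
    continuous_fst.tendsto (w₀, z₀)
  have hf' : ∀ᶠ w in 𝓝 w₀, ∀ j, ∀ m ∈ Finset.range (μ + 1), HolAt (f j m) w :=
    Filter.eventually_all.2 fun j =>
      (Filter.eventually_all_finset (Finset.range (μ + 1))).2 fun m _ => (hf j m).eventually
  refine KerFG.mk G ?_
  filter_upwards [hfst.eventually hH, hfst.eventually hf'] with p₁ hp hfp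
  obtain ⟨w₁, z₁⟩ := p₁
  simp only at hp hfp
  have hfst₁ : Tendsto (Prod.fst : E × ℂ → E) (𝓝 (w₁, z₁)) (𝓝 w₁) :=
    continuous_fst.tendsto (w₁, z₁)
  have hX : ∀ m : ℕ, HolAt (fun p : E × ℂ => (p.2 - c) ^ m) (w₁, z₁) := fun m =>
    Eventually.of_forall fun _ => by fun_prop
  have hlift : ∀ g : E → ℂ, HolAt g w₁ → HolAt (fun p : E × ℂ => g p.1) (w₁, z₁) := fun g hg =>
    HolAt.comp (f := g) (g := fun p : E × ℂ => p.1) hg (Eventually.of_forall fun _ => by fun_prop)
  have hFhol : ∀ j, HolAt (F j) (w₁, z₁) := by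
    intro j
    exact holAt_sum _ fun m hm => (hlift _ (hfp j m hm)).mul (hX m)
  have hnt : Nontrivial (HolS w₁) := by
    refine ⟨⟨0, 1, fun h => ?_⟩⟩
    have := congrFun (congrArg Subtype.val h) w₁
    simp at this
  -- the polynomials
  obtain ⟨φ, hφ⟩ : ∃ φ : ι → ℕ → HolS w₁, ∀ j, ∀ m ≤ μ, (φ j m : E → ℂ) = f j m := by
    have h1 : ∀ j, ∀ m, ∃ g : HolS w₁, m ≤ μ → (g : E → ℂ) = f j m := by
      intro j m
      by_cases hm : m ≤ μ
      · exact ⟨⟨f j m, hfp j m (Finset.mem_range.2 (Nat.lt_succ_of_le hm))⟩, fun _ => rfl⟩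
      · exact ⟨0, fun h => absurd h hm⟩
    choose φ hφ using h1
    exact ⟨φ, hφ⟩
  set Fp : ι → (HolS w₁)[X] := fun j => ∑ m ∈ Finset.range (μ + 1), C (φ j m) * X ^ m with hFp
  have hFpev : ∀ j p, ev c w₁ (Fp j) p = F j p := by
    intro j p
    rw [hFp]
    simp only [map_sum, map_mul, map_pow, Finset.sum_apply, Pi.mul_apply, Pi.pow_apply, ev_C, ev_X]
    refine Finset.sum_congr rfl fun m hm => ?_
    rw [hφ j m (Nat.lt_succ_iff.1 (Finset.mem_range.1 hm))]
  have hFpd : ∀ j, (Fp j).natDegree ≤ μ := fun j =>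
    natDegree_sum_le_of_forall_le _ _ fun m hm => (natDegree_C_mul_X_pow_le _ _).trans
      (Nat.lt_succ_iff.1 (Finset.mem_range.1 hm))
  have hFpa : (Fp a).Monic := by
    refine monic_of_natDegree_le_of_coeff_eq_one μ (hFpd a) ?_
    rw [hFp]
    simp only [finsetSum_coeff, coeff_C_mul_X_pow]
    rw [Finset.sum_ite_eq, if_pos (Finset.mem_range.2 (Nat.lt_succ_self μ))]
    apply Subtype.ext
    rw [hφ a μ le_rfl]
    exact funext hfa
  refine ⟨?_, ?_⟩
  · -- the generators are relations
    rintro (r | j')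
    · refine ⟨fun j => holAt_sum _ fun k _ => (hlift _ ((hp.1 r).1 _)).mul (hX _), fun _ => ?_⟩
      have h1 : ∀ᶠ p : E × ℂ in 𝓝 (w₁, z₁), ∀ l : Fin (2 * μ + 1), _ :=
        hfst₁.eventually (Filter.eventually_all.2 fun l => (hp.1 r).2 l)
      filter_upwards [h1] with p hp1
      set P : ℂ[X] := ∑ j, (∑ k : Fin (μ + 1), C (H r (j, k) p.1) * X ^ (k : ℕ)) *
        (∑ m ∈ Finset.range (μ + 1), C (f j m p.1) * X ^ m) with hP
      have hP0 : P = 0 := by
        ext l
        rw [coeff_zero]
        by_cases hl : l < 2 * μ + 1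
        · have h2 := coeff_conv (μ := μ) (fun j m => f j m p.1)
            (fun j k => if h : k < μ + 1 then H r (j, ⟨k, h⟩) p.1 else 0) l
          have h3 := hp1 ⟨l, hl⟩
          simp only [Fin.is_lt, dite_true] at h2
          rw [hP]
          exact (h2.trans (Finset.sum_congr rfl fun jk _ => rfl)).trans h3
        · refine coeff_eq_zero_of_natDegree_lt (lt_of_le_of_lt ?_ (not_lt.1 hl))
          refine natDegree_sum_le_of_forall_le _ _ fun j _ => ?_
          refine natDegree_mul_le.trans ?_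
          rw [two_mul]
          refine add_le_add ?_ ?_
          · exact natDegree_sum_le_of_forall_le _ _ fun m hm => (natDegree_C_mul_X_pow_le _ _).trans
              (Nat.lt_succ_iff.1 m.2)
          · exact natDegree_sum_le_of_forall_le _ _ fun m hm => (natDegree_C_mul_X_pow_le _ _).trans
              (Nat.lt_succ_iff.1 (Finset.mem_range.1 hm))
      have h4 : P.eval (p.2 - c) = 0 := by rw [hP0, eval_zero]
      refine Eq.trans ?_ h4
      rw [hP, eval_finsetSum]
      refine Finset.sum_congr rfl fun j _ => ?_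
      rw [eval_mul, eval_finsetSum, eval_finsetSum]
      simp only [eval_mul, eval_C, eval_pow, eval_X, hG, Sum.elim_inl, hF]
      rw [mul_comm]
    · refine ⟨fun j => ?_, fun _ => ?_⟩
      · by_cases h1 : j = j'
        · simp only [hG, Sum.elim_inr, h1, if_true]; exact hFhol a
        · by_cases h2 : j = a
          · subst h2
            simp only [hG, Sum.elim_inr, h1, if_false, if_true]; exact (hFhol _).neg
          · simp only [hG, Sum.elim_inr, h1, h2, if_false]; exact holAt_const _ _
      · refine Eventually.of_forall fun p => ?_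
        simp only [hG, Sum.elim_inr]
        have h1 : ∀ j, F j p * (if j = j' then F a p else if j = a then - F j' p else 0) =
            (if j = j' then F j p * F a p else 0) + (if j = a then - (F j p * F j' p) else 0) := by
          intro j
          by_cases h1 : j = j'
          · subst h1
            simp [j'.2]
          · by_cases h2 : j = a
            · rw [if_neg h1, if_pos h2, if_neg h1, if_pos h2]; ring
            · rw [if_neg h1, if_neg h2, if_neg h1, if_neg h2]; ring
        rw [Finset.sum_congr rfl fun j _ => h1 j, Finset.sum_add_distrib, Finset.sum_ite_eq',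
          Finset.sum_ite_eq', if_pos (Finset.mem_univ _), if_pos (Finset.mem_univ _)]
        ring
  · -- and generate
    intro cc hc
    have hrel : ∀ᶠ p in 𝓝 (w₁, z₁), ∑ j, cc j p * ev c w₁ (Fp j) p = 0 := by
      filter_upwards [hc.2 ()] with p h1
      refine Eq.trans ?_ h1
      refine Finset.sum_congr rfl fun j _ => ?_
      rw [hFpev, mul_comm]
    obtain ⟨T, τ, v, hT, hτ, hv, hTF, hcc⟩ := poly_relations a Fp hFpd hFpa cc hc.1 hrel
    obtain ⟨d, hd, hTd⟩ := hp.2 (fun jk => ((T jk.1).coeff jk.2 : E → ℂ))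
      ⟨fun jk => ((T jk.1).coeff jk.2).2, fun l => by
        filter_upwards [hTF l] with w hw
        refine Eq.trans ?_ hw
        have h1 : ∀ j, T j = ∑ k : Fin (μ + 1), C ((T j).coeff k) * X ^ (k : ℕ) := by
          intro j
          conv_lhs => rw [(T j).as_sum_range' (μ + 1) (Nat.lt_succ_of_le (hT j))]
          rw [Finset.sum_range]
          exact Finset.sum_congr rfl fun k _ => (C_mul_X_pow_eq_monomial).symm
        have h2 := coeff_conv (μ := μ) φ (fun j k => (T j).coeff k) l
        have h3 : (∑ j, T j * Fp j).coeff l = ∑ jk : ι × Fin (μ + 1),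
            (if (jk.2 : ℕ) ≤ l ∧ (l : ℕ) - jk.2 ≤ μ then φ jk.1 (l - jk.2) else 0) *
            (T jk.1).coeff jk.2 := by
          refine Eq.trans ?_ h2
          exact congrArg (fun P : (HolS w₁)[X] => P.coeff (l : ℕ))
            (Finset.sum_congr rfl fun j _ => congrArg (· * Fp j) (h1 j))
        rw [h3, HolS.coe_sum]
        refine Finset.sum_congr rfl fun jk _ => ?_
        by_cases h4 : (jk.2 : ℕ) ≤ l ∧ (l : ℕ) - jk.2 ≤ μ
        · rw [if_pos h4, if_pos h4]
          show _ = (φ jk.1 (l - jk.2) : E → ℂ) w * _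
          rw [hφ _ _ h4.2]
        · rw [if_neg h4, if_neg h4, zero_mul, zero_mul]
          rfl⟩
    refine ⟨Sum.elim (fun r p => v p * d r p.1) (fun j' p => τ j' p), ?_, fun j => ?_⟩
    · rintro (r | j')
      · exact hv.mul (hlift _ (hd r))
      · exact hτ j'
    · have hTd' : ∀ᶠ p : E × ℂ in 𝓝 (w₁, z₁), ∀ jk : ι × Fin (μ + 1), _ :=
        hfst₁.eventually (Filter.eventually_all.2 hTd)
      filter_upwards [hcc, hTd'] with p h1 h2
      have h3 : ∀ j, ev c w₁ (T j) p = ∑ r, d r p.1 * G (Sum.inl r) j p := by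
        intro j
        rw [ev_eq_sum c w₁ (T j) (Nat.lt_succ_of_le (hT j)), Finset.sum_range]
        simp only [hG, Sum.elim_inl, Finset.mul_sum]
        rw [Finset.sum_comm]
        refine Finset.sum_congr rfl fun k _ => ?_
        rw [h2 (j, k), Finset.sum_mul]
        exact Finset.sum_congr rfl fun r _ => by ring
      rw [Fintype.sum_sum_type]
      simp only [Sum.elim_inl, Sum.elim_inr]
      have h4 : ∑ r, v p * d r p.1 * G (Sum.inl r) j p = v p * ev c w₁ (T j) p := by
        rw [h3, Finset.mul_sum]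
        exact Finset.sum_congr rfl fun r _ => by ring
      rw [h4]
      by_cases hj : j = a
      · subst hj
        rw [h1.2, sub_eq_add_neg, ← Finset.sum_neg_distrib]
        refine congrArg (v p * ev c w₁ (T j) p + ·) ?_
        rw [Finset.sum_subtype (Finset.univ.erase j) (p := fun i => i ≠ j) (by simp)]
        refine Finset.sum_congr rfl fun i _ => ?_
        simp only [hG, Sum.elim_inr]
        rw [if_neg (Ne.symm i.2), if_pos True.intro, hFpev]
        ring
      · rw [h1.1 j hj, add_comm, hFpev]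
        refine congrArg (v p * ev c w₁ (T j) p + ·) ?_
        rw [Finset.sum_eq_single (⟨j, hj⟩ : {j : ι // j ≠ a})]
        · simp [hG]
        · intro b _ hb
          have : j ≠ b := fun h => hb (Subtype.ext h.symm)
          simp [hG, this, hj]
        · simp

/-- A single row with a regular entry. -/
theorem ker_row_reg (hE : OkaProp E) {w₀ : E} {z₀ : ℂ} {ι : Type} [Fintype ι] (a : ι)
    (F : ι → E × ℂ → ℂ) (hF : ∀ j, HolAt (F j) (w₀, z₀)) {ν : ℕ} (hreg : Reg (F a) ν w₀ z₀) :
    KerFG (fun _ : Unit => F) (w₀, z₀) := by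
  classical
  obtain ⟨q, b, hq, hq0, hb, hqb⟩ := exists_prep (hF a) hreg
  choose u r hu hr hur using fun j => exists_div (hF a) hreg (hF j)
  set f : ι → ℕ → E → ℂ := fun j m =>
    if j = a then (if m = ν then fun _ => 1 else if m < ν then fun w => - b m w else fun _ => 0)
    else (if m < ν then r j m else fun _ => 0) with hf
  have hfhol : ∀ j m, HolAt (f j m) w₀ := by
    intro j m
    simp only [hf]
    split_ifs
    · exact holAt_const _ _
    · exact (hb m).neg
    · exact holAt_const _ _
    · exact hr j m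
    · exact holAt_const _ _
  have hfa : ∀ w, f a ν w = 1 := by intro w; simp [hf]
  have hK := ker_poly hE (z₀ := z₀) (c := z₀) a f hfhol hfa
  -- values
  have hva : ∀ p : E × ℂ, (p.2 - z₀) ^ ν = q p * F a p +
      ∑ j ∈ Finset.range ν, b j p.1 * (p.2 - z₀) ^ j →
      ∑ m ∈ Finset.range (ν + 1), f a m p.1 * (p.2 - z₀) ^ m = q p * F a p := by
    intro p hp
    rw [Finset.sum_range_succ, hfa, one_mul, hp]
    have : ∑ m ∈ Finset.range ν, f a m p.1 * (p.2 - z₀) ^ m =
        - ∑ m ∈ Finset.range ν, b m p.1 * (p.2 - z₀) ^ m := by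
      rw [← Finset.sum_neg_distrib]
      refine Finset.sum_congr rfl fun m hm => ?_
      have h1 := Finset.mem_range.1 hm
      simp only [hf, if_true, h1.ne, if_false, h1]
      ring
    rw [this]; ring
  have hvj : ∀ j, j ≠ a → ∀ p : E × ℂ, F j p = u j p * F a p +
      ∑ m ∈ Finset.range ν, r j m p.1 * (p.2 - z₀) ^ m →
      ∑ m ∈ Finset.range (ν + 1), f j m p.1 * (p.2 - z₀) ^ m = F j p - u j p * F a p := by
    intro j hj p hp
    rw [Finset.sum_range_succ, hp]
    have : ∑ m ∈ Finset.range ν, f j m p.1 * (p.2 - z₀) ^ m =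
        ∑ m ∈ Finset.range ν, r j m p.1 * (p.2 - z₀) ^ m := by
      refine Finset.sum_congr rfl fun m hm => ?_
      have h1 := Finset.mem_range.1 hm
      simp only [hf, hj, if_false, h1, if_true]
    rw [this]
    simp only [hf, hj, if_false, lt_irrefl]
    ring
  set F' : ι → E × ℂ → ℂ := fun j p => ∑ m ∈ Finset.range (ν + 1), f j m p.1 * (p.2 - z₀) ^ m
    with hF'
  have hq' : ∀ᶠ p in 𝓝 (w₀, z₀), q p ≠ 0 := hq.continuousAt.eventually_ne hq0
  have hval : ∀ᶠ p in 𝓝 (w₀, z₀), q p ≠ 0 ∧ F' a p = q p * F a p ∧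
      ∀ j, j ≠ a → F' j p = F j p - u j p * F a p := by
    filter_upwards [hq', hqb, Filter.eventually_all.2 hur] with p h0 h1 h2
    exact ⟨h0, hva p h1, fun j hj => hvj j hj p (h2 j)⟩
  refine KerFG.of_equiv (F' := fun _ : Unit => F')
    (fun p => { toFun := fun c j => if j = a then q p * c a - ∑ i ∈ Finset.univ.erase a, u i p * c i
                  else c j
                map_add' := by
                  intro c d
                  ext j
                  simp only [Pi.add_apply, mul_add, Finset.sum_add_distrib]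
                  split_ifs <;> ring
                map_smul' := by
                  intro t c
                  ext j
                  simp only [Pi.smul_apply, smul_eq_mul, RingHom.id_apply]
                  split_ifs
                  · rw [mul_sub, Finset.mul_sum]
                    refine congrArg₂ (· - ·) (by ring) (Finset.sum_congr rfl fun i _ => by ring)
                  · rfl })
    (fun p => { toFun := fun c j => if j = a then
                    (q p)⁻¹ * (c a + ∑ i ∈ Finset.univ.erase a, u i p * c i) else c j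
                map_add' := by
                  intro c d
                  ext j
                  simp only [Pi.add_apply, mul_add, Finset.sum_add_distrib]
                  split_ifs <;> ring
                map_smul' := by
                  intro t c
                  ext j
                  simp only [Pi.smul_apply, smul_eq_mul, RingHom.id_apply]
                  split_ifs
                  · rw [mul_left_comm, mul_add t, Finset.mul_sum]
                    refine congrArg _ (congrArg₂ (· + ·) rfl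
                      (Finset.sum_congr rfl fun i _ => by ring))
                  · rfl })
    ?_ ?_ ?_ ?_ ?_ hK
  · filter_upwards [hq.eventually, Filter.eventually_all.2 fun j => (hu j).eventually]
      with y h1 h2 c hc j
    simp only [LinearMap.coe_mk, AddHom.coe_mk]
    by_cases hj : j = a
    · simp only [hj, if_true]
      exact (h1.mul (hc a)).sub (holAt_sum _ fun i _ => (h2 i).mul (hc i))
    · simp only [hj, if_false]; exact hc j
  · filter_upwards [hq.eventually, Filter.eventually_all.2 fun j => (hu j).eventually, hq']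
      with y h1 h2 h3 c hc j
    simp only [LinearMap.coe_mk, AddHom.coe_mk]
    by_cases hj : j = a
    · simp only [hj, if_true]
      exact (h1.inv h3).mul ((hc a).add (holAt_sum _ fun i _ => (h2 i).mul (hc i)))
    · simp only [hj, if_false]; exact hc j
  · filter_upwards [hval] with p hp i c
    simp only [LinearMap.coe_mk, AddHom.coe_mk]
    rw [← Finset.add_sum_erase _ _ (Finset.mem_univ a), ← Finset.add_sum_erase _ _
      (Finset.mem_univ a), if_pos rfl, hp.2.1]
    have h1 : ∑ j ∈ Finset.univ.erase a, F' j p * c j =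
        ∑ j ∈ Finset.univ.erase a, F j p * c j - F a p * ∑ j ∈ Finset.univ.erase a, u j p * c j := by
      rw [Finset.mul_sum, ← Finset.sum_sub_distrib]
      refine Finset.sum_congr rfl fun j hj => ?_
      rw [hp.2.2 j (Finset.ne_of_mem_erase hj)]; ring
    have h2 : ∑ j ∈ Finset.univ.erase a, F j p *
        (if j = a then q p * c a - ∑ i ∈ Finset.univ.erase a, u i p * c i else c j) =
        ∑ j ∈ Finset.univ.erase a, F j p * c j :=
      Finset.sum_congr rfl fun j hj => by rw [if_neg (Finset.ne_of_mem_erase hj)]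
    rw [h1, h2]; ring
  · filter_upwards [hval] with p hp i c
    simp only [LinearMap.coe_mk, AddHom.coe_mk]
    rw [← Finset.add_sum_erase _ _ (Finset.mem_univ a), ← Finset.add_sum_erase _ _
      (Finset.mem_univ a), if_pos rfl, hp.2.1]
    have h2 : ∑ j ∈ Finset.univ.erase a, F' j p *
        (if j = a then (q p)⁻¹ * (c a + ∑ i ∈ Finset.univ.erase a, u i p * c i) else c j) =
        ∑ j ∈ Finset.univ.erase a, F j p * c j -
          F a p * ∑ j ∈ Finset.univ.erase a, u j p * c j := by
      rw [Finset.mul_sum, ← Finset.sum_sub_distrib]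
      refine Finset.sum_congr rfl fun j hj => ?_
      rw [if_neg (Finset.ne_of_mem_erase hj), hp.2.2 j (Finset.ne_of_mem_erase hj)]; ring
    rw [h2]
    have h0 := hp.1
    field_simp
    ring
  · filter_upwards [hval] with p hp c
    simp only [LinearMap.coe_mk, AddHom.coe_mk]
    ext j
    by_cases hj : j = a
    · subst hj
      simp only [if_true]
      have h2 : ∑ i ∈ Finset.univ.erase j, u i p *
        (if i = j then (q p)⁻¹ * (c j + ∑ i ∈ Finset.univ.erase j, u i p * c i) else c i) =
        ∑ i ∈ Finset.univ.erase j, u i p * c i :=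
        Finset.sum_congr rfl fun i hi => by rw [if_neg (Finset.ne_of_mem_erase hi)]
      rw [h2]
      have h0 := hp.1
      field_simp
      ring
    · rw [if_neg hj, if_neg hj]

/-- A function which is not zero near `x` is nonzero along some line. -/
theorem exists_direction {f : E × ℂ → ℂ} {x : E × ℂ} (hf : HolAt f x)
    (h0 : ¬ ∀ᶠ p in 𝓝 x, f p = 0) :
    ∃ v : E × ℂ, v ≠ 0 ∧ ¬ ∀ᶠ t : ℂ in 𝓝 0, f (x + t • v) = 0 := by
  by_contra hcon
  push Not at hcon
  apply h0
  obtain ⟨r, hr, hd⟩ := hf.exists_ball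
  filter_upwards [ball_mem_nhds x hr] with p hp
  by_cases hpx : p - x = 0
  · have h1 := (hcon (0, 1) (by simp)).self_of_nhds
    rw [zero_smul, add_zero] at h1
    rw [sub_eq_zero.1 hpx, h1]
  · have h1 := hcon (p - x) hpx
    set g : ℂ → ℂ := fun t => f (x + t • (p - x)) with hg
    have hpr : ‖p - x‖ < r := by rwa [mem_ball, dist_eq_norm] at hp
    have hpos : 0 < ‖p - x‖ := norm_pos_iff.2 hpx
    have hgd : DifferentiableOn ℂ g (ball 0 (r / ‖p - x‖)) := by
      refine DifferentiableOn.comp (t := ball x r) hd (Differentiable.differentiableOn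
        (by fun_prop)) fun t ht => ?_
      rw [mem_ball, dist_zero_right, lt_div_iff₀ hpos] at ht
      rw [mem_ball, dist_eq_norm, add_sub_cancel_left, norm_smul]
      exact ht
    have h2 := (hgd.analyticOnNhd isOpen_ball).eqOn_zero_of_preconnected_of_eventuallyEq_zero
      (convex_ball (0 : ℂ) _).isPreconnected (mem_ball_self (by positivity)) h1
    have h3 : g 1 = 0 := h2 (by
      rw [mem_ball, dist_zero_right, norm_one, lt_div_iff₀ hpos, one_mul]; exact hpr)
    simpa [hg] using h3

theorem ker_row (hE : OkaProp E) (x : E × ℂ) (ι : Type) [Fintype ι] (F : ι → E × ℂ → ℂ)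
    (hF : ∀ j, HolAt (F j) x) : KerFG (fun _ : Unit => F) x := by
  by_cases h0 : ∀ j, ∀ᶠ p in 𝓝 x, F j p = 0
  · exact ker_zero fun _ j => h0 j
  rw [not_forall] at h0
  obtain ⟨a, ha⟩ := h0
  obtain ⟨v, hv0, hv⟩ := exists_direction (hF a) ha
  obtain ⟨Φ, hΦ⟩ := SeparatingDual.exists_continuousLinearEquiv_apply_eq (R := ℂ)
    (x := ((0 : E), (1 : ℂ))) (y := v) (by simp) hv0
  have h0x : x = x + Φ (0, 0) := by
    rw [show ((0 : E), (0 : ℂ)) = 0 from rfl, map_zero, add_zero]
  have hφ : Differentiable ℂ (fun p => x + Φ p) := by fun_prop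
  have hψ : Differentiable ℂ (fun y => Φ.symm (y - x)) := by fun_prop
  have key : KerFG (fun (_ : Unit) j p => F j (x + Φ p)) ((0 : E), (0 : ℂ)) := by
    have hF' : ∀ j, HolAt (fun p => F j (x + Φ p)) ((0 : E), (0 : ℂ)) := fun j =>
      HolAt.comp (f := F j) (g := fun p => x + Φ p) (by rw [← h0x]; exact hF j)
        (Eventually.of_forall fun p => hφ p)
    obtain ⟨ν, hν⟩ := exists_reg (hF' a) (by
      intro hcon
      apply hv
      filter_upwards [hcon] with t ht
      rw [← ht, show ((0 : E), t) = t • ((0 : E), (1 : ℂ)) by simp, map_smul, hΦ])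
    exact ker_row_reg hE a (fun j p => F j (x + Φ p)) hF' hν
  have h2 := KerFG.of_comp (F := fun _ : Unit => F) (φ := fun p => x + Φ p)
    (ψ := fun y => Φ.symm (y - x)) hφ hψ (by intro p; simp) (by intro y; simp) key
  rwa [← h0x] at h2

theorem okaProp_prod (hE : OkaProp E) : OkaProp (E × ℂ) := by
  intro x ι κ _ _ F hF
  obtain ⟨k, ⟨e⟩⟩ := Finite.exists_equiv_fin κ
  obtain ⟨s, G, hG⟩ := ker_rows (x := x) (fun ι _ f hf => ker_row hE x ι f hf) k ι
    (fun i => F (e.symm i)) (fun i j => hF _ j)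
  refine ⟨s, G, hG.mono fun y hy => ⟨fun l => ⟨(hy.1 l).1, fun i => ?_⟩, fun c hc =>
    hy.2 c ⟨hc.1, fun i => hc.2 _⟩⟩⟩
  simpa using (hy.1 l).2 (e i)

theorem okaProp_equiv {E₁ : Type*} [NormedAddCommGroup E₁] [NormedSpace ℂ E₁]
    (Φ : E₁ ≃L[ℂ] E) (h : OkaProp E₁) : OkaProp E := by
  intro x ι κ _ _ F hF
  have h1 := h (Φ.symm x) ι κ (fun i j p => F i j (Φ p)) (fun i j =>
    HolAt.comp (f := F i j) (g := fun p => Φ p) (by simpa using hF i j)
      (Eventually.of_forall fun p => by fun_prop))
  have h2 := KerFG.of_comp (F := F) (φ := fun p => Φ p) (ψ := fun y => Φ.symm y) (by fun_prop)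
    (by fun_prop) (by intro p; simp) (by intro y; simp) h1
  simpa using h2

theorem okaProp_subsingleton [Subsingleton E] : OkaProp E := by
  classical
  intro x ι κ _ _ F hF
  -- linear algebra
  have hhol : ∀ (g : E → ℂ) (y : E), HolAt g y := fun g y => by
    have : g = fun _ => g x := funext fun z => by rw [Subsingleton.elim z x]
    rw [this]; exact holAt_const _ _
  have hev : ∀ (P : E → Prop) (y : E), (∀ᶠ z in 𝓝 y, P z) ↔ P x := by
    intro P y
    constructor
    · intro h; have := h.self_of_nhds; rwa [Subsingleton.elim y x] at this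
    · intro h; exact Eventually.of_forall fun z => by rwa [Subsingleton.elim z x]
  let M : Submodule ℂ (ι → ℂ) :=
    { carrier := {c | ∀ i, ∑ j, F i j x * c j = 0}
      add_mem' := by
        intro c d hc hd i
        simp only [Pi.add_apply, mul_add, Finset.sum_add_distrib, hc i, hd i, add_zero]
      zero_mem' := by intro i; simp
      smul_mem' := by
        intro t c hc i
        have : ∑ j, F i j x * (t • c) j = t * ∑ j, F i j x * c j := by
          rw [Finset.mul_sum]
          exact Finset.sum_congr rfl fun j _ => by simp only [Pi.smul_apply, smul_eq_mul]; ring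
        rw [this, hc i, mul_zero] }
  let b := Module.finBasis ℂ M
  refine KerFG.mk (fun k j _ => (b k : ι → ℂ) j) (Eventually.of_forall fun y => ?_)
  refine ⟨fun k => ⟨fun j => holAt_const _ _, fun i => (hev _ _).2 ((b k).2 i)⟩, fun c hc => ?_⟩
  have hcM : (fun j => c j x) ∈ M := fun i => (hev _ _).1 (hc.2 i)
  refine ⟨fun k _ => b.repr ⟨_, hcM⟩ k, fun k => holAt_const _ _, fun j => (hev _ _).2 ?_⟩
  have h1 := congrArg (fun m : M => (m : ι → ℂ) j) (b.sum_repr ⟨_, hcM⟩)
  simp only [Submodule.coe_sum, Submodule.coe_smul, Finset.sum_apply, Pi.smul_apply,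
    smul_eq_mul] at h1
  exact h1.symm

/-- **Oka's coherence theorem.** -/
theorem okaProp_fin (n : ℕ) : OkaProp (Fin n → ℂ) := by
  induction n with
  | zero => exact okaProp_subsingleton
  | succ n ih =>
    exact okaProp_equiv (ContinuousLinearEquiv.ofFinrankEq (by simp)) (okaProp_prod ih)

/-- **Oka's coherence theorem**, explicit form. -/
theorem oka {n a b : ℕ} {U : Set (Fin n → ℂ)} (hU : IsOpen U)
    (F : Fin b → Fin a → (Fin n → ℂ) → ℂ) (hF : ∀ i j, DifferentiableOn ℂ (F i j) U)
    {x : Fin n → ℂ} (hx : x ∈ U) :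
    ∃ V : Set (Fin n → ℂ), IsOpen V ∧ x ∈ V ∧ V ⊆ U ∧ ∃ (s : ℕ) (G : Fin a → Fin s → (Fin n → ℂ) → ℂ),
      (∀ j k, DifferentiableOn ℂ (G j k) V) ∧ (∀ y ∈ V, ∀ i k, ∑ j, F i j y * G j k y = 0) ∧
      ∀ y ∈ V, ∀ c : Fin a → (Fin n → ℂ) → ℂ, (∀ j, HolAt (c j) y) →
        (∀ i, ∀ᶠ z in 𝓝 y, ∑ j, F i j z * c j z = 0) →
        ∃ e : Fin s → (Fin n → ℂ) → ℂ, (∀ k, HolAt (e k) y) ∧
          ∀ j, ∀ᶠ z in 𝓝 y, c j z = ∑ k, G j k z * e k z := by
  obtain ⟨s, G, hG⟩ := okaProp_fin n x (Fin a) (Fin b) F
    (fun i j => holAt_of_differentiableOn hU (hF i j) hx)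
  obtain ⟨V, hV, hVo, hxV⟩ := _root_.mem_nhds_iff.1 (Filter.inter_mem hG (hU.mem_nhds hx))
  refine ⟨V, hVo, hxV, fun y hy => (hV hy).2, s, fun j k => G k j, fun j k y hy =>
    (((hV hy).1.1 k).1 j).differentiableAt.differentiableWithinAt, fun y hy i k =>
    (((hV hy).1.1 k).2 i).self_of_nhds, fun y hy c hc hFc => ?_⟩
  obtain ⟨e, he, hce⟩ := (hV hy).1.2 c ⟨hc, hFc⟩
  refine ⟨e, he, fun j => ?_⟩
  filter_upwards [hce j] with z hz
  rw [hz]
  exact Finset.sum_congr rfl fun k _ => mul_comm _ _

end Groth.Agent.Gaga.H506.Oka
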