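import Groth.Agent.Gaga.H506.WeierPoly

/-!
# Relations between polynomials at a point are generated by polynomial relations
-/

set_option autoImplicit false
set_option linter.unusedSectionVars false

open Filter Topology Metric Set Polynomial

namespace Groth.Agent.Gaga.H506.PolyRel

open Groth.Agent.Gaga.H506.Scv Groth.Agent.Gaga.H506.Weier Groth.Agent.Gaga.H506.WeierPoly

variable {E : Type*} [NormedAddCommGroup E] [NormedSpace ℂ E]

/-- Division of germs by a monic polynomial at any point. -/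
theorem exists_local {w₁ : E} {z₁ c : ℂ} (P : (HolS w₁)[X]) (hP : P.Monic) :
    ∃ (P₁ Q : (HolS w₁)[X]), P₁.Monic ∧ Q.natDegree + P₁.natDegree ≤ P.natDegree ∧
      ev c w₁ Q (w₁, z₁) ≠ 0 ∧
      (∀ᶠ p in 𝓝 (w₁, z₁), ev c w₁ P p = ev c w₁ Q p * ev c w₁ P₁ p) ∧
      (∀ g : E × ℂ → ℂ, HolAt g (w₁, z₁) → ∃ (t : E × ℂ → ℂ) (S : (HolS w₁)[X]),
        HolAt t (w₁, z₁) ∧ (S = 0 ∨ S.natDegree < P₁.natDegree) ∧
        ∀ᶠ p in 𝓝 (w₁, z₁), g p = t p * ev c w₁ P₁ p + ev c w₁ S p) ∧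
      (∀ (t : E × ℂ → ℂ) (S : (HolS w₁)[X]), HolAt t (w₁, z₁) → S.degree < P₁.degree →
        (∀ᶠ p in 𝓝 (w₁, z₁), t p * ev c w₁ P₁ p + ev c w₁ S p = 0) →
        (∀ᶠ p in 𝓝 (w₁, z₁), t p = 0) ∧ (∀ᶠ p in 𝓝 (w₁, z₁), ev c w₁ S p = 0)) := by
  classical
  have hnt : Nontrivial (HolS w₁) := by
    refine ⟨⟨0, 1, fun h => ?_⟩⟩
    have := congrFun (congrArg Subtype.val h) w₁
    simp at this
  set f := ev c w₁ P with hfdef
  have hf : HolAt f (w₁, z₁) := holAt_ev c w₁ P z₁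
  -- `f` is regular
  have hne : ¬ ∀ᶠ z in 𝓝 z₁, f (w₁, z) = 0 := by
    intro h
    set p₀ : ℂ[X] := P.map ((Pi.evalRingHom (fun _ : E => ℂ) w₁).comp (HolS w₁).subtype) with hp₀
    have hp₀m : p₀.Monic := hP.map _
    have hroot : ∀ᶠ z in 𝓝 z₁, p₀.IsRoot (z - c) := by
      filter_upwards [h] with z hz
      rw [IsRoot.def, hp₀, eval_map, eval₂_eq_sum_range]
      rw [hfdef, ev_eq_sum c w₁ P (Nat.lt_succ_self _)] at hz
      rw [← hz]
      rfl
    have h0 : p₀ = 0 := by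
      obtain ⟨δ, hδ, hb⟩ := Metric.eventually_nhds_iff_ball.1 hroot
      refine eq_zero_of_infinite_isRoot p₀ (Set.Infinite.mono (s := ball (z₁ - c) δ) ?_
        (infinite_of_mem_nhds _ (ball_mem_nhds _ hδ)))
      intro t ht
      have := hb (t + c) (by
        rw [mem_ball, dist_eq_norm] at *
        convert! ht using 2
        ring)
      simpa using this
    exact hp₀m.ne_zero h0
  obtain ⟨ν, hreg⟩ := exists_reg hf hne
  obtain ⟨q, a, hq, hq0, ha, hqa⟩ := exists_prep hf hreg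
  -- the polynomial `X - (z₁ - c)`
  set κ : HolS w₁ := ⟨fun _ => z₁ - c, holAt_const _ _⟩ with hκ
  set Y : (HolS w₁)[X] := X - C κ with hY
  have hevY : ∀ p, ev c w₁ Y p = p.2 - z₁ := by
    intro p
    rw [hY, map_sub, Pi.sub_apply, ev_X, ev_C]
    simp [hκ]
  have hYm : Y.Monic := monic_X_sub_C κ
  have hYd : Y.natDegree = 1 := natDegree_X_sub_C κ
  -- polynomials from expansions in `z - z₁`
  have hpoly : ∀ b : ℕ → E → ℂ, (∀ j, HolAt (b j) w₁) → ∃ S : (HolS w₁)[X],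
      S.degree < ν ∧ ∀ p, ev c w₁ S p = ∑ j ∈ Finset.range ν, b j p.1 * (p.2 - z₁) ^ j := by
    intro b hb
    have hb' : ∀ j, b j ∈ HolS w₁ := hb
    obtain ⟨B, hB⟩ : ∃ B : ℕ → HolS w₁, ∀ j, (B j : E → ℂ) = b j :=
      ⟨fun j => ⟨b j, hb' j⟩, fun j => rfl⟩
    refine ⟨∑ j ∈ Finset.range ν, C (B j) * Y ^ j, ?_, ?_⟩
    · refine (degree_sum_le _ _).trans_lt ?_
      refine (Finset.sup_lt_iff (WithBot.bot_lt_coe ν)).2 fun j hj => ?_
      refine (degree_mul_le_of_le degree_C_le le_rfl).trans_lt ?_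
      rw [zero_add, degree_eq_natDegree (hYm.pow j).ne_zero, hYm.natDegree_pow, hYd, mul_one]
      exact Nat.cast_lt.2 (Finset.mem_range.1 hj)
    · intro p
      rw [map_sum, Finset.sum_apply]
      refine Finset.sum_congr rfl fun j _ => ?_
      rw [map_mul, map_pow, Pi.mul_apply, Pi.pow_apply, hevY, ev_C, hB]
  -- conversely
  have hcov : ∀ S : (HolS w₁)[X], S.degree < ν → ∃ b : ℕ → E → ℂ,
      ∀ p, ev c w₁ S p = ∑ j ∈ Finset.range ν, b j p.1 * (p.2 - z₁) ^ j := by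
    intro S hS
    -- S = (S.comp (X + C κ)).comp Y
    set S' := S.comp (X + C κ) with hS'
    have hcomp : S = S'.comp Y := by
      rw [hS', comp_assoc]
      simp [hY]
    refine ⟨fun j => (S'.coeff j : E → ℂ), fun p => ?_⟩
    have hS'd : S' = 0 ∨ S'.natDegree < ν := by
      by_cases h0 : S = 0
      · left; rw [hS', h0, zero_comp]
      · right
        have h1 : S'.natDegree = S.natDegree := by
          rw [hS', natDegree_comp_eq_of_mul_ne_zero, natDegree_X_add_C, mul_one]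
          simp [h0]
        rw [h1]
        rwa [← natDegree_lt_iff_degree_lt h0] at hS
    have h2 : ev c w₁ S p = ev z₁ w₁ S' p := by
      conv_lhs => rw [hcomp]
      simp only [ev, coe_eval₂RingHom]
      rw [eval₂_comp, show eval₂ (pull w₁) (fun p => p.2 - c) Y = fun p : E × ℂ => p.2 - z₁
        from funext hevY]
    rw [h2]
    rcases hS'd with h0 | hlt
    · rw [h0]; simp
    · exact ev_eq_sum z₁ w₁ S' hlt p
  obtain ⟨A, hAdeg, hA⟩ := hpoly a ha
  set P₁ : (HolS w₁)[X] := Y ^ ν - A with hP₁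
  have hYν : (Y ^ ν).degree = ν := by
    rw [degree_eq_natDegree (hYm.pow ν).ne_zero, hYm.natDegree_pow, hYd, mul_one]
  have hP₁m : P₁.Monic := (hYm.pow ν).sub_of_left (by rw [hYν]; exact hAdeg)
  have hP₁d : P₁.degree = ν := by
    rw [hP₁, degree_sub_eq_left_of_degree_lt (by rw [hYν]; exact hAdeg), hYν]
  have hP₁n : P₁.natDegree = ν := natDegree_eq_of_degree_eq_some hP₁d
  have hevP₁ : ∀ᶠ p in 𝓝 (w₁, z₁), ev c w₁ P₁ p = q p * f p := by
    filter_upwards [hqa] with p hp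
    rw [hP₁, map_sub, map_pow, Pi.sub_apply, Pi.pow_apply, hevY, hA, hp]
    ring
  have hqne : ∀ᶠ p in 𝓝 (w₁, z₁), q p ≠ 0 := hq.continuousAt.eventually_ne hq0
  -- uniqueness
  have huniq : ∀ (t : E × ℂ → ℂ) (S : (HolS w₁)[X]), HolAt t (w₁, z₁) → S.degree < P₁.degree →
        (∀ᶠ p in 𝓝 (w₁, z₁), t p * ev c w₁ P₁ p + ev c w₁ S p = 0) →
        (∀ᶠ p in 𝓝 (w₁, z₁), t p = 0) ∧ (∀ᶠ p in 𝓝 (w₁, z₁), ev c w₁ S p = 0) := by
    intro t S ht hS h
    rw [hP₁d] at hS
    obtain ⟨b, hb⟩ := hcov S hS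
    have h1 := div_unique hf hreg (q := fun p => t p * q p) (a := b) (ht.mul hq) (by
      filter_upwards [h, hevP₁] with p h1 h2
      rw [← hb p, ← h1, h2]; ring)
    have h2 : ∀ᶠ p in 𝓝 (w₁, z₁), t p = 0 := by
      filter_upwards [h1.1, hqne] with p h3 h4
      exact (mul_eq_zero.1 h3).resolve_right h4
    refine ⟨h2, ?_⟩
    filter_upwards [h, h2] with p h3 h4
    rwa [h4, zero_mul, zero_add] at h3
  -- division
  have hdiv : ∀ g : E × ℂ → ℂ, HolAt g (w₁, z₁) → ∃ (t : E × ℂ → ℂ) (S : (HolS w₁)[X]),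
        HolAt t (w₁, z₁) ∧ (S = 0 ∨ S.natDegree < P₁.natDegree) ∧
        ∀ᶠ p in 𝓝 (w₁, z₁), g p = t p * ev c w₁ P₁ p + ev c w₁ S p := by
    intro g hg
    obtain ⟨t, b, ht, hb, h⟩ := exists_div hf hreg hg
    obtain ⟨S, hSd, hS⟩ := hpoly b hb
    refine ⟨fun p => t p * (q p)⁻¹, S, ht.mul (hq.inv hq0), ?_, ?_⟩
    · by_cases h0 : S = 0
      · exact Or.inl h0
      · right
        rw [hP₁n]
        rwa [← natDegree_lt_iff_degree_lt h0] at hSd
    · filter_upwards [h, hevP₁, hqne] with p h1 h2 h3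
      rw [h1, h2, hS]
      field_simp
  -- the cofactor
  set Q := P /ₘ P₁ with hQ
  have hdm : P = P %ₘ P₁ + P₁ * Q := (modByMonic_add_div P P₁).symm
  have hu := huniq (fun p => ev c w₁ Q p - (q p)⁻¹) (P %ₘ P₁)
    ((holAt_ev c w₁ Q z₁).sub (hq.inv hq0)) (degree_modByMonic_lt P hP₁m) (by
      filter_upwards [hevP₁, hqne] with p h1 h2
      have h3 : ev c w₁ P p = ev c w₁ (P %ₘ P₁) p + ev c w₁ P₁ p * ev c w₁ Q p := by
        conv_lhs => rw [hdm]
        rw [map_add, map_mul, Pi.add_apply, Pi.mul_apply]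
      have h4 : (q p)⁻¹ * ev c w₁ P₁ p = ev c w₁ P p := by
        rw [h1, hfdef]; field_simp
      linear_combination -h3 - h4)
  have hQne : ev c w₁ Q (w₁, z₁) ≠ 0 := by
    have := hu.1.self_of_nhds
    rw [sub_eq_zero] at this
    rw [this]
    exact inv_ne_zero hq0
  have hQ0 : Q ≠ 0 := by
    rintro h0
    apply hQne
    rw [h0, map_zero]; rfl
  refine ⟨P₁, Q, hP₁m, ?_, hQne, ?_, hdiv, huniq⟩
  · have h1 : P₁.degree ≤ P.degree := by
      by_contra hcon
      exact hQ0 ((divByMonic_eq_zero_iff hP₁m).2 (not_le.1 hcon))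
    have h2 := natDegree_divByMonic P hP₁m
    have h3 : P₁.natDegree ≤ P.natDegree := natDegree_le_natDegree h1
    rw [hQ, h2]
    omega
  · filter_upwards [hu.2] with p h1
    have h3 : ev c w₁ P p = ev c w₁ (P %ₘ P₁) p + ev c w₁ P₁ p * ev c w₁ Q p := by
      conv_lhs => rw [hdm]
      rw [map_add, map_mul, Pi.add_apply, Pi.mul_apply]
    rw [hfdef, h3, h1]
    ring

/-- **Relations between polynomials.** -/
theorem poly_relations {ι : Type*} [Fintype ι] [DecidableEq ι] (a : ι) {c : ℂ} {μ : ℕ} {w₁ : E}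
    {z₁ : ℂ} (Fp : ι → (HolS w₁)[X]) (hdeg : ∀ j, (Fp j).natDegree ≤ μ) (hm : (Fp a).Monic)
    (cc : ι → E × ℂ → ℂ) (hc : ∀ j, HolAt (cc j) (w₁, z₁))
    (hrel : ∀ᶠ p in 𝓝 (w₁, z₁), ∑ j, cc j p * ev c w₁ (Fp j) p = 0) :
    ∃ (T : ι → (HolS w₁)[X]) (τ : ι → E × ℂ → ℂ) (v : E × ℂ → ℂ),
      (∀ j, (T j).natDegree ≤ μ) ∧ (∀ j, HolAt (τ j) (w₁, z₁)) ∧ HolAt v (w₁, z₁) ∧
      (∀ k, ∀ᶠ w in 𝓝 w₁, ((∑ j, T j * Fp j).coeff k : E → ℂ) w = 0) ∧
      ∀ᶠ p in 𝓝 (w₁, z₁), (∀ j, j ≠ a → cc j p = τ j p * ev c w₁ (Fp a) p +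
        v p * ev c w₁ (T j) p) ∧
        cc a p = v p * ev c w₁ (T a) p - ∑ j ∈ Finset.univ.erase a, τ j p * ev c w₁ (Fp j) p := by
  have hnt : Nontrivial (HolS w₁) := by
    refine ⟨⟨0, 1, fun h => ?_⟩⟩
    have := congrFun (congrArg Subtype.val h) w₁
    simp at this
  obtain ⟨P₁, Q, hP₁m, hQd, hQne, hPQ, hdiv, huniq⟩ := exists_local (z₁ := z₁) (c := c) (Fp a) hm
  choose t S ht hSd hS using fun j => hdiv (cc j) (hc j)
  have hQH : HolAt (ev c w₁ Q) (w₁, z₁) := holAt_ev c w₁ Q z₁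
  have hQev : ∀ᶠ p in 𝓝 (w₁, z₁), ev c w₁ Q p ≠ 0 := hQH.continuousAt.eventually_ne hQne
  -- the numerator
  set N : (HolS w₁)[X] := -∑ j ∈ Finset.univ.erase a, S j * Fp j with hN
  set N' := N /ₘ P₁ with hN'
  set N'' := N %ₘ P₁ with hN''
  have hNd : N = N'' + P₁ * N' := (modByMonic_add_div N P₁).symm
  set sa : E × ℂ → ℂ := fun p => cc a p + ∑ j ∈ Finset.univ.erase a,
    t j p * (ev c w₁ Q p)⁻¹ * ev c w₁ (Fp j) p with hsa
  have hsaH : HolAt sa (w₁, z₁) := by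
    refine (hc a).add (holAt_sum _ fun j _ => ?_)
    exact ((ht j).mul (hQH.inv hQne)).mul (holAt_ev c w₁ (Fp j) z₁)
  have hSall : ∀ᶠ p in 𝓝 (w₁, z₁), ∀ j, cc j p = t j p * ev c w₁ P₁ p + ev c w₁ (S j) p :=
    Filter.eventually_all.2 hS
  have hu := huniq (fun p => sa p * ev c w₁ Q p - ev c w₁ N' p) (-N'')
    ((hsaH.mul hQH).sub (holAt_ev c w₁ N' z₁)) (by
      rw [degree_neg]; exact degree_modByMonic_lt N hP₁m) (by
      filter_upwards [hrel, hPQ, hQev, hSall] with p h1 h2 h3 h4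
      have h5 : ev c w₁ N p = ev c w₁ N'' p + ev c w₁ P₁ p * ev c w₁ N' p := by
        conv_lhs => rw [hNd]
        rw [map_add, map_mul, Pi.add_apply, Pi.mul_apply]
      have h6 : ev c w₁ N p = -∑ j ∈ Finset.univ.erase a, ev c w₁ (S j) p * ev c w₁ (Fp j) p := by
        rw [hN, map_neg, map_sum, Pi.neg_apply, Finset.sum_apply]
        simp only [map_mul, Pi.mul_apply]
      rw [map_neg, Pi.neg_apply]
      rw [← Finset.add_sum_erase _ _ (Finset.mem_univ a)] at h1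
      have h7 : ∑ j ∈ Finset.univ.erase a, cc j p * ev c w₁ (Fp j) p =
          (∑ j ∈ Finset.univ.erase a, t j p * ev c w₁ (Fp j) p) * ev c w₁ P₁ p +
          ∑ j ∈ Finset.univ.erase a, ev c w₁ (S j) p * ev c w₁ (Fp j) p := by
        rw [Finset.sum_mul, ← Finset.sum_add_distrib]
        refine Finset.sum_congr rfl fun j _ => ?_
        rw [h4 j]; ring
      have h8 : sa p * ev c w₁ Q p = cc a p * ev c w₁ Q p +
          ∑ j ∈ Finset.univ.erase a, t j p * ev c w₁ (Fp j) p := by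
        rw [hsa]
        simp only
        rw [add_mul, Finset.sum_mul]
        congr 1
        refine Finset.sum_congr rfl fun j _ => ?_
        field_simp
      rw [h7, h2] at h1
      linear_combination ev c w₁ P₁ p * h8 + h1 + h5 - h6)
  refine ⟨fun j => if j = a then N' else Q * S j, fun j p => t j p * (ev c w₁ Q p)⁻¹,
    fun p => (ev c w₁ Q p)⁻¹, ?_, fun j => (ht j).mul (hQH.inv hQne), hQH.inv hQne, ?_, ?_⟩
  · have hPd := hdeg a
    -- degree bounds
    have hS' : ∀ j, S j = 0 ∨ (S j).natDegree + 1 ≤ P₁.natDegree := fun j => hSd j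
    intro j
    by_cases hj : j = a
    · simp only [hj, if_true]
      by_cases hP0 : P₁.natDegree = 0
      · -- then all `S j = 0`
        have hS0 : ∀ j, S j = 0 := fun j => (hS' j).resolve_right (by omega)
        have : N = 0 := by
          rw [hN]
          simp [hS0]
        rw [hN', this, zero_divByMonic]; simp
      · rw [hN', natDegree_divByMonic N hP₁m]
        have hNdeg : N.natDegree ≤ P₁.natDegree + μ := by
          rw [hN, natDegree_neg]
          refine natDegree_sum_le_of_forall_le _ _ fun j _ => ?_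
          rcases hS' j with h0 | hlt
          · rw [h0, zero_mul]; simp
          · exact natDegree_mul_le.trans (add_le_add (by omega) (hdeg j))
        omega
    · simp only [hj, if_false]
      rcases hS' j with h0 | hlt
      · rw [h0, mul_zero]; simp
      · refine natDegree_mul_le.trans ?_
        omega
  · intro k
    refine coeff_zero_of_ev (c := c) (z₁ := z₁) ?_ k
    filter_upwards [hu.2, hPQ] with p h1 h2
    rw [map_neg, Pi.neg_apply, neg_eq_zero] at h1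
    rw [map_sum, Finset.sum_apply, ← Finset.add_sum_erase _ _ (Finset.mem_univ a)]
    simp only [if_true, map_mul, Pi.mul_apply]
    have h3 : ∑ x ∈ Finset.univ.erase a, ev c w₁ (if x = a then N' else Q * S x) p *
        ev c w₁ (Fp x) p = -(ev c w₁ Q p * ev c w₁ N p) := by
      rw [hN, map_neg, map_sum, Pi.neg_apply, Finset.sum_apply, mul_neg, neg_neg, Finset.mul_sum]
      refine Finset.sum_congr rfl fun x hx => ?_
      rw [if_neg (Finset.ne_of_mem_erase hx), map_mul, map_mul, Pi.mul_apply, Pi.mul_apply]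
      ring
    have h5 : ev c w₁ N p = ev c w₁ N'' p + ev c w₁ P₁ p * ev c w₁ N' p := by
      conv_lhs => rw [hNd]
      rw [map_add, map_mul, Pi.add_apply, Pi.mul_apply]
    rw [h3, h5, h1, h2]
    ring
  · filter_upwards [hu.1, hSall, hPQ, hQev] with p h1 h2 h3 h4
    refine ⟨fun j hj => ?_, ?_⟩
    · simp only [hj, if_false]
      rw [map_mul, Pi.mul_apply, h2 j, h3]
      field_simp
    · simp only [if_true]
      have h5 : cc a p = sa p - ∑ j ∈ Finset.univ.erase a,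
        t j p * (ev c w₁ Q p)⁻¹ * ev c w₁ (Fp j) p := by rw [hsa]; ring
      rw [h5, ← sub_eq_zero.1 h1]
      field_simp

end Groth.Agent.Gaga.H506.PolyRel
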