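import Mathlib.Analysis.Complex.Schwarz
import Mathlib.Analysis.Complex.RemovableSingularity
import Mathlib.Analysis.Calculus.UniformLimitsDeriv
import Mathlib.Analysis.Calculus.ParametricIntervalIntegral
import Mathlib.Analysis.Calculus.SmoothSeries
import Mathlib.Analysis.Calculus.MeanValue
import Mathlib.MeasureTheory.Integral.CircleIntegral

/-!
# Elementary several complex variables: germs of holomorphic functions on a normed space

`HolAt f x` : `f` is complex differentiable at every point near `x`.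
-/

set_option autoImplicit false

open Filter Topology Metric Set MeasureTheory

namespace Groth.Agent.Gaga.H506.Scv

variable {E : Type*} [NormedAddCommGroup E] [NormedSpace ℂ E]
variable {F : Type*} [NormedAddCommGroup F] [NormedSpace ℂ F]

/-- `f` is holomorphic near `x`. -/
def HolAt (f : E → F) (x : E) : Prop := ∀ᶠ z in 𝓝 x, DifferentiableAt ℂ f z

theorem HolAt.differentiableAt {f : E → F} {x : E} (h : HolAt f x) : DifferentiableAt ℂ f x :=
  h.self_of_nhds

theorem HolAt.continuousAt {f : E → F} {x : E} (h : HolAt f x) : ContinuousAt f x :=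
  h.differentiableAt.continuousAt

theorem HolAt.eventually {f : E → F} {x : E} (h : HolAt f x) : ∀ᶠ z in 𝓝 x, HolAt f z :=
  eventually_eventually_nhds.2 h

theorem holAt_of_differentiableOn {f : E → F} {U : Set E} (hU : IsOpen U)
    (hf : DifferentiableOn ℂ f U) {x : E} (hx : x ∈ U) : HolAt f x := by
  filter_upwards [hU.mem_nhds hx] with z hz
  exact (hf z hz).differentiableAt (hU.mem_nhds hz)

theorem HolAt.exists_ball {f : E → F} {x : E} (h : HolAt f x) :
    ∃ r > 0, DifferentiableOn ℂ f (ball x r) := by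
  obtain ⟨r, hr, h'⟩ := Metric.eventually_nhds_iff_ball.1 h
  exact ⟨r, hr, fun z hz => (h' z hz).differentiableWithinAt⟩

theorem HolAt.congr {f g : E → F} {x : E} (h : HolAt f x) (hfg : f =ᶠ[𝓝 x] g) : HolAt g x := by
  filter_upwards [h, hfg.eventuallyEq_nhds] with z hz hz'
  exact hz.congr_of_eventuallyEq hz'.symm

theorem holAt_const (c : F) (x : E) : HolAt (fun _ : E => c) x :=
  Eventually.of_forall fun _ => differentiableAt_const c

theorem HolAt.add {f g : E → F} {x : E} (hf : HolAt f x) (hg : HolAt g x) :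
    HolAt (fun z => f z + g z) x := by
  filter_upwards [hf, hg] with z h1 h2 using h1.add h2

theorem HolAt.sub {f g : E → F} {x : E} (hf : HolAt f x) (hg : HolAt g x) :
    HolAt (fun z => f z - g z) x := by
  filter_upwards [hf, hg] with z h1 h2 using h1.sub h2

theorem HolAt.neg {f : E → F} {x : E} (hf : HolAt f x) : HolAt (fun z => - f z) x := by
  filter_upwards [hf] with z h1 using h1.neg

theorem HolAt.mul {f g : E → ℂ} {x : E} (hf : HolAt f x) (hg : HolAt g x) :
    HolAt (fun z => f z * g z) x := by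
  filter_upwards [hf, hg] with z h1 h2 using h1.mul h2

theorem HolAt.pow {f : E → ℂ} {x : E} (hf : HolAt f x) (n : ℕ) : HolAt (fun z => f z ^ n) x := by
  filter_upwards [hf] with z h1 using h1.pow n

theorem HolAt.smul {f : E → ℂ} {g : E → F} {x : E} (hf : HolAt f x) (hg : HolAt g x) :
    HolAt (fun z => f z • g z) x := by
  filter_upwards [hf, hg] with z h1 h2 using h1.smul h2

theorem HolAt.inv {f : E → ℂ} {x : E} (hf : HolAt f x) (h0 : f x ≠ 0) :
    HolAt (fun z => (f z)⁻¹) x := by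
  filter_upwards [hf, hf.continuousAt.eventually_ne h0] with z h1 h2 using h1.inv h2

theorem holAt_sum {ι : Type*} (s : Finset ι) {f : ι → E → F} {x : E}
    (hf : ∀ i ∈ s, HolAt (f i) x) : HolAt (fun z => ∑ i ∈ s, f i z) x := by
  have : ∀ᶠ z in 𝓝 x, ∀ i ∈ s, DifferentiableAt ℂ (f i) z :=
    (Filter.eventually_all_finset s).2 hf
  filter_upwards [this] with z hz
  exact DifferentiableAt.fun_sum hz

theorem HolAt.comp {G : Type*} [NormedAddCommGroup G] [NormedSpace ℂ G] {f : E → F} {g : G → E}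
    {x : G} (hf : HolAt f (g x)) (hg : HolAt g x) : HolAt (fun z => f (g z)) x := by
  filter_upwards [hg, hg.continuousAt.eventually hf] with z h1 h2
  exact h2.comp z h1

/-- Cauchy estimate. -/
theorem norm_fderiv_le {f : E → F} {x : E} {R M : ℝ} (hR : 0 < R)
    (hd : DifferentiableOn ℂ f (ball x R)) (hM : ∀ z ∈ ball x R, ‖f z‖ ≤ M) :
    ‖fderiv ℂ f x‖ ≤ 2 * M / R := by
  refine Complex.norm_fderiv_le_div_of_mapsTo_ball hd ?_ hR
  intro z hz
  rw [mem_closedBall, dist_eq_norm]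
  calc ‖f z - f x‖ ≤ ‖f z‖ + ‖f x‖ := norm_sub_le _ _
    _ ≤ M + M := add_le_add (hM z hz) (hM x (mem_ball_self hR))
    _ = 2 * M := by ring

/-- Near a point where `f` is holomorphic, `f` is bounded. -/
theorem HolAt.exists_bound {f : E → F} {x : E} (h : HolAt f x) :
    ∃ r > 0, ∃ M > 0, DifferentiableOn ℂ f (ball x r) ∧ ∀ z ∈ ball x r, ‖f z‖ ≤ M := by
  have h1 : ∀ᶠ z in 𝓝 x, ‖f z‖ < ‖f x‖ + 1 :=
    h.continuousAt.norm.eventually (Iio_mem_nhds (by linarith : ‖f x‖ < ‖f x‖ + 1))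
  obtain ⟨r, hr, h'⟩ := Metric.eventually_nhds_iff_ball.1 (h.and h1)
  refine ⟨r, hr, ‖f x‖ + 1, by positivity, fun z hz => (h' z hz).1.differentiableWithinAt,
    fun z hz => (h' z hz).2.le⟩

/-- The derivative of a holomorphic function is continuous. -/
theorem HolAt.continuousAt_fderiv {f : E → F} {x : E} (h : HolAt f x) :
    ContinuousAt (fderiv ℂ f) x := by
  obtain ⟨r, hr, M, hM, hd, hb⟩ := h.exists_bound
  -- Lipschitz bound on `ball x (r/2)`
  have hder : ∀ z ∈ ball x (r / 2), ‖fderiv ℂ f z‖ ≤ 2 * M / (r / 2) := by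
    intro z hz
    have hsub : ball z (r / 2) ⊆ ball x r := by
      intro y hy
      rw [mem_ball] at *
      linarith [dist_triangle y z x]
    exact norm_fderiv_le (by positivity) (hd.mono hsub) (fun y hy => hb y (hsub hy))
  have hdiff : ∀ z ∈ ball x r, DifferentiableAt ℂ f z := fun z hz =>
    (hd z hz).differentiableAt (isOpen_ball.mem_nhds hz)
  have hlip : ∀ y ∈ ball x (r / 2), ∀ z ∈ ball x (r / 2),
      ‖f z - f y‖ ≤ 2 * M / (r / 2) * ‖z - y‖ := by
    intro y hy z hz
    exact Convex.norm_image_sub_le_of_norm_fderiv_le (𝕜 := ℂ) (s := ball x (r / 2))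
      (fun w hw => hdiff w (ball_subset_ball (by linarith) hw)) hder (convex_ball _ _) hy hz
  rw [Metric.continuousAt_iff]
  intro ε hε
  set C : ℝ := 2 * (2 * M / (r / 2)) / (r / 4) with hC
  have hCpos : 0 < C := by positivity
  refine ⟨min (r / 4) (ε / C / 2), by positivity, fun z hz => ?_⟩
  have hz1 : dist z x < r / 4 := lt_of_lt_of_le hz (min_le_left _ _)
  have hz2 : dist z x < ε / C / 2 := lt_of_lt_of_le hz (min_le_right _ _)
  have hsub1 : ∀ u ∈ ball x (r / 4), u ∈ ball x (r / 2) := fun u hu =>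
    ball_subset_ball (by linarith) hu
  have hsub2 : ∀ u ∈ ball x (r / 4), u + (z - x) ∈ ball x (r / 2) := by
    intro u hu
    rw [mem_ball, dist_eq_norm] at *
    calc ‖u + (z - x) - x‖ = ‖(u - x) + (z - x)‖ := by congr 1; abel
      _ ≤ ‖u - x‖ + ‖z - x‖ := norm_add_le _ _
      _ < r / 2 := by linarith
  have hdg1 : ∀ u ∈ ball x (r / 4), DifferentiableAt ℂ (fun u => f (u + (z - x))) u := by
    intro u hu
    have h1 := hdiff _ (ball_subset_ball (by linarith : r / 2 ≤ r) (hsub2 u hu))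
    exact h1.comp u (differentiableAt_id.add_const _)
  have hdg2 : ∀ u ∈ ball x (r / 4), DifferentiableAt ℂ f u := fun u hu =>
    hdiff _ (ball_subset_ball (by linarith : r / 2 ≤ r) (hsub1 u hu))
  have key := norm_fderiv_le (f := fun u => f (u + (z - x)) - f u) (x := x) (R := r / 4)
    (M := 2 * M / (r / 2) * ‖z - x‖) (by positivity)
    (fun u hu => ((hdg1 u hu).sub (hdg2 u hu)).differentiableWithinAt)
    (fun u hu => by
      have := hlip u (hsub1 u hu) (u + (z - x)) (hsub2 u hu)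
      simpa using this)
  have hx : x ∈ ball x (r / 4) := mem_ball_self (by positivity)
  rw [fderiv_fun_sub (hdg1 x hx) (hdg2 x hx), fderiv_comp_add_right] at key
  have e1 : x + (z - x) = z := by abel
  rw [e1] at key
  rw [dist_eq_norm]
  calc ‖fderiv ℂ f z - fderiv ℂ f x‖ ≤ 2 * (2 * M / (r / 2) * ‖z - x‖) / (r / 4) := key
    _ = C * ‖z - x‖ := by rw [hC]; ring
    _ < C * (ε / C) := by
        apply mul_lt_mul_of_pos_left _ hCpos
        rw [dist_eq_norm] at hz2
        have : 0 < ε / C := by positivity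
        linarith
    _ = ε := by field_simp

/-- A uniformly absolutely convergent series of holomorphic functions is holomorphic. -/
theorem differentiableOn_tsum [CompleteSpace F] {ι : Type*} {f : ι → E → F} {U : Set E}
    (hU : IsOpen U) {u : ι → ℝ} (hu : Summable u) (hf : ∀ i, DifferentiableOn ℂ (f i) U)
    (hb : ∀ i, ∀ z ∈ U, ‖f i z‖ ≤ u i) : DifferentiableOn ℂ (fun z => ∑' i, f i z) U := by
  intro x hx
  obtain ⟨r, hr, hrU⟩ := Metric.isOpen_iff.1 hU x hx
  have hsub : ∀ z ∈ ball x (r / 2), ball z (r / 2) ⊆ U := by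
    intro z hz y hy
    apply hrU
    rw [mem_ball] at *
    linarith [dist_triangle y z x]
  have hzU : ∀ z ∈ ball x (r / 2), z ∈ U := fun z hz => hsub z hz (mem_ball_self (by positivity))
  have h1 : ∀ i, ∀ z, z ∈ ball x (r / 2) → HasFDerivAt (f i) (fderiv ℂ (f i) z) z := fun i z hz =>
    ((hf i z (hzU z hz)).differentiableAt (hU.mem_nhds (hzU z hz))).hasFDerivAt
  have h2 : ∀ i, ∀ z, z ∈ ball x (r / 2) → ‖fderiv ℂ (f i) z‖ ≤ 2 * u i / (r / 2) := by
    intro i z hz
    exact norm_fderiv_le (by positivity) ((hf i).mono (hsub z hz)) (fun y hy => hb i y (hsub z hz hy))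
  have hx' : x ∈ ball x (r / 2) := mem_ball_self (by positivity)
  have h3 : Summable (fun i => 2 * u i / (r / 2)) := by
    exact (hu.mul_left 2).div_const _
  have h4 : Summable (fun i => f i x) := Summable.of_norm_bounded hu (fun i => hb i x hx)
  exact (hasFDerivAt_tsum_of_isPreconnected h3 isOpen_ball
    ((convex_ball x (r / 2)).isPreconnected) h1 h2 hx' h4 hx').differentiableAt.differentiableWithinAt

/-- Circle integrals depend holomorphically on parameters. -/
theorem differentiableAt_circleIntegral [CompleteSpace F] {G : E → ℂ → F} {c : ℂ} {R : ℝ} {w₀ : E}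
    (hG : ∀ ζ ∈ sphere c |R|, HolAt (fun p : E × ℂ => G p.1 p.2) (w₀, ζ)) :
    DifferentiableAt ℂ (fun w => ∮ ζ in C(c, R), G w ζ) w₀ := by
  set g : E × ℂ → F := fun p => G p.1 p.2 with hg
  -- bound
  have hcont : ContinuousOn (fun ζ : ℂ => fderiv ℂ g (w₀, ζ)) (sphere c |R|) := by
    intro ζ hζ
    have h1 := (hG ζ hζ).continuousAt_fderiv
    exact (ContinuousAt.comp (f := fun ζ : ℂ => (w₀, ζ)) (g := fderiv ℂ g) h1
      (by fun_prop)).continuousWithinAt
  obtain ⟨M, hM⟩ := (isCompact_sphere c |R|).exists_bound_of_continuousOn hcont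
  have hev : ∀ᶠ w in 𝓝 w₀, ∀ ζ ∈ sphere c |R|,
      HolAt g (w, ζ) ∧ ‖fderiv ℂ g (w, ζ)‖ < M + 1 := by
    refine IsCompact.eventually_forall_of_forall_eventually (isCompact_sphere c |R|)
      (P := fun w ζ => HolAt g (w, ζ) ∧ ‖fderiv ℂ g (w, ζ)‖ < M + 1) ?_
    intro ζ hζ
    have h1 := (hG ζ hζ).continuousAt_fderiv.norm
    have h2 : ‖fderiv ℂ g (w₀, ζ)‖ < M + 1 := by linarith [hM ζ hζ]
    exact (hG ζ hζ).eventually.and (h1.eventually (Iio_mem_nhds h2))
  have hcm : ∀ θ, circleMap c R θ ∈ sphere c |R| := circleMap_mem_sphere' c R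
  have hF_cont : ∀ w, (∀ ζ ∈ sphere c |R|, HolAt g (w, ζ)) →
      Continuous (fun θ : ℝ => deriv (circleMap c R) θ • G w (circleMap c R θ)) := by
    intro w hw
    have h1 : Continuous (fun θ : ℝ => G w (circleMap c R θ)) := by
      rw [continuous_iff_continuousAt]
      intro θ
      have := (hw _ (hcm θ)).continuousAt
      exact ContinuousAt.comp (f := fun θ : ℝ => (w, circleMap c R θ)) (g := g) this
        (by fun_prop)
    have h2 : Continuous (deriv (circleMap c R)) := by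
      have : deriv (circleMap c R) = fun θ => circleMap 0 R θ * Complex.I := by
        ext θ; rw [deriv_circleMap]
      rw [this]; fun_prop
    exact h2.smul h1
  have h2 : Continuous (deriv (circleMap c R)) := by
    have : deriv (circleMap c R) = fun θ => circleMap 0 R θ * Complex.I := by
      ext θ; rw [deriv_circleMap]
    rw [this]; fun_prop
  have hw₀ := hev.self_of_nhds
  have key := intervalIntegral.hasFDerivAt_integral_of_dominated_of_fderiv_le (𝕜 := ℂ)
    (μ := volume) (a := 0) (b := 2 * Real.pi)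
    (F := fun w θ => deriv (circleMap c R) θ • G w (circleMap c R θ))
    (F' := fun w θ => deriv (circleMap c R) θ •
      ((fderiv ℂ g (w, circleMap c R θ)).comp (ContinuousLinearMap.inl ℂ E ℂ)))
    (x₀ := w₀) (bound := fun _ => |R| * (M + 1)) (s := {w | ∀ ζ ∈ sphere c |R|,
      HolAt g (w, ζ) ∧ ‖fderiv ℂ g (w, ζ)‖ < M + 1}) hev
    (by
      filter_upwards [hev] with w hw
      exact (hF_cont w (fun ζ hζ => (hw ζ hζ).1)).aestronglyMeasurable)
    ((hF_cont w₀ (fun ζ hζ => (hw₀ ζ hζ).1)).intervalIntegrable _ _)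
    (by
      apply Continuous.aestronglyMeasurable
      refine h2.smul ?_
      have h3 : Continuous (fun θ : ℝ => fderiv ℂ g (w₀, circleMap c R θ)) := by
        rw [continuous_iff_continuousAt]
        intro θ
        exact ContinuousAt.comp (f := fun θ : ℝ => (w₀, circleMap c R θ)) (g := fderiv ℂ g)
          (hG _ (hcm θ)).continuousAt_fderiv (by fun_prop)
      exact h3.clm_comp continuous_const)
    (by
      refine Eventually.of_forall fun θ _ w hw => ?_
      rw [norm_smul, deriv_circleMap, norm_mul, Complex.norm_I, mul_one, norm_circleMap_zero]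
      refine mul_le_mul_of_nonneg_left ?_ (abs_nonneg R)
      calc _ ≤ ‖fderiv ℂ g (w, circleMap c R θ)‖ * ‖ContinuousLinearMap.inl ℂ E ℂ‖ :=
            ContinuousLinearMap.opNorm_comp_le _ _
        _ ≤ (M + 1) * 1 := by
            refine mul_le_mul (hw _ (hcm θ)).2.le ?_ (norm_nonneg _) ?_
            · refine ContinuousLinearMap.opNorm_le_bound _ zero_le_one fun x => ?_
              simp [Prod.norm_def]
            · exact (norm_nonneg _).trans (hw _ (hcm θ)).2.le
        _ = M + 1 := mul_one _)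
    (by
      have := (continuous_const (y := |R| * (M + 1)) : Continuous (fun _ : ℝ => |R| * (M + 1)))
      exact this.intervalIntegrable _ _)
    (by
      refine Eventually.of_forall fun θ _ w hw => ?_
      have h3 : HasFDerivAt g (fderiv ℂ g (w, circleMap c R θ)) (w, circleMap c R θ) :=
        (hw _ (hcm θ)).1.differentiableAt.hasFDerivAt
      have h4 : HasFDerivAt (fun w : E => (w, circleMap c R θ)) (ContinuousLinearMap.inl ℂ E ℂ) w :=
        hasFDerivAt_prodMk_left w _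
      exact (h3.comp w h4).const_smul (deriv (circleMap c R) θ))
  exact key.differentiableAt

/-- The operator `g ↦ (g(w,z) - g(w,z₀))/(z - z₀)`. -/
noncomputable def sl (z₀ : ℂ) (g : E × ℂ → F) : E × ℂ → F :=
  fun p => dslope (fun ζ => g (p.1, ζ)) z₀ p.2

omit [NormedAddCommGroup E] [NormedSpace ℂ E] in
theorem sl_spec (z₀ : ℂ) (g : E × ℂ → F) (w : E) (z : ℂ) :
    g (w, z) = g (w, z₀) + (z - z₀) • sl z₀ g (w, z) := by
  have := sub_smul_dslope (fun ζ => g (w, ζ)) z₀ z
  simp only [sl]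
  rw [this]; simp

theorem differentiableOn_slice {W : Set E} {z₀ : ℂ} {r : ℝ} {g : E × ℂ → F}
    (hg : DifferentiableOn ℂ g (W ×ˢ ball z₀ r)) {w : E} (hw : w ∈ W) :
    DifferentiableOn ℂ (fun ζ => g (w, ζ)) (ball z₀ r) := by
  have h1 : DifferentiableOn ℂ (fun ζ : ℂ => (w, ζ)) (ball z₀ r) := by fun_prop
  exact hg.comp h1 (fun ζ hζ => ⟨hw, hζ⟩)

/-- The operator `sl` preserves joint holomorphy. -/
theorem differentiableOn_sl [CompleteSpace F] {W : Set E} (hW : IsOpen W) {z₀ : ℂ} {r : ℝ}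
    {g : E × ℂ → F} (hg : DifferentiableOn ℂ g (W ×ˢ ball z₀ r)) :
    DifferentiableOn ℂ (sl z₀ g) (W ×ˢ ball z₀ r) := by
  rintro ⟨w₁, z₁⟩ ⟨hw₁, hz₁⟩
  simp only at hw₁ hz₁
  have hO : IsOpen (W ×ˢ ball z₀ r) := hW.prod isOpen_ball
  have hr : 0 < r := lt_of_le_of_lt dist_nonneg hz₁
  obtain ⟨ρ, hρ1, hρ2⟩ := exists_between (mem_ball.1 hz₁)
  have hρ : 0 < ρ := lt_of_le_of_lt dist_nonneg hρ1
  have habs : |ρ| = ρ := abs_of_pos hρ
  -- integral representation
  have hrep : ∀ᶠ p : E × ℂ in 𝓝 (w₁, z₁), (2 * Real.pi * Complex.I : ℂ)⁻¹ •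
      (∮ ζ in C(z₀, ρ), (ζ - p.2)⁻¹ • ((ζ - z₀)⁻¹ • (g (p.1, ζ) - g (p.1, z₀)))) = sl z₀ g p := by
    have h1 : W ×ˢ ball z₀ ρ ∈ 𝓝 (w₁, z₁) :=
      (hW.prod isOpen_ball).mem_nhds ⟨hw₁, hρ1⟩
    filter_upwards [h1] with p hp
    obtain ⟨w, z⟩ := p
    obtain ⟨hw, hz⟩ := hp
    simp only at hw hz ⊢
    have hsl : DifferentiableOn ℂ (fun ζ => g (w, ζ)) (ball z₀ r) := differentiableOn_slice hg hw
    have hds : DifferentiableOn ℂ (dslope (fun ζ => g (w, ζ)) z₀) (ball z₀ r) :=
      (Complex.differentiableOn_dslope (isOpen_ball.mem_nhds (mem_ball_self hr))).2 hsl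
    have hds' : DifferentiableOn ℂ (dslope (fun ζ => g (w, ζ)) z₀) (closedBall z₀ ρ) :=
      hds.mono (closedBall_subset_ball hρ2)
    have hC := hds'.circleIntegral_sub_inv_smul hz
    have hne : (2 * Real.pi * Complex.I : ℂ) ≠ 0 := by simp [Real.pi_ne_zero]
    have hcongr : (∮ ζ in C(z₀, ρ), (ζ - z)⁻¹ • ((ζ - z₀)⁻¹ • (g (w, ζ) - g (w, z₀)))) =
        ∮ ζ in C(z₀, ρ), (ζ - z)⁻¹ • dslope (fun ζ => g (w, ζ)) z₀ ζ := by
      refine circleIntegral.integral_congr hρ.le fun ζ hζ => ?_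
      have hζ' : ζ ≠ z₀ := by
        rintro rfl
        simp at hζ
        exact hρ.ne hζ
      rw [dslope_of_ne _ hζ', slope_def_module]
    rw [hcongr, hC, smul_smul, inv_mul_cancel₀ hne, one_smul]
    rfl
  have hmain : DifferentiableAt ℂ (fun p : E × ℂ => (2 * Real.pi * Complex.I : ℂ)⁻¹ •
      (∮ ζ in C(z₀, ρ), (ζ - p.2)⁻¹ • ((ζ - z₀)⁻¹ • (g (p.1, ζ) - g (p.1, z₀))))) (w₁, z₁) := by
    refine DifferentiableAt.const_smul ?_ _
    refine differentiableAt_circleIntegral ?_
    intro ζ hζ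
    rw [habs] at hζ
    have hζ1 : ζ ≠ z₁ := by
      rintro rfl
      rw [mem_sphere] at hζ
      linarith
    have hζ2 : ζ ≠ z₀ := by
      rintro rfl
      simp at hζ
      exact hρ.ne hζ
    have hζ3 : ζ ∈ ball z₀ r := by
      rw [mem_ball, mem_sphere.1 hζ]; exact hρ2
    have hgH : ∀ ζ' ∈ ball z₀ r, HolAt g (w₁, ζ') := fun ζ' hζ' =>
      holAt_of_differentiableOn hO hg ⟨hw₁, hζ'⟩
    have a1 : HolAt (fun p : (E × ℂ) × ℂ => (p.2 - p.1.2)⁻¹) ((w₁, z₁), ζ) := by
      refine HolAt.inv (Eventually.of_forall fun _ => by fun_prop) ?_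
      simpa [sub_eq_zero] using hζ1
    have a2 : HolAt (fun p : (E × ℂ) × ℂ => (p.2 - z₀)⁻¹) ((w₁, z₁), ζ) := by
      refine HolAt.inv (Eventually.of_forall fun _ => by fun_prop) ?_
      simpa [sub_eq_zero] using hζ2
    have a3 : HolAt (fun p : (E × ℂ) × ℂ => g (p.1.1, p.2)) ((w₁, z₁), ζ) :=
      HolAt.comp (f := g) (g := fun p : (E × ℂ) × ℂ => (p.1.1, p.2)) (hgH ζ hζ3)
        (Eventually.of_forall fun _ => by fun_prop)
    have a4 : HolAt (fun p : (E × ℂ) × ℂ => g (p.1.1, z₀)) ((w₁, z₁), ζ) :=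
      HolAt.comp (f := g) (g := fun p : (E × ℂ) × ℂ => (p.1.1, z₀)) (hgH z₀ (mem_ball_self hr))
        (Eventually.of_forall fun _ => by fun_prop)
    exact a1.smul (a2.smul (a3.sub a4))
  exact (hmain.congr_of_eventuallyEq (hrep.mono fun p hp => hp.symm)).differentiableWithinAt

/-- Sup norm bound for `sl`. -/
theorem norm_sl_le {W : Set E} {z₀ : ℂ} {r M : ℝ}
    {g : E × ℂ → F} (hg : DifferentiableOn ℂ g (W ×ˢ ball z₀ r))
    (hM : ∀ p ∈ W ×ˢ ball z₀ r, ‖g p‖ ≤ M) :
    ∀ p ∈ W ×ˢ ball z₀ r, ‖sl z₀ g p‖ ≤ 2 / r * M := by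
  rintro ⟨w, z⟩ ⟨hw, hz⟩
  simp only at hw hz
  have hr : 0 < r := lt_of_le_of_lt dist_nonneg hz
  have hsl : DifferentiableOn ℂ (fun ζ => g (w, ζ)) (ball z₀ r) := differentiableOn_slice hg hw
  have := Complex.norm_dslope_le_div_of_mapsTo_ball (R₂ := 2 * M) hsl
    (fun ζ hζ => by
      rw [mem_closedBall, dist_eq_norm]
      calc ‖g (w, ζ) - g (w, z₀)‖ ≤ ‖g (w, ζ)‖ + ‖g (w, z₀)‖ := norm_sub_le _ _
        _ ≤ M + M := add_le_add (hM _ ⟨hw, hζ⟩) (hM _ ⟨hw, mem_ball_self hr⟩)
        _ = 2 * M := by ring) hz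
  calc ‖sl z₀ g (w, z)‖ ≤ 2 * M / r := this
    _ = 2 / r * M := by ring

end Groth.Agent.Gaga.H506.Scv
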