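import Groth.Agent.Gaga.H506.BoxInd
import Groth.Agent.Gaga.H506.Oka

/-!
# Torsors under finitely generated modules of holomorphic tuples are trivial along small boxes

`exists_trivialization`: let `r : κ → ι → (ℂⁿ → ℂ)` be finitely many tuples of functions holomorphic near `x`. There is a neighbourhood
`D` of `x` such that every torsor (`IsTorsor`) over an open subset of `D` under the module generated by the `r k` has a
section near every product of compact sets contained in that open set. Proof: syzygies by Oka's theorem, additive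
Cousin splitting, and induction on the number of non-constant real coordinates of the product.
-/

set_option autoImplicit false
set_option linter.unusedSectionVars false
set_option linter.dupNamespace false

open Filter Topology Set

namespace Groth.Agent.Gaga.H506.Torsor

open Groth.Agent.Gaga.H506.Scv Groth.Agent.Gaga.H506.KerFG Groth.Agent.Gaga.H506.Oka
open Groth.Agent.Gaga.H506.BoxInd Groth.Agent.Gaga.H294.ThmA

variable {n : ℕ}

/-- `Rep` describes (the local sections of) a torsor over `U` under the module generated by the `r k`. -/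
structure IsTorsor {κ ι : Type*} [Fintype κ] (r : κ → ι → (Fin n → ℂ) → ℂ) (U : Set (Fin n → ℂ))
    (Rep : (Fin n → ℂ) → (ι → (Fin n → ℂ) → ℂ) → Prop) : Prop where
  hol : ∀ y ∈ U, ∀ c, Rep y c → ∀ i, HolAt (c i) y
  congr : ∀ y ∈ U, ∀ c c', Rep y c → (∀ i, ∀ᶠ z in 𝓝 y, c i z = c' i z) → Rep y c'
  open' : ∀ y ∈ U, ∀ c, Rep y c → ∀ᶠ z in 𝓝 y, Rep z c
  sub : ∀ y ∈ U, ∀ c c', Rep y c → Rep y c' → Comb r y (fun i z => c i z - c' i z)
  add : ∀ y ∈ U, ∀ c d, Rep y c → (∀ i, HolAt (d i) y) → Comb r y d →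
    Rep y (fun i z => c i z + d i z)
  loc : ∀ y ∈ U, ∃ c, Rep y c

theorem isOpen_rep {κ ι : Type*} [Fintype κ] {r : κ → ι → (Fin n → ℂ) → ℂ} {U : Set (Fin n → ℂ)}
    {Rep : (Fin n → ℂ) → (ι → (Fin n → ℂ) → ℂ) → Prop} (h : IsTorsor r U Rep) (hU : IsOpen U)
    (c : ι → (Fin n → ℂ) → ℂ) : IsOpen {y | y ∈ U ∧ Rep y c} := by
  rw [isOpen_iff_mem_nhds]
  rintro y ⟨hy, hc⟩
  filter_upwards [hU.mem_nhds hy, h.open' y hy c hc] with z h1 h2 using ⟨h1, h2⟩

/-- Simultaneous Cousin splitting of finitely many functions. -/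
theorem cousin_fam {κ : Type*} [Finite κ] (K : Fin n → Set ℂ) (hK : ∀ i, IsCompact (K i)) (j : Fin n) (b : Bool)
    (c : ℝ) {W : Set (Fin n → ℂ)} (hW : IsOpen W) (hKW : ∀ x ∈ P K, co b (x j) = c → x ∈ W)
    (f : κ → (Fin n → ℂ) → ℂ) (hf : ∀ k, DifferentiableOn ℂ (f k) W) :
    ∃ (W₁ W₂ : Set (Fin n → ℂ)) (f₁ f₂ : κ → (Fin n → ℂ) → ℂ), IsOpen W₁ ∧ IsOpen W₂ ∧
      (∀ x ∈ P K, co b (x j) ≤ c → x ∈ W₁) ∧ (∀ x ∈ P K, c ≤ co b (x j) → x ∈ W₂) ∧
      (∀ k, DifferentiableOn ℂ (f₁ k) W₁) ∧ (∀ k, DifferentiableOn ℂ (f₂ k) W₂) ∧ W₁ ∩ W₂ ⊆ W ∧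
      ∀ x ∈ W₁ ∩ W₂, ∀ k, f k x = f₁ k x - f₂ k x := by
  have h0 := cousin K hK j b c hW hKW (f := fun _ => 0) (differentiableOn_const _)
  have h1 := fun k => cousin K hK j b c hW hKW (hf k)
  choose W₁ W₂ f₁ f₂ a1 a2 a3 a4 a5 a6 a7 a8 using h1
  obtain ⟨V₁, V₂, -, -, b1, b2, b3, b4, -, -, b7, -⟩ := h0
  refine ⟨V₁ ∩ ⋂ k, W₁ k, V₂ ∩ ⋂ k, W₂ k, f₁, f₂, b1.inter (isOpen_iInter_of_finite a1),
    b2.inter (isOpen_iInter_of_finite a2), fun x hx hc => ⟨b3 x hx hc, mem_iInter.2 fun k => a3 k x hx hc⟩,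
    fun x hx hc => ⟨b4 x hx hc, mem_iInter.2 fun k => a4 k x hx hc⟩, fun k => (a5 k).mono ?_,
    fun k => (a6 k).mono ?_, fun x hx => b7 ⟨hx.1.1, hx.2.1⟩, fun x hx k => a8 k x ⟨?_, ?_⟩⟩
  · exact fun x hx => mem_iInter.1 hx.2 k
  · exact fun x hx => mem_iInter.1 hx.2 k
  · exact mem_iInter.1 hx.1.2 k
  · exact mem_iInter.1 hx.2.2 k

/-- **Triviality of torsors along small boxes.** -/
theorem exists_trivialization_aux (x : Fin n → ℂ) (d : ℕ) :
    ∀ (κ ι : Type) [Fintype κ] [Finite ι] (r : κ → ι → (Fin n → ℂ) → ℂ), (∀ k i, HolAt (r k i) x) →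
    ∃ D : Set (Fin n → ℂ), IsOpen D ∧ x ∈ D ∧ ∀ U ⊆ D, IsOpen U →
      ∀ Rep, IsTorsor r U Rep → ∀ K : Fin n → Set ℂ, (∀ i, IsCompact (K i)) → P K ⊆ U → dim K ≤ d →
      ∃ c, ∀ y ∈ P K, Rep y c := by
  induction d with
  | zero =>
    intro κ ι _ _ r hr
    refine ⟨univ, isOpen_univ, mem_univ _, fun U _ hU Rep hRep K hK hKU hd => ?_⟩
    refine box_induction K hK (fun K' => ∃ c, ∀ y ∈ P K', Rep y c) ?_ ?_ ?_
    · intro K' hK'
      exact ⟨fun _ _ => 0, by simp [hK']⟩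
    · intro y hy
      obtain ⟨c, hc⟩ := hRep.loc y (hKU hy)
      exact ⟨_, isOpen_rep hRep hU c, ⟨hKU hy, hc⟩, fun K' _ _ hK' => ⟨c, fun z hz => (hK' hz).2⟩⟩
    · intro K' hK' hsub j b c hnc
      have h1 := dim_cut_lt hnc c
      have h2 := dim_mono hsub
      omega
  | succ d ih =>
    intro κ ι _ _ r hr
    obtain ⟨s, G, hG⟩ := okaProp_fin n x κ ι (fun i k => r k i) (fun i k => hr k i)
    obtain ⟨D₂, hD₂, hxD₂, hT⟩ := ih (Fin s) κ G (fun l k => (hG.self_of_nhds.1 l).1 k)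
    obtain ⟨D₁, hD₁, hD₁o, hxD₁⟩ := _root_.mem_nhds_iff.1 (Filter.inter_mem hG
      (Filter.eventually_all.2 fun k => Filter.eventually_all.2 fun i => (hr k i).eventually))
    refine ⟨D₁ ∩ D₂, hD₁o.inter hD₂, ⟨hxD₁, hxD₂⟩, fun U hUD hU Rep hRep K hK hKU hd => ?_⟩
    have hGU : ∀ y ∈ U, Gen (fun i k => r k i) G y := fun y hy => (hD₁ (hUD hy).1).1
    have hrU : ∀ y ∈ U, ∀ k i, HolAt (r k i) y := fun y hy => (hD₁ (hUD hy).1).2
    refine box_induction K hK (fun K' => ∃ c, ∀ y ∈ P K', Rep y c) ?_ ?_ ?_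
    · intro K' hK'
      exact ⟨fun _ _ => 0, by simp [hK']⟩
    · intro y hy
      obtain ⟨c, hc⟩ := hRep.loc y (hKU hy)
      exact ⟨_, isOpen_rep hRep hU c, ⟨hKU hy, hc⟩, fun K' _ _ hK' => ⟨c, fun z hz => (hK' hz).2⟩⟩
    · rintro K' hK' hsub j b c₀ hnc ⟨c₁, hc₁⟩ ⟨c₂, hc₂⟩
      have hK'U : P K' ⊆ U := fun y hy => hKU fun i => hsub i (hy i)
      have hdim : dim (cut K' j {z | co b z = c₀}) ≤ d := by
        have h1 := dim_cut_lt hnc c₀
        have h2 := dim_mono hsub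
        omega
      -- the torsor of differences
      set U' : Set (Fin n → ℂ) := {y | y ∈ U ∧ Rep y c₁} ∩ {y | y ∈ U ∧ Rep y c₂} with hU'
      have hU'o : IsOpen U' := (isOpen_rep hRep hU c₁).inter (isOpen_rep hRep hU c₂)
      set Rep' : (Fin n → ℂ) → (κ → (Fin n → ℂ) → ℂ) → Prop := fun y v => (∀ k, HolAt (v k) y) ∧
        ∀ i, ∀ᶠ z in 𝓝 y, c₁ i z - c₂ i z = ∑ k, v k z * r k i z with hRep'
      have hTor : IsTorsor G U' Rep' := by
        refine ⟨fun y _ c hc => hc.1, ?_, ?_, ?_, ?_, ?_⟩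
        · intro y hy c c' hc hcc
          refine ⟨fun k => (hc.1 k).congr (hcc k), fun i => ?_⟩
          filter_upwards [hc.2 i, Filter.eventually_all.2 hcc] with z h1 h2
          rw [h1]
          exact Finset.sum_congr rfl fun k _ => by rw [h2 k]
        · intro y hy c hc
          filter_upwards [Filter.eventually_all.2 fun k => (hc.1 k).eventually,
            Filter.eventually_all.2 fun i => eventually_eventually_nhds.2 (hc.2 i)] with z h1 h2
            using ⟨h1, h2⟩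
        · intro y hy c c' hc hc'
          refine (hGU y hy.1.1).2 _ ⟨fun k => (hc.1 k).sub (hc'.1 k), fun i => ?_⟩
          filter_upwards [hc.2 i, hc'.2 i] with z h1 h2
          have : ∑ k, r k i z * (c k z - c' k z) = ∑ k, c k z * r k i z - ∑ k, c' k z * r k i z := by
            rw [← Finset.sum_sub_distrib]
            exact Finset.sum_congr rfl fun k _ => by ring
          rw [this, ← h1, ← h2, sub_self]
        · rintro y hy c v hc hv ⟨e, he, hev⟩
          refine ⟨fun k => (hc.1 k).add (hv k), fun i => ?_⟩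
          have h3 : ∀ l, ∀ᶠ z in 𝓝 y, ∑ k, r k i z * G l k z = 0 := fun l =>
            ((hGU y hy.1.1).1 l).2 i
          filter_upwards [hc.2 i, Filter.eventually_all.2 hev, Filter.eventually_all.2 h3]
            with z h1 h2 h4
          rw [h1]
          have : ∑ k, v k z * r k i z = 0 := by
            calc ∑ k, v k z * r k i z = ∑ k, ∑ l, e l z * (r k i z * G l k z) := by
                  refine Finset.sum_congr rfl fun k _ => ?_
                  rw [h2 k, Finset.sum_mul]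
                  exact Finset.sum_congr rfl fun l _ => by ring
              _ = ∑ l, e l z * ∑ k, r k i z * G l k z := by
                  rw [Finset.sum_comm]
                  exact Finset.sum_congr rfl fun l _ => by rw [Finset.mul_sum]
              _ = 0 := Finset.sum_eq_zero fun l _ => by rw [h4 l, mul_zero]
          simp only [add_mul, Finset.sum_add_distrib, this, add_zero]
        · intro y hy
          exact hRep.sub y hy.1.1 _ _ hy.1.2 hy.2.2
      have hmemU' : ∀ y ∈ P (cut K' j {z | co b z = c₀}), y ∈ U' := by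
        intro y hy
        rw [mem_P_cut] at hy
        refine ⟨⟨hK'U hy.1, hc₁ y (mem_P_cut.2 ⟨hy.1, ?_⟩)⟩, ⟨hK'U hy.1, hc₂ y (mem_P_cut.2 ⟨hy.1, ?_⟩)⟩⟩
        · exact le_of_eq hy.2
        · exact ge_of_eq hy.2
      obtain ⟨v, hv⟩ := hT U' (fun y hy => (hUD hy.1.1).2) hU'o Rep' hTor _
        (isCompact_cut hK' j (isClosed_eq (continuous_co b) continuous_const)) hmemU' hdim
      -- Cousin splitting
      set W : Set (Fin n → ℂ) := {y | y ∈ U' ∧ Rep' y v} with hW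
      have hWo : IsOpen W := isOpen_rep hTor hU'o v
      obtain ⟨W₁, W₂, v₁, v₂, a1, a2, a3, a4, a5, a6, a7, a8⟩ := cousin_fam K' hK' j b c₀ hWo
        (fun y hy hyc => ⟨hmemU' y (mem_P_cut.2 ⟨hy, hyc⟩), hv y (mem_P_cut.2 ⟨hy, hyc⟩)⟩) v
        (fun k y hy => (hy.2.1 k).differentiableAt.differentiableWithinAt)
      set Ω₁ : Set (Fin n → ℂ) := W₁ ∩ {y | y ∈ U ∧ Rep y c₁} with hΩ₁
      set Ω₂ : Set (Fin n → ℂ) := W₂ ∩ {y | y ∈ U ∧ Rep y c₂} with hΩ₂
      have hΩ₁o : IsOpen Ω₁ := a1.inter (isOpen_rep hRep hU c₁)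
      have hΩ₂o : IsOpen Ω₂ := a2.inter (isOpen_rep hRep hU c₂)
      have hv₁ : ∀ y ∈ Ω₁, ∀ k, HolAt (v₁ k) y := fun y hy k =>
        holAt_of_differentiableOn a1 (a5 k) hy.1
      have hv₂ : ∀ y ∈ Ω₂, ∀ k, HolAt (v₂ k) y := fun y hy k =>
        holAt_of_differentiableOn a2 (a6 k) hy.1
      set d₁ : ι → (Fin n → ℂ) → ℂ := fun i z => c₁ i z + ∑ k, (- v₁ k z) * r k i z with hd₁
      set d₂ : ι → (Fin n → ℂ) → ℂ := fun i z => c₂ i z + ∑ k, (- v₂ k z) * r k i z with hd₂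
      have hR₁ : ∀ y ∈ Ω₁, Rep y d₁ := fun y hy =>
        hRep.add y hy.2.1 c₁ _ hy.2.2
          (fun i => holAt_sum _ fun k _ => (hv₁ y hy k).neg.mul (hrU y hy.2.1 k i))
          ⟨fun k z => - v₁ k z, fun k => (hv₁ y hy k).neg, fun i => Eventually.of_forall fun z => rfl⟩
      have hR₂ : ∀ y ∈ Ω₂, Rep y d₂ := fun y hy =>
        hRep.add y hy.2.1 c₂ _ hy.2.2
          (fun i => holAt_sum _ fun k _ => (hv₂ y hy k).neg.mul (hrU y hy.2.1 k i))
          ⟨fun k z => - v₂ k z, fun k => (hv₂ y hy k).neg, fun i => Eventually.of_forall fun z => rfl⟩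
      have heq : ∀ y ∈ Ω₁ ∩ Ω₂, ∀ i, d₁ i y = d₂ i y := by
        intro y hy i
        have h1 : y ∈ W := a7 ⟨hy.1.1, hy.2.1⟩
        have h2 := (h1.2.2 i).self_of_nhds
        have h3 := a8 y ⟨hy.1.1, hy.2.1⟩
        have h4 : ∑ k, v k y * r k i y = ∑ k, v₁ k y * r k i y - ∑ k, v₂ k y * r k i y := by
          rw [← Finset.sum_sub_distrib]
          exact Finset.sum_congr rfl fun k _ => by rw [h3 k]; ring
        have h5 : ∀ u : κ → (Fin n → ℂ) → ℂ, ∑ k, (- u k y) * r k i y = - ∑ k, u k y * r k i y := by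
          intro u
          rw [← Finset.sum_neg_distrib]
          exact Finset.sum_congr rfl fun k _ => by ring
        simp only [hd₁, hd₂]
        rw [h5, h5]
        rw [h4] at h2
        linear_combination h2
      classical
      refine ⟨fun i z => if z ∈ Ω₁ then d₁ i z else d₂ i z, fun y hy => ?_⟩
      rcases le_total (co b (y j)) c₀ with hle | hle
      · have hyΩ : y ∈ Ω₁ := ⟨a3 y hy hle, hK'U hy, hc₁ y (mem_P_cut.2 ⟨hy, hle⟩)⟩
        refine hRep.congr y (hK'U hy) d₁ _ (hR₁ y hyΩ) fun i => ?_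
        filter_upwards [hΩ₁o.mem_nhds hyΩ] with z hz
        rw [if_pos hz]
      · have hyΩ : y ∈ Ω₂ := ⟨a4 y hy hle, hK'U hy, hc₂ y (mem_P_cut.2 ⟨hy, hle⟩)⟩
        refine hRep.congr y (hK'U hy) d₂ _ (hR₂ y hyΩ) fun i => ?_
        filter_upwards [hΩ₂o.mem_nhds hyΩ] with z hz
        by_cases h1 : z ∈ Ω₁
        · rw [if_pos h1, heq z ⟨h1, hz⟩ i]
        · rw [if_neg h1]

/-- **Triviality of torsors along small boxes.** -/
theorem exists_trivialization (x : Fin n → ℂ) {κ ι : Type} [Fintype κ] [Finite ι]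
    (r : κ → ι → (Fin n → ℂ) → ℂ) (hr : ∀ k i, HolAt (r k i) x) :
    ∃ D : Set (Fin n → ℂ), IsOpen D ∧ x ∈ D ∧ ∀ U ⊆ D, IsOpen U →
      ∀ Rep, IsTorsor r U Rep → ∀ K : Fin n → Set ℂ, (∀ i, IsCompact (K i)) → P K ⊆ U →
      ∃ c, ∀ y ∈ P K, Rep y c := by
  obtain ⟨D, h1, h2, h3⟩ := exists_trivialization_aux x (2 * Fintype.card (Fin n)) κ ι r hr
  exact ⟨D, h1, h2, fun U hU hUo Rep hRep K hK hKU => h3 U hU hUo Rep hRep K hK hKU (dim_le K)⟩

end Groth.Agent.Gaga.H506.Torsor
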