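import Groth.Agent.Gaga.H506.Weier
import Mathlib.Algebra.Polynomial.Div
import Mathlib.Algebra.Polynomial.Degree.Lemmas

/-!
# Polynomials with holomorphic coefficients and relations between them at a point
-/

set_option autoImplicit false
set_option linter.unusedSectionVars false

open Filter Topology Metric Set Polynomial

namespace Groth.Agent.Gaga.H506.WeierPoly

open Groth.Agent.Gaga.H506.Scv Groth.Agent.Gaga.H506.Weier

variable {E : Type*} [NormedAddCommGroup E] [NormedSpace ℂ E]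

/-- The ring of functions `E → ℂ` holomorphic near `x`. -/
def HolS (x : E) : Subring (E → ℂ) where
  carrier := {f | HolAt f x}
  mul_mem' ha hb := ha.mul hb
  one_mem' := holAt_const 1 x
  add_mem' ha hb := ha.add hb
  zero_mem' := holAt_const 0 x
  neg_mem' ha := ha.neg

theorem HolS.coe_sum {x : E} {ι : Type*} (s : Finset ι) (f : ι → HolS x) (w : E) :
    ((∑ i ∈ s, f i : HolS x) : E → ℂ) w = ∑ i ∈ s, (f i : E → ℂ) w := by
  rw [AddSubmonoidClass.coe_finsetSum, Finset.sum_apply]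

/-- pull back along the first projection -/
def pull (x : E) : HolS x →+* (E × ℂ → ℂ) where
  toFun f p := (f : E → ℂ) p.1
  map_one' := rfl
  map_mul' _ _ := rfl
  map_zero' := rfl
  map_add' _ _ := rfl

/-- evaluation of polynomials at `z - c` -/
noncomputable def ev (c : ℂ) (x : E) : (HolS x)[X] →+* (E × ℂ → ℂ) :=
  eval₂RingHom (pull x) (fun p => p.2 - c)

@[simp] theorem ev_C (c : ℂ) (x : E) (f : HolS x) (p : E × ℂ) :
    ev c x (C f) p = (f : E → ℂ) p.1 := by
  simp [ev, pull]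

@[simp] theorem ev_X (c : ℂ) (x : E) (p : E × ℂ) : ev c x X p = p.2 - c := by
  simp [ev]

theorem ev_eq_sum (c : ℂ) (x : E) (S : (HolS x)[X]) {N : ℕ} (hN : S.natDegree < N) (p : E × ℂ) :
    ev c x S p = ∑ k ∈ Finset.range N, (S.coeff k : E → ℂ) p.1 * (p.2 - c) ^ k := by
  conv_lhs => rw [S.as_sum_range' N hN]
  rw [map_sum, Finset.sum_apply]
  refine Finset.sum_congr rfl fun k _ => ?_
  rw [← C_mul_X_pow_eq_monomial, map_mul, map_pow]
  simp

theorem holAt_ev (c : ℂ) (x : E) (S : (HolS x)[X]) (z : ℂ) : HolAt (ev c x S) (x, z) := by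
  have h : ev c x S = fun p => ∑ k ∈ Finset.range (S.natDegree + 1),
      (S.coeff k : E → ℂ) p.1 * (p.2 - c) ^ k := funext fun p => ev_eq_sum c x S (Nat.lt_succ_self _) p
  rw [h]
  refine holAt_sum _ fun k _ => ?_
  refine HolAt.mul ?_ ?_
  · exact HolAt.comp (f := (S.coeff k : E → ℂ)) (g := fun p : E × ℂ => p.1) (S.coeff k).2
      (Eventually.of_forall fun _ => by fun_prop)
  · exact Eventually.of_forall fun _ => by fun_prop

/-- coefficients of a polynomial in `z - c` vanishing near `(w₁, z₁)` vanish near `w₁` -/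
theorem coeff_zero_of {N : ℕ} {w₁ : E} {z₁ c : ℂ} {a : ℕ → E → ℂ}
    (h : ∀ᶠ p : E × ℂ in 𝓝 (w₁, z₁), ∑ j ∈ Finset.range N, a j p.1 * (p.2 - c) ^ j = 0) :
    ∀ j < N, ∀ᶠ w in 𝓝 w₁, a j w = 0 := by
  obtain ⟨δ, hδ, hb⟩ := Weier.exists_box h
  intro j hj
  filter_upwards [ball_mem_nhds w₁ hδ] with w hw
  set P : Polynomial ℂ := ∑ j ∈ Finset.range N, Polynomial.C (a j w) * Polynomial.X ^ j with hP
  have hroot : ∀ t ∈ ball (z₁ - c) δ, P.IsRoot t := by
    intro t ht
    have h1 := hb (show (w, c + t) ∈ ball w₁ δ ×ˢ ball z₁ δ from ⟨hw, by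
      rw [mem_ball, dist_eq_norm] at *
      convert! ht using 2
      ring⟩)
    have h2 : ∑ j ∈ Finset.range N, a j w * (c + t - c) ^ j = 0 := h1
    rw [Polynomial.IsRoot.def, hP, Polynomial.eval_finsetSum]
    simpa using h2
  have hP0 : P = 0 := by
    refine Polynomial.eq_zero_of_infinite_isRoot P (Set.Infinite.mono (s := ball (z₁ - c) δ)
      (fun t ht => hroot t ht) ?_)
    exact infinite_of_mem_nhds _ (ball_mem_nhds _ hδ)
  have hco : P.coeff j = a j w := by
    rw [hP, Polynomial.finsetSum_coeff]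
    simp only [Polynomial.coeff_C_mul_X_pow]
    rw [Finset.sum_ite_eq]
    simp [hj]
  rw [← hco, hP0, Polynomial.coeff_zero]

theorem coeff_zero_of_ev {c : ℂ} {w₁ : E} {z₁ : ℂ} {S : (HolS w₁)[X]}
    (h : ∀ᶠ p in 𝓝 (w₁, z₁), ev c w₁ S p = 0) (k : ℕ) :
    ∀ᶠ w in 𝓝 w₁, (S.coeff k : E → ℂ) w = 0 := by
  by_cases hk : S.natDegree < k
  · rw [coeff_eq_zero_of_natDegree_lt hk]
    exact Eventually.of_forall fun _ => rfl
  · refine coeff_zero_of (N := S.natDegree + 1) (z₁ := z₁) (c := c)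
      (a := fun j => (S.coeff j : E → ℂ)) ?_ k (by omega)
    filter_upwards [h] with p hp
    rw [← ev_eq_sum c w₁ S (Nat.lt_succ_self _) p, hp]

/-- a function whose slice is not identically zero near `z₀` is regular of some order -/
theorem exists_reg {f : E × ℂ → ℂ} {w₀ : E} {z₀ : ℂ} (hf : HolAt f (w₀, z₀))
    (hne : ¬ ∀ᶠ z in 𝓝 z₀, f (w₀, z) = 0) : ∃ ν, Reg f ν w₀ z₀ := by
  classical
  by_cases hex : ∃ ν, slk z₀ ν f (w₀, z₀) ≠ 0
  · refine ⟨Nat.find hex, fun j hj => ?_, Nat.find_spec hex⟩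
    by_contra hcon
    exact Nat.find_min hex hj hcon
  · exfalso
    push Not at hex
    apply hne
    obtain ⟨r, hr, M, hM, -, hd, hb⟩ := HolAt.exists_box hf univ_mem
    have hr4 : 0 < r / 4 := by positivity
    filter_upwards [ball_mem_nhds z₀ hr4] with z hz
    have hz' : z ∈ ball z₀ r := ball_subset_ball (by linarith) hz
    have h1 : ∀ k : ℕ, ‖f (w₀, z)‖ ≤ M * (1 / 2) ^ k := by
      intro k
      rw [taylor z₀ k f w₀ z, Finset.sum_eq_zero (fun j _ => by rw [hex j, zero_mul]), zero_add,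
        norm_mul, norm_pow]
      have h2 := norm_slk_le isOpen_ball hd hb k (w₀, z) ⟨mem_ball_self hr, hz'⟩
      have h3 : ‖z - z₀‖ ≤ r / 4 := by
        rw [mem_ball, dist_eq_norm] at hz; exact hz.le
      calc ‖z - z₀‖ ^ k * ‖slk z₀ k f (w₀, z)‖ ≤ (r / 4) ^ k * ((2 / r) ^ k * M) :=
            mul_le_mul (pow_le_pow_left₀ (norm_nonneg _) h3 _) h2 (norm_nonneg _) (by positivity)
        _ = M * (1 / 2) ^ k := by
            rw [← mul_assoc, ← mul_pow]
            have : r / 4 * (2 / r) = 1 / 2 := by field_simp; norm_num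
            rw [this]; ring
    have h4 : Tendsto (fun k : ℕ => M * (1 / 2 : ℝ) ^ k) atTop (𝓝 0) := by
      have := (tendsto_pow_atTop_nhds_zero_of_lt_one (r := (1 / 2 : ℝ)) (by norm_num)
        (by norm_num)).const_mul M
      simpa using this
    exact norm_le_zero_iff.1 (ge_of_tendsto' h4 h1)

/-- **Weierstrass preparation** at `(w₁, z₁)`: `q f = (z - z₁)^ν - ∑ a_j (z-z₁)^j`, `q` a unit. -/
theorem exists_prep {f : E × ℂ → ℂ} {ν : ℕ} {w₁ : E} {z₁ : ℂ} (hf : HolAt f (w₁, z₁))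
    (hreg : Reg f ν w₁ z₁) :
    ∃ (q : E × ℂ → ℂ) (a : ℕ → E → ℂ), HolAt q (w₁, z₁) ∧ q (w₁, z₁) ≠ 0 ∧
      (∀ j, HolAt (a j) w₁) ∧
      ∀ᶠ p in 𝓝 (w₁, z₁), (p.2 - z₁) ^ ν = q p * f p +
        ∑ j ∈ Finset.range ν, a j p.1 * (p.2 - z₁) ^ j := by
  have hg : HolAt (fun p : E × ℂ => (p.2 - z₁) ^ ν) (w₁, z₁) :=
    Eventually.of_forall fun _ => by fun_prop
  obtain ⟨q, a, hq, ha, h⟩ := exists_div hf hreg hg
  refine ⟨q, a, hq, ?_, ha, h⟩
  intro hq0
  -- restrict to the slice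
  obtain ⟨δ, hδ, hb⟩ := Weier.exists_box (Filter.inter_mem h (Filter.inter_mem hf hq))
  have hdf : DifferentiableOn ℂ f (ball w₁ δ ×ˢ ball z₁ δ) := fun p hp =>
    (hb hp).2.1.differentiableWithinAt
  have hdq : DifferentiableOn ℂ q (ball w₁ δ ×ˢ ball z₁ δ) := fun p hp =>
    (hb hp).2.2.differentiableWithinAt
  have hds := differentiableOn_slk isOpen_ball hdf ν
  have hO : IsOpen (ball w₁ δ ×ˢ ball z₁ δ) := isOpen_ball.prod isOpen_ball
  have hmem : (w₁, z₁) ∈ ball w₁ δ ×ˢ ball z₁ δ := ⟨mem_ball_self hδ, mem_ball_self hδ⟩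
  have key := slk_eq_of (z₀ := z₁) (r := δ) (W := ({w₁} : Set E)) ν (G := fun _ : E × ℂ => (0 : ℂ))
    (q := fun p => q p * slk z₁ ν f p - 1) (a := fun j w => a j w) (by
      rintro w rfl
      have h1 : ContinuousAt (fun p => q p * slk z₁ ν f p - 1) (w, z₁) :=
        (((hdq _ hmem).differentiableAt (hO.mem_nhds hmem)).continuousAt.mul
          ((hds _ hmem).differentiableAt (hO.mem_nhds hmem)).continuousAt).sub continuousAt_const
      exact ContinuousAt.comp (f := fun z : ℂ => (w, z)) (g := fun p => q p * slk z₁ ν f p - 1)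
        h1 (by fun_prop)) (by
      rintro ⟨w, z⟩ ⟨hw, hz⟩
      simp only [mem_singleton_iff] at hw
      subst hw
      have h1 : (z - z₁) ^ ν = q (w, z) * f (w, z) +
        ∑ j ∈ Finset.range ν, a j w * (z - z₁) ^ j :=
          (hb (show (w, z) ∈ ball w δ ×ˢ ball z₁ δ from ⟨mem_ball_self hδ, hz⟩)).1
      have h2 : f (w, z) = (z - z₁) ^ ν * slk z₁ ν f (w, z) := by
        rw [taylor z₁ ν f w z, Finset.sum_eq_zero (fun j hj => by
          rw [hreg.1 j (Finset.mem_range.1 hj), zero_mul]), zero_add]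
      simp only
      linear_combination h1 + q (w, z) * h2)
  have h1 := key (w₁, z₁) ⟨rfl, mem_ball_self hδ⟩
  have h2 : slk z₁ ν (fun _ : E × ℂ => (0 : ℂ)) (w₁, z₁) = 0 := by
    have h3 := slk_eq_of (z₀ := z₁) (r := δ) (W := ({w₁} : Set E)) ν
      (G := fun _ : E × ℂ => (0 : ℂ)) (q := fun _ => (0 : ℂ)) (a := fun _ _ => 0)
      (fun w _ => continuousAt_const) (by intro p _; simp)
    exact h3 (w₁, z₁) ⟨rfl, mem_ball_self hδ⟩
  rw [h2] at h1
  simp only [hq0, zero_mul] at h1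
  norm_num at h1

end Groth.Agent.Gaga.H506.WeierPoly
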